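import Cfsg.Agent.Lib.helper9.CE1685D

set_option autoImplicit false

namespace Cfsg.Agent.Lib.helper9.CE1685
open Cfsg.Agent.Lib.helper9.CE
open Cfsg.Spor.Fi22 (Gen)

theorem hrel_0 : D.relsK RW 0 1015 = true := by decide +kernel
theorem hrel_4 : D.relsK RW 4060 5075 = true := by decide +kernel
theorem hrel_8 : D.relsK RW 8120 9135 = true := by decide +kernel
theorem hrel_12 : D.relsK RW 12180 13195 = true := by decide +kernel
theorem htree_0 : allRange 1 19967 D.treeK = true := by decide +kernel
theorem hperm_e : allRange 0 14080 (D.permK Gen.e) = true := by decide +kernel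
theorem hperm_i : allRange 0 14080 (D.permK Gen.i) = true := by decide +kernel
theorem hfin_d : allRange 0 14080 (D.finK Gen.d) = true := by decide +kernel
theorem hfin_h : allRange 0 14080 (D.finK Gen.h) = true := by decide +kernel

end Cfsg.Agent.Lib.helper9.CE1685
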