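import Cfsg.Agent.Lib.helper9.CE1685D

set_option autoImplicit false

namespace Cfsg.Agent.Lib.helper9.CE1685
open Cfsg.Agent.Lib.helper9.CE
open Cfsg.Spor.Fi22 (Gen)

theorem hrel_1 : D.relsK RW 1015 2030 = true := by decide +kernel
theorem hrel_5 : D.relsK RW 5075 6090 = true := by decide +kernel
theorem hrel_9 : D.relsK RW 9135 10150 = true := by decide +kernel
theorem hrel_13 : D.relsK RW 13195 14080 = true := by decide +kernel
theorem hfact_6 : allRange 120000 137280 (D.factK WT) = true := by decide +kernel
theorem hperm_f : allRange 0 14080 (D.permK Gen.f) = true := by decide +kernel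
theorem hfin_a : allRange 0 14080 (D.finK Gen.a) = true := by decide +kernel
theorem hfin_e : allRange 0 14080 (D.finK Gen.e) = true := by decide +kernel
theorem hfin_i : allRange 0 14080 (D.finK Gen.i) = true := by decide +kernel

end Cfsg.Agent.Lib.helper9.CE1685
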