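import Cfsg.Agent.Lib.helper9.CE1685D

set_option autoImplicit false

namespace Cfsg.Agent.Lib.helper9.CE1685
open Cfsg.Agent.Lib.helper9.CE
open Cfsg.Spor.Fi22 (Gen)

theorem hrel_2 : D.relsK RW 2030 3045 = true := by decide +kernel
theorem hrel_6 : D.relsK RW 6090 7105 = true := by decide +kernel
theorem hrel_10 : D.relsK RW 10150 11165 = true := by decide +kernel
theorem hfact_4 : allRange 80000 100000 (D.factK WT) = true := by decide +kernel
theorem hfact_5 : allRange 100000 120000 (D.factK WT) = true := by decide +kernel
theorem hfact_2 : allRange 40000 60000 (D.factK WT) = true := by decide +kernel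
theorem hperm_b : allRange 0 14080 (D.permK Gen.b) = true := by decide +kernel
theorem hperm_d : allRange 0 14080 (D.permK Gen.d) = true := by decide +kernel
theorem hperm_h : allRange 0 14080 (D.permK Gen.h) = true := by decide +kernel
theorem hfin_c : allRange 0 14080 (D.finK Gen.c) = true := by decide +kernel
theorem hfin_g : allRange 0 14080 (D.finK Gen.g) = true := by decide +kernel
theorem hsubK : D.subK SW = true := by decide +kernel
theorem hpi0 : D.pi 0 = 0 := by decide +kernel
theorem hrn0 : D.rn 0 = 0 := by decide +kernel

end Cfsg.Agent.Lib.helper9.CE1685
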