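import Cfsg.Agent.Lib.helper9.CE1685D

set_option autoImplicit false

namespace Cfsg.Agent.Lib.helper9.CE1685
open Cfsg.Agent.Lib.helper9.CE
open Cfsg.Spor.Fi22 (Gen)

theorem hrel_3 : D.relsK RW 3045 4060 = true := by decide +kernel
theorem hrel_7 : D.relsK RW 7105 8120 = true := by decide +kernel
theorem hrel_11 : D.relsK RW 11165 12180 = true := by decide +kernel
theorem hfact_0 : allRange 0 20000 (D.factK WT) = true := by decide +kernel
theorem hfact_3 : allRange 60000 80000 (D.factK WT) = true := by decide +kernel
theorem hfact_1 : allRange 20000 40000 (D.factK WT) = true := by decide +kernel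
theorem hperm_a : allRange 0 14080 (D.permK Gen.a) = true := by decide +kernel
theorem hperm_c : allRange 0 14080 (D.permK Gen.c) = true := by decide +kernel
theorem hperm_g : allRange 0 14080 (D.permK Gen.g) = true := by decide +kernel
theorem hfin_b : allRange 0 14080 (D.finK Gen.b) = true := by decide +kernel
theorem hfin_f : allRange 0 14080 (D.finK Gen.f) = true := by decide +kernel
theorem hrnK : allRange 0 14080 D.rnK = true := by decide +kernel

end Cfsg.Agent.Lib.helper9.CE1685
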