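import Cfsg.Agent.Lib.helper9.CE1689O

set_option autoImplicit false

namespace Cfsg.Agent.Lib.helper9.CE1689
open Cfsg.Agent.Lib.helper9.CE
open Cfsg.Spor.Fi23 (Gen)

theorem hrel_0 : D.relsK RW 0 1078 = true := by decide +kernel
theorem hrel_4 : D.relsK RW 4312 5390 = true := by decide +kernel
theorem hrel_8 : D.relsK RW 8624 9702 = true := by decide +kernel
theorem hrel_12 : D.relsK RW 12936 14014 = true := by decide +kernel
theorem hrel_16 : D.relsK RW 17248 18326 = true := by decide +kernel
theorem hrel_20 : D.relsK RW 21560 22638 = true := by decide +kernel
theorem hrel_24 : D.relsK RW 25872 26950 = true := by decide +kernel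
theorem hrel_28 : D.relsK RW 30184 31262 = true := by decide +kernel
theorem hfact_13 : allRange 260000 280000 (D.factK WT) = true := by decide +kernel
theorem hfact_17 : allRange 340000 360000 (D.factK WT) = true := by decide +kernel
theorem hfact_4 : allRange 80000 100000 (D.factK WT) = true := by decide +kernel
theorem hperm_c : allRange 0 31671 (D.permK Gen.c) = true := by decide +kernel
theorem hperm_g : allRange 0 31671 (D.permK Gen.g) = true := by decide +kernel
theorem hfin_a : allRange 0 31671 (D.finK Gen.a) = true := by decide +kernel
theorem hfin_e : allRange 0 31671 (D.finK Gen.e) = true := by decide +kernel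
theorem hfin_h : allRange 0 31671 (D.finK Gen.h) = true := by decide +kernel
theorem htree_0 : allRange 1 40001 D.treeK = true := by decide +kernel
theorem hfact_19 : allRange 380000 390307 (D.factK WT) = true := by decide +kernel
theorem hrnK : allRange 0 31671 D.rnK = true := by decide +kernel

end Cfsg.Agent.Lib.helper9.CE1689
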