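import Cfsg.Agent.Lib.helper9.CE1689O

set_option autoImplicit false

namespace Cfsg.Agent.Lib.helper9.CE1689
open Cfsg.Agent.Lib.helper9.CE
open Cfsg.Spor.Fi23 (Gen)

theorem hrel_1 : D.relsK RW 1078 2156 = true := by decide +kernel
theorem hrel_5 : D.relsK RW 5390 6468 = true := by decide +kernel
theorem hrel_9 : D.relsK RW 9702 10780 = true := by decide +kernel
theorem hrel_13 : D.relsK RW 14014 15092 = true := by decide +kernel
theorem hrel_17 : D.relsK RW 18326 19404 = true := by decide +kernel
theorem hrel_21 : D.relsK RW 22638 23716 = true := by decide +kernel
theorem hrel_25 : D.relsK RW 26950 28028 = true := by decide +kernel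
theorem horbO : allRange 0 31671 (O.orbK D SW) = true := by decide +kernel
theorem hfact_1 : allRange 20000 40000 (D.factK WT) = true := by decide +kernel
theorem hfact_12 : allRange 240000 260000 (D.factK WT) = true := by decide +kernel
theorem hfact_2 : allRange 40000 60000 (D.factK WT) = true := by decide +kernel
theorem hfact_5 : allRange 100000 120000 (D.factK WT) = true := by decide +kernel
theorem hperm_b : allRange 0 31671 (D.permK Gen.b) = true := by decide +kernel
theorem hperm_f : allRange 0 31671 (D.permK Gen.f) = true := by decide +kernel
theorem hperm_i : allRange 0 31671 (D.permK Gen.i) = true := by decide +kernel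
theorem hfin_d : allRange 0 31671 (D.finK Gen.d) = true := by decide +kernel
theorem hfin_j : allRange 0 31671 (D.finK Gen.j) = true := by decide +kernel
theorem hinvO_1 : O.invsK D SW 11111 22222 = true := by decide +kernel
theorem hpc_1 : allRange 0 31671 (O.pcK 1) = true := by decide +kernel
theorem htree_1 : allRange 40001 64441 D.treeK = true := by decide +kernel

end Cfsg.Agent.Lib.helper9.CE1689
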