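import Cfsg.Agent.Lib.helper9.CE1689O

set_option autoImplicit false

namespace Cfsg.Agent.Lib.helper9.CE1689
open Cfsg.Agent.Lib.helper9.CE
open Cfsg.Spor.Fi23 (Gen)

theorem hrel_2 : D.relsK RW 2156 3234 = true := by decide +kernel
theorem hrel_6 : D.relsK RW 6468 7546 = true := by decide +kernel
theorem hrel_10 : D.relsK RW 10780 11858 = true := by decide +kernel
theorem hrel_14 : D.relsK RW 15092 16170 = true := by decide +kernel
theorem hrel_18 : D.relsK RW 19404 20482 = true := by decide +kernel
theorem hrel_22 : D.relsK RW 23716 24794 = true := by decide +kernel
theorem hrel_26 : D.relsK RW 28028 29106 = true := by decide +kernel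
theorem hrel_29 : D.relsK RW 31262 31671 = true := by decide +kernel
theorem hfact_11 : allRange 220000 240000 (D.factK WT) = true := by decide +kernel
theorem hfact_18 : allRange 360000 380000 (D.factK WT) = true := by decide +kernel
theorem hfact_16 : allRange 320000 340000 (D.factK WT) = true := by decide +kernel
theorem hfact_6 : allRange 120000 140000 (D.factK WT) = true := by decide +kernel
theorem hperm_a : allRange 0 31671 (D.permK Gen.a) = true := by decide +kernel
theorem hperm_e : allRange 0 31671 (D.permK Gen.e) = true := by decide +kernel
theorem hperm_h : allRange 0 31671 (D.permK Gen.h) = true := by decide +kernel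
theorem hfin_c : allRange 0 31671 (D.finK Gen.c) = true := by decide +kernel
theorem hfin_g : allRange 0 31671 (D.finK Gen.g) = true := by decide +kernel
theorem hinvO_0 : O.invsK D SW 0 11111 = true := by decide +kernel
theorem hinvO_2 : O.invsK D SW 22222 31671 = true := by decide +kernel
theorem hfact_8 : allRange 160000 180000 (D.factK WT) = true := by decide +kernel

end Cfsg.Agent.Lib.helper9.CE1689
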