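import Cfsg.Agent.Lib.helper9.CE1689O

set_option autoImplicit false

namespace Cfsg.Agent.Lib.helper9.CE1689
open Cfsg.Agent.Lib.helper9.CE
open Cfsg.Spor.Fi23 (Gen)

theorem hrel_3 : D.relsK RW 3234 4312 = true := by decide +kernel
theorem hrel_7 : D.relsK RW 7546 8624 = true := by decide +kernel
theorem hrel_11 : D.relsK RW 11858 12936 = true := by decide +kernel
theorem hrel_15 : D.relsK RW 16170 17248 = true := by decide +kernel
theorem hrel_19 : D.relsK RW 20482 21560 = true := by decide +kernel
theorem hrel_23 : D.relsK RW 24794 25872 = true := by decide +kernel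
theorem hrel_27 : D.relsK RW 29106 30184 = true := by decide +kernel
theorem hfact_0 : allRange 0 20000 (D.factK WT) = true := by decide +kernel
theorem hfact_10 : allRange 200000 220000 (D.factK WT) = true := by decide +kernel
theorem hfact_15 : allRange 300000 320000 (D.factK WT) = true := by decide +kernel
theorem hfact_14 : allRange 280000 300000 (D.factK WT) = true := by decide +kernel
theorem hfact_3 : allRange 60000 80000 (D.factK WT) = true := by decide +kernel
theorem hfact_7 : allRange 140000 160000 (D.factK WT) = true := by decide +kernel
theorem hperm_d : allRange 0 31671 (D.permK Gen.d) = true := by decide +kernel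
theorem hperm_j : allRange 0 31671 (D.permK Gen.j) = true := by decide +kernel
theorem hfin_b : allRange 0 31671 (D.finK Gen.b) = true := by decide +kernel
theorem hfin_f : allRange 0 31671 (D.finK Gen.f) = true := by decide +kernel
theorem hfin_i : allRange 0 31671 (D.finK Gen.i) = true := by decide +kernel
theorem hfact_9 : allRange 180000 200000 (D.factK WT) = true := by decide +kernel
theorem hpc_2 : allRange 0 31671 (O.pcK 2) = true := by decide +kernel
theorem hsubK : D.subK SW = true := by decide +kernel
theorem hpi0 : D.pi 0 = 0 := by decide +kernel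
theorem hrn0 : D.rn 0 = 0 := by decide +kernel
theorem hpc0_1 : O.pc 1 0 = 0 := by decide +kernel
theorem hpcn_1 : O.pc 1 31671 = 28160 := by decide +kernel
theorem hlab_1 : O.lab 1 = 1 := by decide +kernel
theorem hroot_1 : O.root 1 = 1 := by decide +kernel
theorem hpc0_2 : O.pc 2 0 = 0 := by decide +kernel
theorem hpcn_2 : O.pc 2 31671 = 3510 := by decide +kernel
theorem hlab_2 : O.lab 52 = 2 := by decide +kernel
theorem hroot_2 : O.root 2 = 52 := by decide +kernel

end Cfsg.Agent.Lib.helper9.CE1689
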