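import Cfsg.Agent.Lib.helper9.CE1696pD

set_option autoImplicit false

namespace Cfsg.Agent.Lib.helper9.CE1696p
open Cfsg.Agent.Lib.helper9 Cfsg.Agent.Lib.helper9.CE
open Cfsg.Spor.Fi22 (Gen)

theorem hrelY_0 : CE1685.D.relsK [Yp] 0 909 = true := by decide +kernel
theorem hrelY_2 : CE1685.D.relsK [Yp] 1818 2727 = true := by decide +kernel
theorem hrelY_4 : CE1685.D.relsK [Yp] 3636 4545 = true := by decide +kernel
theorem hrelY_6 : CE1685.D.relsK [Yp] 5454 6363 = true := by decide +kernel
theorem hrelY_8 : CE1685.D.relsK [Yp] 7272 8181 = true := by decide +kernel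
theorem hrelY_10 : CE1685.D.relsK [Yp] 9090 9999 = true := by decide +kernel
theorem hrelY_12 : CE1685.D.relsK [Yp] 10908 11817 = true := by decide +kernel
theorem hrelY_14 : CE1685.D.relsK [Yp] 12726 13635 = true := by decide +kernel
theorem horb0_0 : allRange 0 14080 (OL0.orb2K CE1685.D LW0) = true := by decide +kernel
theorem horbO_0 : allRange 0 14080 (O.orbK CE1685.D CE1685.SW) = true := by decide +kernel
theorem hpc_0 : allRange 0 14080 (O.pcK 0) = true := by decide +kernel
theorem hpc_2 : allRange 0 14080 (O.pcK 2) = true := by decide +kernel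
theorem hpc1 : allRange 0 14080 (OL1.pcK 1) = true := by decide +kernel
theorem hpc3 : allRange 0 14080 (OL3.pcK 1) = true := by decide +kernel
theorem hlabk : allRange 0 14080 (O.labK 3) = true := by decide +kernel
theorem hfix2 : fixK CE1685.D LW2 [191, 0] = true := by decide +kernel
theorem hfix1 : fixK CE1685.D LW1 [0] = true := by decide +kernel
theorem hnum : ∀ s ∈ (List.range 3).sublists, 0 ∈ s → (s.map (fun c => ([1, 3159, 10920] : List Nat).getD c 0)).sum ∣ CE1685.D.n → s = [0] ∨ s = List.range 3 := by decide +kernel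
theorem hYp : Yp = (List.replicate 11 Yw).flatten := by decide +kernel
theorem hpcz_0 : O.pc 0 0 = 0 := by decide +kernel
theorem hpcn_0 : O.pc 0 14080 = 1 := by decide +kernel
theorem hpcz_1 : O.pc 1 0 = 0 := by decide +kernel
theorem hpcn_1 : O.pc 1 14080 = 3159 := by decide +kernel
theorem hpcz_2 : O.pc 2 0 = 0 := by decide +kernel
theorem hpcn_2 : O.pc 2 14080 = 10920 := by decide +kernel
theorem hlab0 : O.lab 0 = 0 := by decide +kernel
theorem hrootO : O.root 0 = 0 := by decide +kernel
theorem hfix0 : fixK CE1685.D LW0 [] = true := by decide +kernel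
theorem hpcz0 : OL0.pc 1 0 = 0 := by decide +kernel
theorem hpcn0 : OL0.pc 1 14080 = 14080 := by decide +kernel
theorem hroot0 : OL0.root 1 = 0 := by decide +kernel
theorem hpcz1 : OL1.pc 1 0 = 0 := by decide +kernel
theorem hpcn1 : OL1.pc 1 14080 = 10920 := by decide +kernel
theorem hroot1 : OL1.root 1 = 191 := by decide +kernel
theorem hpcz2 : OL2.pc 1 0 = 0 := by decide +kernel
theorem hpcn2 : OL2.pc 1 14080 = 4374 := by decide +kernel
theorem hroot2 : OL2.root 1 = 507 := by decide +kernel
theorem hpcz3 : OL3.pc 1 0 = 0 := by decide +kernel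
theorem hpcn3 : OL3.pc 1 14080 = 96 := by decide +kernel
theorem hroot3 : OL3.root 1 = 17 := by decide +kernel

end Cfsg.Agent.Lib.helper9.CE1696p
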