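import Cfsg.Agent.Lib.helper9.CE1696pD

set_option autoImplicit false

namespace Cfsg.Agent.Lib.helper9.CE1696p
open Cfsg.Agent.Lib.helper9 Cfsg.Agent.Lib.helper9.CE
open Cfsg.Spor.Fi22 (Gen)

theorem hrelY_1 : CE1685.D.relsK [Yp] 909 1818 = true := by decide +kernel
theorem hrelY_3 : CE1685.D.relsK [Yp] 2727 3636 = true := by decide +kernel
theorem hrelY_5 : CE1685.D.relsK [Yp] 4545 5454 = true := by decide +kernel
theorem hrelY_7 : CE1685.D.relsK [Yp] 6363 7272 = true := by decide +kernel
theorem hrelY_9 : CE1685.D.relsK [Yp] 8181 9090 = true := by decide +kernel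
theorem hrelY_11 : CE1685.D.relsK [Yp] 9999 10908 = true := by decide +kernel
theorem hrelY_13 : CE1685.D.relsK [Yp] 11817 12726 = true := by decide +kernel
theorem hrelY_15 : CE1685.D.relsK [Yp] 13635 14080 = true := by decide +kernel
theorem horb2_0 : allRange 0 14080 (OL2.orb2K CE1685.D LW2) = true := by decide +kernel
theorem hinvO_0 : O.invsK CE1685.D CE1685.SW 0 12500 = true := by decide +kernel
theorem horb1_0 : allRange 0 14080 (OL1.orb2K CE1685.D LW1) = true := by decide +kernel
theorem hpc_1 : allRange 0 14080 (O.pcK 1) = true := by decide +kernel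
theorem hpc0 : allRange 0 14080 (OL0.pcK 1) = true := by decide +kernel
theorem hpc2 : allRange 0 14080 (OL2.pcK 1) = true := by decide +kernel
theorem horb3_0 : allRange 0 14080 (OL3.orb2K CE1685.D LW3) = true := by decide +kernel
theorem hinvO_1 : O.invsK CE1685.D CE1685.SW 12500 14080 = true := by decide +kernel
theorem hfix3 : fixK CE1685.D LW3 [507, 191, 0] = true := by decide +kernel

end Cfsg.Agent.Lib.helper9.CE1696p
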