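import Cfsg.Agent.Lib.helper9.CE1696s4D

set_option autoImplicit false

namespace Cfsg.Agent.Lib.helper9.CE1696s4
open Cfsg.Agent.Lib.helper9 Cfsg.Agent.Lib.helper9.CE
open Cfsg.Spor.Fi22 (Gen)

theorem hfact_1 : allRange 20000 40000 (D.factK WT) = true := by decide +kernel
theorem hrel_0 : D.relsK RL 0 1920 = true := by decide +kernel
theorem hfin_d : allRange 0 1920 (D.finK Gen.d) = true := by decide +kernel
theorem hfin_f : allRange 0 1920 (D.finK Gen.f) = true := by decide +kernel
theorem hfin_h : allRange 0 1920 (D.finK Gen.h) = true := by decide +kernel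
theorem hrnK : allRange 0 1920 D.rnK = true := by decide +kernel

end Cfsg.Agent.Lib.helper9.CE1696s4
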