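import Cfsg.Agent.Lib.helper9.CE1697pD

set_option autoImplicit false

namespace Cfsg.Agent.Lib.helper9.CE1697p
open Cfsg.Agent.Lib.helper9 Cfsg.Agent.Lib.helper9.CE
open Cfsg.Spor.Fi23 (Gen)

theorem horb3_0 : allRange 0 31168 (OL3.orb2K CE1689.D LW3) = true := by decide +kernel
theorem hrelY_4 : CE1689.D.relsK [Yp] 6416 8020 = true := by decide +kernel
theorem hrelY_7 : CE1689.D.relsK [Yp] 11228 12832 = true := by decide +kernel
theorem hrelY_10 : CE1689.D.relsK [Yp] 16040 17644 = true := by decide +kernel
theorem hrelY_13 : CE1689.D.relsK [Yp] 20852 22456 = true := by decide +kernel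
theorem hrelY_16 : CE1689.D.relsK [Yp] 25664 27268 = true := by decide +kernel
theorem hrelY_19 : CE1689.D.relsK [Yp] 30476 31671 = true := by decide +kernel
theorem horb0_0 : allRange 0 31671 (OL0.orb2K CE1689.D LW0) = true := by decide +kernel
theorem horb2_0 : allRange 0 31671 (OL2.orb2K CE1689.D LW2) = true := by decide +kernel
theorem hinvO_2 : O.invsK CE1689.D CE1689.SW 22222 31671 = true := by decide +kernel
theorem hpc0 : allRange 0 31671 (OL0.pcK 1) = true := by decide +kernel
theorem hpc3 : allRange 0 31671 (OL3.pcK 1) = true := by decide +kernel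
theorem horb4_0 : allRange 0 31671 (OL4.orb2K CE1689.D LW4) = true := by decide +kernel
theorem hfix3 : fixK CE1689.D LW3 [224, 1, 0] = true := by decide +kernel
theorem hfix2 : fixK CE1689.D LW2 [1, 0] = true := by decide +kernel

end Cfsg.Agent.Lib.helper9.CE1697p
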