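import Cfsg.Agent.Lib.helper9.CE1697pD

set_option autoImplicit false

namespace Cfsg.Agent.Lib.helper9.CE1697p
open Cfsg.Agent.Lib.helper9 Cfsg.Agent.Lib.helper9.CE
open Cfsg.Spor.Fi23 (Gen)

theorem hrelY_0 : CE1689.D.relsK [Yp] 0 1604 = true := by decide +kernel
theorem hrelY_2 : CE1689.D.relsK [Yp] 3208 4812 = true := by decide +kernel
theorem hrelY_5 : CE1689.D.relsK [Yp] 8020 9624 = true := by decide +kernel
theorem hrelY_8 : CE1689.D.relsK [Yp] 12832 14436 = true := by decide +kernel
theorem hrelY_11 : CE1689.D.relsK [Yp] 17644 19248 = true := by decide +kernel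
theorem hrelY_14 : CE1689.D.relsK [Yp] 22456 24060 = true := by decide +kernel
theorem hrelY_17 : CE1689.D.relsK [Yp] 27268 28872 = true := by decide +kernel
theorem horb1_0 : allRange 0 31671 (OL1.orb2K CE1689.D LW1) = true := by decide +kernel
theorem hinvO_1 : O.invsK CE1689.D CE1689.SW 11111 22222 = true := by decide +kernel
theorem hpc_1 : allRange 0 31671 (O.pcK 1) = true := by decide +kernel
theorem hpc1 : allRange 0 31671 (OL1.pcK 1) = true := by decide +kernel
theorem hpc4 : allRange 0 31671 (OL4.pcK 1) = true := by decide +kernel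
theorem hlabk : allRange 0 31671 (O.labK 3) = true := by decide +kernel
theorem hfix1 : fixK CE1689.D LW1 [0] = true := by decide +kernel
theorem hnum : ∀ s ∈ (List.range 3).sublists, 0 ∈ s → (s.map (fun c => ([1, 28160, 3510] : List Nat).getD c 0)).sum ∣ CE1689.D.n → s = [0] ∨ s = List.range 3 := by decide +kernel
theorem hYp : Yp = (List.replicate 17 Yw).flatten := by decide +kernel
theorem hpcz_0 : O.pc 0 0 = 0 := by decide +kernel
theorem hpcn_0 : O.pc 0 31671 = 1 := by decide +kernel
theorem hpcz_1 : O.pc 1 0 = 0 := by decide +kernel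
theorem hpcn_1 : O.pc 1 31671 = 28160 := by decide +kernel
theorem hpcz_2 : O.pc 2 0 = 0 := by decide +kernel
theorem hpcn_2 : O.pc 2 31671 = 3510 := by decide +kernel
theorem hlab0 : O.lab 0 = 0 := by decide +kernel
theorem hrootO : O.root 0 = 0 := by decide +kernel
theorem hfix0 : fixK CE1689.D LW0 [] = true := by decide +kernel
theorem hpcz0 : OL0.pc 1 0 = 0 := by decide +kernel
theorem hpcn0 : OL0.pc 1 31671 = 31671 := by decide +kernel
theorem hroot0 : OL0.root 1 = 0 := by decide +kernel
theorem hpcz1 : OL1.pc 1 0 = 0 := by decide +kernel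
theorem hpcn1 : OL1.pc 1 31671 = 28160 := by decide +kernel
theorem hroot1 : OL1.root 1 = 1 := by decide +kernel
theorem hpcz2 : OL2.pc 1 0 = 0 := by decide +kernel
theorem hpcn2 : OL2.pc 1 31671 = 21840 := by decide +kernel
theorem hroot2 : OL2.root 1 = 224 := by decide +kernel
theorem hpcz3 : OL3.pc 1 0 = 0 := by decide +kernel
theorem hpcn3 : OL3.pc 1 31671 = 7776 := by decide +kernel
theorem hroot3 : OL3.root 1 = 1640 := by decide +kernel
theorem hpcz4 : OL4.pc 1 0 = 0 := by decide +kernel
theorem hpcn4 : OL4.pc 1 31671 = 27 := by decide +kernel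
theorem hroot4 : OL4.root 1 = 2 := by decide +kernel

end Cfsg.Agent.Lib.helper9.CE1697p
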