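import Cfsg.Agent.Lib.helper9.CE1697pD

set_option autoImplicit false

namespace Cfsg.Agent.Lib.helper9.CE1697p
open Cfsg.Agent.Lib.helper9 Cfsg.Agent.Lib.helper9.CE
open Cfsg.Spor.Fi23 (Gen)

theorem hrelY_1 : CE1689.D.relsK [Yp] 1604 3208 = true := by decide +kernel
theorem hrelY_3 : CE1689.D.relsK [Yp] 4812 6416 = true := by decide +kernel
theorem hrelY_6 : CE1689.D.relsK [Yp] 9624 11228 = true := by decide +kernel
theorem hrelY_9 : CE1689.D.relsK [Yp] 14436 16040 = true := by decide +kernel
theorem hrelY_12 : CE1689.D.relsK [Yp] 19248 20852 = true := by decide +kernel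
theorem hrelY_15 : CE1689.D.relsK [Yp] 24060 25664 = true := by decide +kernel
theorem hrelY_18 : CE1689.D.relsK [Yp] 28872 30476 = true := by decide +kernel
theorem horbO_0 : allRange 0 31671 (O.orbK CE1689.D CE1689.SW) = true := by decide +kernel
theorem hinvO_0 : O.invsK CE1689.D CE1689.SW 0 11111 = true := by decide +kernel
theorem hpc_0 : allRange 0 31671 (O.pcK 0) = true := by decide +kernel
theorem hpc_2 : allRange 0 31671 (O.pcK 2) = true := by decide +kernel
theorem hpc2 : allRange 0 31671 (OL2.pcK 1) = true := by decide +kernel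
theorem horb3_1 : allRange 31168 31671 (OL3.orb2K CE1689.D LW3) = true := by decide +kernel
theorem hfix4 : fixK CE1689.D LW4 [1640, 224, 1, 0] = true := by decide +kernel

end Cfsg.Agent.Lib.helper9.CE1697p
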