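import Cfsg.Agent.Lib.helper9.CE1697s1D

set_option autoImplicit false

namespace Cfsg.Agent.Lib.helper9.CE1697s1
open Cfsg.Agent.Lib.helper9 Cfsg.Agent.Lib.helper9.CE
open Cfsg.Spor.Fi23 (Gen)

theorem hfact_0 : allRange 0 20000 (D.factK WT) = true := by decide +kernel
theorem hfact_3 : allRange 60000 80000 (D.factK WT) = true := by decide +kernel
theorem hfact_2 : allRange 40000 60000 (D.factK WT) = true := by decide +kernel
theorem hfact_9 : allRange 180000 195517 (D.factK WT) = true := by decide +kernel
theorem hrel_6 : D.relsK RL 7182 8379 = true := by decide +kernel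
theorem hrel_9 : D.relsK RL 10773 11970 = true := by decide +kernel
theorem htree_0 : allRange 1 38895 D.treeK = true := by decide +kernel
theorem hperm_a : allRange 0 14080 (D.permK Gen.a) = true := by decide +kernel
theorem hperm_b : allRange 0 14080 (D.permK Gen.b) = true := by decide +kernel
theorem hperm_c : allRange 0 14080 (D.permK Gen.c) = true := by decide +kernel
theorem hperm_e : allRange 0 14080 (D.permK Gen.e) = true := by decide +kernel
theorem hperm_j : allRange 0 14080 (D.permK Gen.j) = true := by decide +kernel
theorem hfin_a : allRange 0 14080 (D.finK Gen.a) = true := by decide +kernel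
theorem hfin_d : allRange 0 14080 (D.finK Gen.d) = true := by decide +kernel
theorem hfin_g : allRange 0 14080 (D.finK Gen.g) = true := by decide +kernel
theorem hfin_i : allRange 0 14080 (D.finK Gen.i) = true := by decide +kernel

end Cfsg.Agent.Lib.helper9.CE1697s1
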