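import Cfsg.Agent.Lib.helper9.CE1697s1D

set_option autoImplicit false

namespace Cfsg.Agent.Lib.helper9.CE1697s1
open Cfsg.Agent.Lib.helper9 Cfsg.Agent.Lib.helper9.CE
open Cfsg.Spor.Fi23 (Gen)

theorem hfact_4 : allRange 80000 100000 (D.factK WT) = true := by decide +kernel
theorem hfact_5 : allRange 100000 120000 (D.factK WT) = true := by decide +kernel
theorem hfact_8 : allRange 160000 180000 (D.factK WT) = true := by decide +kernel
theorem hrel_1 : D.relsK RL 1197 2394 = true := by decide +kernel
theorem hrel_3 : D.relsK RL 3591 4788 = true := by decide +kernel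
theorem hrel_5 : D.relsK RL 5985 7182 = true := by decide +kernel
theorem hrel_8 : D.relsK RL 9576 10773 = true := by decide +kernel
theorem hrel_11 : D.relsK RL 13167 14080 = true := by decide +kernel
theorem hperm_d : allRange 0 14080 (D.permK Gen.d) = true := by decide +kernel
theorem hperm_f : allRange 0 14080 (D.permK Gen.f) = true := by decide +kernel
theorem hperm_h : allRange 0 14080 (D.permK Gen.h) = true := by decide +kernel
theorem hfin_b : allRange 0 14080 (D.finK Gen.b) = true := by decide +kernel
theorem hfin_e : allRange 0 14080 (D.finK Gen.e) = true := by decide +kernel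
theorem hfin_j : allRange 0 14080 (D.finK Gen.j) = true := by decide +kernel
theorem hrnK : allRange 0 14080 D.rnK = true := by decide +kernel
theorem hsubK : D.subK (genW TL) = true := by decide +kernel
theorem hpi0 : D.pi 0 = 0 := by decide +kernel
theorem hrn0 : D.rn 0 = 0 := by decide +kernel

end Cfsg.Agent.Lib.helper9.CE1697s1
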