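import Cfsg.Agent.Lib.helper9.CE1697s1D

set_option autoImplicit false

namespace Cfsg.Agent.Lib.helper9.CE1697s1
open Cfsg.Agent.Lib.helper9 Cfsg.Agent.Lib.helper9.CE
open Cfsg.Spor.Fi23 (Gen)

theorem hfact_6 : allRange 120000 140000 (D.factK WT) = true := by decide +kernel
theorem hfact_1 : allRange 20000 40000 (D.factK WT) = true := by decide +kernel
theorem hfact_7 : allRange 140000 160000 (D.factK WT) = true := by decide +kernel
theorem hrel_0 : D.relsK RL 0 1197 = true := by decide +kernel
theorem hrel_2 : D.relsK RL 2394 3591 = true := by decide +kernel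
theorem hrel_4 : D.relsK RL 4788 5985 = true := by decide +kernel
theorem hrel_7 : D.relsK RL 8379 9576 = true := by decide +kernel
theorem hrel_10 : D.relsK RL 11970 13167 = true := by decide +kernel
theorem hperm_g : allRange 0 14080 (D.permK Gen.g) = true := by decide +kernel
theorem hperm_i : allRange 0 14080 (D.permK Gen.i) = true := by decide +kernel
theorem hfin_c : allRange 0 14080 (D.finK Gen.c) = true := by decide +kernel
theorem hfin_f : allRange 0 14080 (D.finK Gen.f) = true := by decide +kernel
theorem hfin_h : allRange 0 14080 (D.finK Gen.h) = true := by decide +kernel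

end Cfsg.Agent.Lib.helper9.CE1697s1
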