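import Cfsg.Agent.Lib.helper9.CE1697s2D

set_option autoImplicit false

namespace Cfsg.Agent.Lib.helper9.CE1697s2
open Cfsg.Agent.Lib.helper9 Cfsg.Agent.Lib.helper9.CE
open Cfsg.Spor.Fi23 (Gen)

theorem hrel_0 : D.relsK RL 0 728 = true := by decide +kernel
theorem hfin_a : allRange 0 728 (D.finK Gen.a) = true := by decide +kernel
theorem hfin_c : allRange 0 728 (D.finK Gen.c) = true := by decide +kernel
theorem hfin_e : allRange 0 728 (D.finK Gen.e) = true := by decide +kernel
theorem hfin_g : allRange 0 728 (D.finK Gen.g) = true := by decide +kernel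
theorem hfin_h : allRange 0 728 (D.finK Gen.h) = true := by decide +kernel
theorem hrnK : allRange 0 728 D.rnK = true := by decide +kernel

end Cfsg.Agent.Lib.helper9.CE1697s2
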