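import Cfsg.Agent.Lib.helper9.CosetSimple

/-!
# Further consequences of a stabilizer chain and of collapse presentations

Words fixing a base are trivial; words trivial in a sub-presentation are trivial in the group;
normal subgroups containing an element whose normal closure has small index.
-/

set_option autoImplicit false

namespace Cfsg.Agent.Lib.helper9.CE

section Base

variable {α : Type} {D : Data α} {rels : Set (FreeGroup α)} {S : Set (FreeGroup α)}
  (ρ : PresentedGroup rels →* Equiv.Perm (Fin D.n))
  (e : Fin D.n ≃ PresentedGroup rels ⧸ subH rels S)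

/-- the pointwise stabilizer of the base of a complete stabilizer chain is trivial -/
theorem pstab_eq_bot_of_chain [Finite (PresentedGroup rels)]
    (bl : List (Fin D.n)) (N : ℕ) (hN : 0 < N)
    (hle : N * Nat.card (pstab (PresentedGroup rels) (bl.map e)) ≤
      Nat.card (pstab (PresentedGroup rels) (([] : List (Fin D.n)).map e)))
    (hub : Nat.card (PresentedGroup rels) ≤ N) :
    pstab (PresentedGroup rels) (bl.map e) = ⊥ := by
  have htop : Nat.card (pstab (PresentedGroup rels) (([] : List (Fin D.n)).map e)) =
      Nat.card (PresentedGroup rels) := by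
    show Nat.card (⊤ : Subgroup (PresentedGroup rels)) = _
    exact Subgroup.card_top
  rw [htop] at hle
  have hpos : 0 < Nat.card (pstab (PresentedGroup rels) (bl.map e)) := Nat.card_pos
  have hc1 : Nat.card (pstab (PresentedGroup rels) (bl.map e)) = 1 := by
    by_contra hne
    have : 2 ≤ Nat.card (pstab (PresentedGroup rels) (bl.map e)) := by omega
    have h2 : N * 2 ≤ N * Nat.card (pstab (PresentedGroup rels) (bl.map e)) :=
      Nat.mul_le_mul_left N this
    omega
  exact (Subgroup.card_eq_one).mp hc1

/-- a word fixing every point of a base is trivial -/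
theorem wordG_eq_one_of_base
    (he : ∀ g i, g • e i = e (ρ g i))
    (hρ : ∀ (L : Word α) (i : Fin D.n), (ρ (wordG rels L) i).val = D.walk L i.val)
    (bl : List (Fin D.n)) (hbot : pstab (PresentedGroup rels) (bl.map e) = ⊥)
    (L : Word α) (h : ∀ p ∈ bl, D.walk L p.val = p.val) : wordG rels L = 1 := by
  have h1 := wordG_mem_pstab ρ e he hρ [L] bl
    (fun L' hL' p hp => by rw [List.mem_singleton.mp hL']; exact h p hp) L
    (List.mem_singleton.mpr rfl)
  rw [hbot] at h1
  exact Subgroup.mem_bot.mp h1

end Base

/-- a word in the generators of `TL` that is trivial in a sub-presentation is trivial in the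
group -/
theorem wordG_of_sub {α : Type} [DecidableEq α] (R : Set (FreeGroup α)) (RLp : List (Word α))
    (hR : ∀ L ∈ RLp, wordG R L = 1) (TL : List α) (RL : List (Word α))
    (h : subOK RLp TL RL = true) (L : Word α) (hL : ∀ l ∈ L, l.1 ∈ TL)
    (h1 : wordG (relSet RL) L = 1) : wordG R L = 1 := by
  have hk := restrict_kills R RLp hR TL RL h
  have h2 : PresentedGroup.toGroup hk (wordG (relSet RL) L) = wordG R L :=
    lift_restrictGen R TL L hL
  rw [← h2, h1, map_one]

/-- a normal subgroup containing an element whose normal closure has a quotient of order at most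
`m` has index at most `m` -/
theorem index_le_of_collapse {α : Type} (rels rels' : Set (FreeGroup α)) (Y : FreeGroup α)
    (m : ℕ) (hsub : ∀ r ∈ rels', PresentedGroup.mk rels r = 1 ∨ r = Y)
    (hfin : Finite (PresentedGroup rels') ∧ Nat.card (PresentedGroup rels') ≤ m)
    (K : Subgroup (PresentedGroup rels)) [K.Normal] (hy : PresentedGroup.mk rels Y ∈ K) :
    K.index ≤ m := by
  let f : FreeGroup α →* PresentedGroup rels ⧸ K :=
    (QuotientGroup.mk' K).comp (PresentedGroup.mk rels)
  have hlift : FreeGroup.lift (fun x => f (FreeGroup.of x)) = f := by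
    ext x; simp
  have hf : ∀ r ∈ rels', FreeGroup.lift (fun x => f (FreeGroup.of x)) r = 1 := by
    intro r hr
    rw [hlift]
    rcases hsub r hr with h | rfl
    · show QuotientGroup.mk' K (PresentedGroup.mk rels r) = 1
      rw [h, map_one]
    · show (QuotientGroup.mk (PresentedGroup.mk rels r) : PresentedGroup rels ⧸ K) = 1
      exact (QuotientGroup.eq_one_iff _).mpr hy
  have hsurj : Function.Surjective (PresentedGroup.toGroup hf) := by
    intro x
    obtain ⟨g, rfl⟩ := QuotientGroup.mk_surjective x
    obtain ⟨w, rfl⟩ := QuotientGroup.mk_surjective g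
    refine ⟨PresentedGroup.mk rels' w, ?_⟩
    have h1 : f w = PresentedGroup.toGroup hf (PresentedGroup.mk rels' w) := by
      conv_lhs => rw [← hlift]
      rfl
    exact h1.symm
  haveI := hfin.1
  rw [Subgroup.index_eq_card]
  exact le_trans (Nat.card_le_card_of_surjective _ hsurj) hfin.2

/-- the non-trivial normal subgroups have index at most 2 -/
theorem index_two_of_data {α : Type} {D : Data α} {rels : Set (FreeGroup α)}
    (ρ : PresentedGroup rels →* Equiv.Perm (Fin D.n))
    (N p : ℕ) (y : PresentedGroup rels)
    (hfin : Finite (PresentedGroup rels)) (hcard : Nat.card (PresentedGroup rels) = N)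
    (hinj : Function.Injective ρ)
    (hdich : ∀ K : Subgroup (PresentedGroup rels), K.Normal →
      (∀ g ∈ K, ρ g = 1) ∨ D.n ∣ Nat.card K)
    (hn : 0 < D.n) (hcop : Nat.Coprime p (N / D.n)) (hy : y ^ p = 1)
    (htop : ∀ K : Subgroup (PresentedGroup rels), K.Normal → y ∈ K → K.index ≤ 2) :
    ∀ K : Subgroup (PresentedGroup rels), K.Normal → K ≠ ⊥ → K.index ≤ 2 := by
  intro K hK hKb
  rcases hdich K hK with h1 | h2
  · exfalso
    apply hKb
    rw [eq_bot_iff]
    intro g hg
    have : ρ g = ρ 1 := by rw [h1 g hg, map_one]
    exact Subgroup.mem_bot.mpr (hinj this)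
  · obtain ⟨t, ht⟩ := h2
    have h3 : K.index * Nat.card K = N := by rw [Subgroup.index_mul_card, hcard]
    have h4 : N / D.n = K.index * t := by
      apply Nat.div_eq_of_eq_mul_right hn
      rw [← h3, ht]
      ring
    have h5 : Nat.Coprime p K.index :=
      Nat.Coprime.coprime_dvd_right (Dvd.intro t h4.symm) hcop
    exact htop K hK (mem_of_pow_coprime K y p hy h5)

end Cfsg.Agent.Lib.helper9.CE
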