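import Cfsg.Agent.Lib.helper9.CosetSimple
import Cfsg.Prelude.Def_SporadicB

set_option autoImplicit false

namespace Cfsg.Agent.Lib.helper9.CE

/-! ## Layer 9: maps between presented groups on different generators, double covers -/

section MapGen

variable {α β : Type}

/-- image of a word under a map of the generators into another type of generators (`none`: the
generator is sent to `1`) -/
def mapW (σ : α → Option β) : Word α → Word β
  | [] => []
  | l :: L => match σ l.1 with
      | some y => (y, l.2) :: mapW σ L
      | none => mapW σ L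

/-- the map of the generators into a presented group -/
noncomputable def genMap (R' : Set (FreeGroup β)) (σ : α → Option β) (x : α) : PresentedGroup R' :=
  match σ x with
  | some y => PresentedGroup.of y
  | none => 1

theorem lift_genMap (R' : Set (FreeGroup β)) (σ : α → Option β) (L : Word α) :
    FreeGroup.lift (genMap R' σ) (FreeGroup.mk L) = wordG R' (mapW σ L) := by
  induction L with
  | nil => rw [mapW, wordG_nil]; rfl
  | cons l rest ih =>
    have e1 : FreeGroup.mk (l :: rest) = FreeGroup.mk [l] * FreeGroup.mk rest := by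
      rw [FreeGroup.mul_mk]; rfl
    rw [e1, map_mul, ih]
    obtain ⟨x, b⟩ := l
    have hl : FreeGroup.lift (genMap R' σ) (FreeGroup.mk [(x, b)]) =
        (match σ x with
          | some y => wordG R' [(y, b)]
          | none => 1) := by
      cases b with
      | true =>
        show FreeGroup.lift (genMap R' σ) (FreeGroup.of x) = _
        rw [FreeGroup.lift_apply_of]
        unfold genMap
        cases σ x with
        | none => rfl
        | some y => rfl
      | false =>
        have e2 : FreeGroup.mk [(x, false)] = (FreeGroup.of x)⁻¹ := rfl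
        rw [e2, map_inv, FreeGroup.lift_apply_of]
        unfold genMap
        cases σ x with
        | none => simp
        | some y => simp only []; rw [wordG_false]
    rw [hl]
    show _ = wordG R' (match σ x with
      | some y => (y, b) :: mapW σ rest
      | none => mapW σ rest)
    cases σ x with
    | none => simp
    | some y => simp only []; rw [wordG_cons R' (y, b) (mapW σ rest)]

variable [DecidableEq β]

/-- every word of `RL` is mapped to a word of `RW'` or to the empty word -/
def mapOK (σ : α → Option β) (RL : List (Word α)) (RW' : List (Word β)) : Bool :=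
  RL.all (fun L => decide (mapW σ L ∈ RW') || (mapW σ L).isEmpty)

theorem genMap_kills (R' : Set (FreeGroup β)) (RW' : List (Word β))
    (hR' : ∀ L ∈ RW', wordG R' L = 1) (σ : α → Option β) (RL : List (Word α))
    (h : mapOK σ RL RW' = true) :
    ∀ r ∈ relSet RL, FreeGroup.lift (genMap R' σ) r = 1 := by
  rintro r ⟨L, hL, rfl⟩
  rw [lift_genMap]
  unfold mapOK at h
  have h1 := List.all_eq_true.mp h L hL
  rcases Bool.or_eq_true_iff.mp h1 with h2 | h2
  · exact hR' _ (of_decide_eq_true h2)
  · rw [List.isEmpty_iff.mp h2, wordG_nil]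

end MapGen

section Cover

theorem adj_of_card_two {A : Type*} [Group A] (hA : Nat.card A = 2) (s t : A)
    (h : (s * t) ^ 3 = 1) : s = t := by
  have h2 : ∀ g : A, g ^ 2 = 1 := fun g => hA ▸ pow_card_eq_one'
  have h3 : s * t = 1 := by
    have : (s * t) ^ 3 = (s * t) ^ 2 * (s * t) := pow_succ _ 2
    rw [this, h2, one_mul] at h
    exact h
  have h4 : t * t = 1 := by rw [← pow_two]; exact h2 t
  calc s = s * (t * t) := by rw [h4, mul_one]
    _ = (s * t) * t := by rw [mul_assoc]
    _ = t := by rw [h3, one_mul]

theorem eq_one_of_card_two_pow {A : Type*} [Group A] (hA : Nat.card A = 2) (t : A) (k : ℕ)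
    (hk : k % 2 = 1) (h : t ^ k = 1) : t = 1 := by
  have h2 : t ^ 2 = 1 := hA ▸ pow_card_eq_one'
  have e : k = 2 * (k / 2) + 1 := by omega
  rw [e, pow_succ, pow_mul, h2, one_pow, one_mul] at h
  exact h

/-- a perfect group of twice the order of a non-abelian simple quotient is a non-split double
cover of it -/
theorem nonsplit_double_cover {H : Type*} {K Q : Type*} [Group H] [Group K] [Group Q]
    [Finite Q] (ψ : Q →* H) (hψ : Function.Surjective ψ) (φ : Q →* K)
    (hφ : Function.Surjective φ) (hK : IsSimpleGroup K) (N : ℕ) (hKc : Nat.card K = N)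
    (hN : ¬ N.Prime) (hN0 : 0 < N) (hH : Nat.card H = 2 * N) (hQ : Nat.card Q ≤ 2 * N)
    (hperf : ∀ (L : Subgroup H) [L.Normal], Nat.card (H ⧸ L) = 2 →
      ∀ q : Q, (QuotientGroup.mk (ψ q) : H ⧸ L) = 1) :
    Cfsg.IsNonsplitDoubleCover H K := by
  have hfinH : Finite H := Finite.of_surjective ψ hψ
  have hcQ : Nat.card Q = Nat.card H :=
    le_antisymm (hH ▸ hQ) (Nat.card_le_card_of_surjective ψ hψ)
  have hbij : Function.Bijective ψ := (Nat.bijective_iff_surjective_and_card ψ).mpr ⟨hψ, hcQ⟩
  let e : Q ≃* H := MulEquiv.ofBijective ψ hbij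
  let φ' : H →* K := φ.comp e.symm.toMonoidHom
  have hφ' : Function.Surjective φ' := hφ.comp e.symm.surjective
  have hfinK : Finite K := Finite.of_surjective φ' hφ'
  -- the kernel has order 2
  have hker : Nat.card φ'.ker = 2 := by
    have h1 : Nat.card (H ⧸ φ'.ker) = N := by
      rw [Nat.card_congr (QuotientGroup.quotientKerEquivOfSurjective φ' hφ').toEquiv, hKc]
    have h2 := Subgroup.card_eq_card_quotient_mul_card_subgroup φ'.ker
    rw [hH, h1] at h2
    have h3 : N * 2 = N * Nat.card φ'.ker := by rw [← h2]; ring
    exact (Nat.eq_of_mul_eq_mul_left hN0 h3).symm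
  -- the centre of K is trivial
  have hcK : Subgroup.center K = ⊥ := by
    rcases hK.eq_bot_or_eq_top_of_normal (Subgroup.center K) inferInstance with h | h
    · exact h
    · exfalso
      letI : CommGroup K := { (inferInstance : Group K) with
        mul_comm := fun a b => by
          have ha : a ∈ Subgroup.center K := h ▸ Subgroup.mem_top a
          exact (Subgroup.mem_center_iff.mp ha b).symm }
      have hp : (Nat.card K).Prime := IsSimpleGroup.prime_card
      rw [hKc] at hp
      exact hN hp
  -- the kernel is the centre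
  have hle1 : φ'.ker ≤ Subgroup.center H := by
    intro z hz
    rw [Subgroup.mem_center_iff]
    intro h
    by_cases hz1 : z = 1
    · rw [hz1, mul_one, one_mul]
    · have hc : h * z * h⁻¹ ∈ φ'.ker := (inferInstance : φ'.ker.Normal).conj_mem z hz h
      have hne : h * z * h⁻¹ ≠ 1 := by
        intro h0
        apply hz1
        have : z = h⁻¹ * (h * z * h⁻¹) * h := by group
        rw [this, h0]; group
      obtain ⟨y, _, huniq⟩ := (Nat.card_eq_two_iff' (1 : φ'.ker)).mp hker
      have e1 : (⟨z, hz⟩ : φ'.ker) = y := huniq _ (fun h0 => hz1 (congrArg Subtype.val h0))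
      have e2 : (⟨h * z * h⁻¹, hc⟩ : φ'.ker) = y :=
        huniq _ (fun h0 => hne (congrArg Subtype.val h0))
      have e3 : h * z * h⁻¹ = z := congrArg Subtype.val (e2.trans e1.symm)
      calc h * z = h * z * h⁻¹ * h := by group
        _ = z * h := by rw [e3]
  have hle2 : Subgroup.center H ≤ φ'.ker := by
    intro c hc
    rw [MonoidHom.mem_ker]
    have : φ' c ∈ Subgroup.center K := by
      rw [Subgroup.mem_center_iff]
      intro k
      obtain ⟨h, rfl⟩ := hφ' k
      rw [← map_mul, ← map_mul, Subgroup.mem_center_iff.mp hc h]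
    rw [hcK] at this
    exact Subgroup.mem_bot.mp this
  have hcen : Subgroup.center H = φ'.ker := le_antisymm hle2 hle1
  refine ⟨by rw [hcen]; exact hker, ?_, ?_⟩
  · exact ⟨(QuotientGroup.quotientMulEquivOfEq hcen).trans
      (QuotientGroup.quotientKerEquivOfSurjective φ' hφ')⟩
  · intro L hL
    have h1 := hL.card_mul_card
    rw [hcen, hker, hH] at h1
    have hLc : Nat.card L = N := by omega
    have hidx : L.index = 2 := by
      have h2 := Subgroup.index_mul_card L
      rw [hLc, hH] at h2
      exact Nat.eq_of_mul_eq_mul_right hN0 h2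
    haveI : L.Normal := Subgroup.normal_of_index_eq_two hidx
    have h3 : Nat.card (H ⧸ L) = 2 := by rw [← Subgroup.index_eq_card]; exact hidx
    have h4 : L = ⊤ := by
      rw [eq_top_iff]
      intro h _
      obtain ⟨q, rfl⟩ := hψ h
      exact (QuotientGroup.eq_one_iff _).mp (hperf L h3 q)
    rw [h4, Subgroup.index_top] at hidx
    omega

/-- the presented group of a sub-presentation maps onto the subgroup generated by its
generators -/
theorem sub_surj {α : Type} [DecidableEq α] (R R' : Set (FreeGroup α)) (TL : List α)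
    (S : Set (FreeGroup α)) (hS : ∀ s ∈ S, ∃ x ∈ TL, s = FreeGroup.of x)
    (hS' : ∀ x ∈ TL, FreeGroup.of x ∈ S)
    (hR' : ∀ r ∈ R', FreeGroup.lift (restrictGen R TL) r = 1) :
    ∃ ψ : PresentedGroup R' →* subH R S, Function.Surjective ψ := by
  let ψ0 : PresentedGroup R' →* PresentedGroup R := PresentedGroup.toGroup hR'
  have hgen : ∀ x : α, ψ0 (PresentedGroup.of x) = restrictGen R TL x := fun x =>
    PresentedGroup.toGroup.of hR'
  have hmem : ∀ q, ψ0 q ∈ subH R S := by
    have hle : ψ0.range ≤ subH R S := by
      rw [MonoidHom.range_eq_map, ← PresentedGroup.closure_range_of, MonoidHom.map_closure,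
        Subgroup.closure_le]
      rintro _ ⟨_, ⟨x, rfl⟩, rfl⟩
      rw [hgen]
      unfold restrictGen
      by_cases hx : x ∈ TL
      · rw [if_pos hx]
        exact Subgroup.mem_map_of_mem _ (Subgroup.subset_closure (hS' x hx))
      · rw [if_neg hx]
        exact Subgroup.one_mem _
    intro q
    exact hle ⟨q, rfl⟩
  refine ⟨ψ0.codRestrict (subH R S) hmem, ?_⟩
  rintro ⟨h, hh⟩
  have hle2 : subH R S ≤ ψ0.range := by
    rw [Subgroup.map_le_iff_le_comap, Subgroup.closure_le]
    intro s hs
    obtain ⟨x, hx, rfl⟩ := hS s hs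
    refine ⟨PresentedGroup.of x, ?_⟩
    rw [hgen]
    unfold restrictGen
    rw [if_pos hx]
    rfl
  obtain ⟨q, hq⟩ := hle2 hh
  exact ⟨q, Subtype.ext hq⟩

theorem pair_rel {α : Type} [DecidableEq α] (RL : List (Word α)) (x y : α) (m : ℕ)
    (h : pairW x y m ∈ RL) :
    (PresentedGroup.of x * PresentedGroup.of y : PresentedGroup (relSet RL)) ^ m = 1 := by
  have h1 := wordG_relSet RL (pairW x y m) h
  unfold wordG at h1
  rw [mk_pairW, map_pow, map_mul] at h1
  exact h1

end Cover

end Cfsg.Agent.Lib.helper9.CE
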