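import Mathlib
import Cfsg.Prelude.Def_SporCoxeter

set_option autoImplicit false

namespace Cfsg.Agent.Lib.helper9.CE

/-! ## Layer 1: abstract Schreier argument -/

/-- If `G` acts on a type `X` via `ρ`, `t : X → G` are coset representatives with `ρ (t j) b = j`,
`t b = 1`, `H` fixes `b`, and the generators move the cosets `t i H` as `ρ` moves points, then
`j ↦ t j H` is a bijection from `X` onto `G ⧸ H` that is `G`-equivariant. -/
theorem schreier_fact {G : Type*} [Group G] (H : Subgroup G) {X : Type*}
    (ρ : G →* Equiv.Perm X) (t : X → G) (S : Set G) (hS : Subgroup.closure S = ⊤)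
    (hfact : ∀ g ∈ S, ∀ i : X, (t (ρ g i))⁻¹ * (g * t i) ∈ H) :
    ∀ g : G, ∀ i : X, (t (ρ g i))⁻¹ * (g * t i) ∈ H := by
  let K : Subgroup G :=
    { carrier := {g | ∀ i : X, (t (ρ g i))⁻¹ * (g * t i) ∈ H}
      one_mem' := by
        intro i
        simp
      mul_mem' := by
        intro a b ha hb i
        have h1 := ha (ρ b i)
        have h2 := hb i
        have h3 := H.mul_mem h1 h2
        have e : (t (ρ a (ρ b i)))⁻¹ * (a * t (ρ b i)) * ((t (ρ b i))⁻¹ * (b * t i))
            = (t (ρ (a * b) i))⁻¹ * (a * b * t i) := by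
          rw [map_mul, Equiv.Perm.mul_apply]; group
        rw [← e]; exact h3
      inv_mem' := by
        intro a ha i
        have h1 := ha (ρ a⁻¹ i)
        have e0 : ρ a (ρ a⁻¹ i) = i := by
          rw [← Equiv.Perm.mul_apply, ← map_mul, mul_inv_cancel, map_one]; rfl
        rw [e0] at h1
        have h2 := H.inv_mem h1
        have e : ((t i)⁻¹ * (a * t (ρ a⁻¹ i)))⁻¹ = (t (ρ a⁻¹ i))⁻¹ * (a⁻¹ * t i) := by group
        rw [← e]; exact h2 }
  have hK : K = ⊤ := by
    rw [eq_top_iff, ← hS, Subgroup.closure_le]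
    intro g hg
    exact hfact g hg
  intro g
  have : g ∈ K := by rw [hK]; trivial
  exact this

/-- The coset map `j ↦ t j H`. -/
def cosetMap {G : Type*} [Group G] (H : Subgroup G) {X : Type*} (t : X → G) (j : X) : G ⧸ H :=
  QuotientGroup.mk (t j)

theorem cosetMap_bijective {G : Type*} [Group G] (H : Subgroup G) {X : Type*}
    (ρ : G →* Equiv.Perm X) (t : X → G) (b : X) (ht0 : t b = 1) (htr : ∀ j, ρ (t j) b = j)
    (hH : ∀ h ∈ H, ρ h b = b)
    (hfact : ∀ g : G, ∀ i : X, (t (ρ g i))⁻¹ * (g * t i) ∈ H) :
    Function.Bijective (cosetMap H t) := by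
  constructor
  · intro i j hij
    have h1 : (t i)⁻¹ * t j ∈ H := QuotientGroup.eq.mp hij
    have h2 := hH _ h1
    rw [map_mul, Equiv.Perm.mul_apply, htr j, map_inv] at h2
    have h3 : ρ (t i) b = j := by
      have := congrArg (ρ (t i)) h2
      rw [← Equiv.Perm.mul_apply, mul_inv_cancel] at this
      exact this.symm ▸ rfl
    rw [htr i] at h3
    exact h3
  · intro q
    obtain ⟨g, rfl⟩ := QuotientGroup.mk_surjective q
    refine ⟨ρ g b, ?_⟩
    have h := hfact g b
    rw [ht0, mul_one] at h
    exact QuotientGroup.eq.mpr h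

theorem cosetMap_smul {G : Type*} [Group G] (H : Subgroup G) {X : Type*}
    (ρ : G →* Equiv.Perm X) (t : X → G)
    (hfact : ∀ g : G, ∀ i : X, (t (ρ g i))⁻¹ * (g * t i) ∈ H) (g : G) (i : X) :
    g • cosetMap H t i = cosetMap H t (ρ g i) := by
  unfold cosetMap
  rw [MulAction.Quotient.smul_mk]
  exact (QuotientGroup.eq.mpr (hfact g i)).symm

theorem index_eq_card {G : Type*} [Group G] (H : Subgroup G) {X : Type*}
    (ρ : G →* Equiv.Perm X) (t : X → G) (b : X) (ht0 : t b = 1) (htr : ∀ j, ρ (t j) b = j)
    (hH : ∀ h ∈ H, ρ h b = b)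
    (hfact : ∀ g : G, ∀ i : X, (t (ρ g i))⁻¹ * (g * t i) ∈ H) :
    H.index = Nat.card X := by
  rw [Subgroup.index_eq_card]
  exact (Nat.card_congr (Equiv.ofBijective _ (cosetMap_bijective H ρ t b ht0 htr hH hfact))).symm

/-! ## Layer 2: tables and kernel-friendly checks -/

abbrev Word (α : Type) := List (α × Bool)

/-- `bnd v k = k (v-1)` if `0 < v`, else `false`. -/
noncomputable def bnd (v : Nat) (k : Nat → Bool) : Bool :=
  Nat.rec (motive := fun _ => Bool) false (fun m _ => k m) v

theorem rec_true {v : Nat} {k : Nat → Bool}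
    (h : Nat.rec (motive := fun _ => Bool) false (fun m _ => k m) v = true) :
    0 < v ∧ k (v - 1) = true := by
  cases v with
  | zero => exact absurd h (by simp)
  | succ m => exact ⟨Nat.succ_pos m, h⟩

theorem bnd_true {v : Nat} {k : Nat → Bool} (h : bnd v k = true) : 0 < v ∧ k (v - 1) = true :=
  rec_true h

theorem bnd_succ (t : Nat) (k : Nat → Bool) : bnd (Nat.succ t) k = k t := rfl

/-- `allRange1 lo hi f`: `f k` holds for all `lo ≤ k < hi` (evaluated downwards from `hi - 1`). -/
noncomputable def allRange1 (lo hi : Nat) (f : Nat → Bool) : Bool :=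
  Nat.rec (motive := fun _ => Bool) true
    (fun k ih => Bool.rec (motive := fun _ => Bool)
      (Bool.rec (motive := fun _ => Bool) false ih (f k)) true (Nat.blt k lo)) hi

theorem allRange1_succ (lo m : Nat) (f : Nat → Bool) :
    allRange1 lo (m + 1) f = Bool.rec (motive := fun _ => Bool)
      (Bool.rec (motive := fun _ => Bool) false (allRange1 lo m f) (f m)) true (Nat.blt m lo) := rfl

theorem allRange1_spec {lo hi : Nat} {f : Nat → Bool} (h : allRange1 lo hi f = true) :
    ∀ k, lo ≤ k → k < hi → f k = true := by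
  induction hi with
  | zero => intro k _ hk; omega
  | succ m ih =>
    intro k hlo hk
    rw [allRange1_succ] at h
    by_cases hm : m < lo
    · omega
    · have hb : Nat.blt m lo = false := by
        cases hb : Nat.blt m lo with
        | false => rfl
        | true => exact absurd ((Nat.blt_eq).mp hb) hm
      rw [hb] at h
      cases hf : f m with
      | false => rw [hf] at h; exact absurd h (by simp)
      | true =>
        rw [hf] at h
        rcases Nat.lt_succ_iff_lt_or_eq.mp hk with hk' | rfl
        · exact ih h k hlo hk'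
        · exact hf

/-- `allRange lo hi f`: `f k` holds for all `lo ≤ k < hi`; a two-level loop over blocks of 256
points, which keeps the recursion depth of the kernel small. -/
noncomputable def allRange (lo hi : Nat) (f : Nat → Bool) : Bool :=
  allRange1 0 (Nat.succ (Nat.div (Nat.sub hi lo) 256)) (fun q =>
    allRange1 (Nat.add lo (Nat.mul 256 q))
      (Bool.rec (motive := fun _ => Nat) hi (Nat.add lo (Nat.mul 256 (Nat.succ q)))
        (Nat.ble (Nat.add lo (Nat.mul 256 (Nat.succ q))) hi)) f)

theorem allRange_spec {lo hi : Nat} {f : Nat → Bool} (h : allRange lo hi f = true) :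
    ∀ k, lo ≤ k → k < hi → f k = true := by
  intro k hlo hk
  unfold allRange at h
  have hq : (k - lo) / 256 < Nat.succ (Nat.div (Nat.sub hi lo) 256) := by
    have h1 : (k - lo) / 256 ≤ (hi - lo) / 256 := Nat.div_le_div_right (by omega)
    exact Nat.lt_succ_of_le h1
  have h2 := allRange1_spec h ((k - lo) / 256) (Nat.zero_le _) hq
  have e1 := Nat.div_add_mod (k - lo) 256
  have e2 := Nat.mod_lt (k - lo) (show 0 < 256 by norm_num)
  have hlo' : Nat.add lo (Nat.mul 256 ((k - lo) / 256)) ≤ k := by
    show lo + 256 * ((k - lo) / 256) ≤ k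
    omega
  apply allRange1_spec h2 k hlo'
  cases hb : Nat.ble (Nat.add lo (Nat.mul 256 (Nat.succ ((k - lo) / 256)))) hi with
  | true =>
    show k < lo + 256 * ((k - lo) / 256 + 1)
    omega
  | false => exact hk

theorem allRange_join {lo mid hi : Nat} {f : Nat → Bool}
    (h1 : ∀ k, lo ≤ k → k < mid → f k = true) (h2 : ∀ k, mid ≤ k → k < hi → f k = true) :
    ∀ k, lo ≤ k → k < hi → f k = true := by
  intro k hlo hhi
  by_cases h : k < mid
  · exact h1 k hlo h
  · exact h2 k (Nat.le_of_not_lt h) hhi

/-- kernel-friendly list indexing with a default value -/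
noncomputable def getD' {β : Type} (L : List β) (d : β) : Nat → β :=
  List.rec (motive := fun _ => Nat → β) (fun _ => d)
    (fun b _ ih j => Nat.rec (motive := fun _ => β) b (fun j' _ => ih j') j) L

/-- succ-encoded lookup in a list of blocks: entry `i` (of `w` bits) sits in block `i / B` at
position `i % B`; the result is the entry plus one. -/
noncomputable def look1 (L : List Nat) (w B mask : Nat) (i : Nat) : Nat :=
  Nat.rec (motive := fun _ => Nat) 0
    (fun j _ => Nat.succ (Nat.land (Nat.shiftRight (getD' L 0 j) (Nat.mul w (Nat.mod i B))) mask))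
    (Nat.succ (Nat.div i B))

/-- succ-encoded lookup in a three-level list of blocks: entry `i` (of `w` bits) sits in block
`j = i / B` at position `i % B`; block `j` is found at `L[j / (R1*R2)][(j / R1) % R2][j % R1]`. -/
noncomputable def look3 (L : List (List (List Nat))) (w B R1 R2 mask : Nat) (i : Nat) : Nat :=
  Nat.rec (motive := fun _ => Nat) 0
    (fun j _ => Nat.succ (Nat.land (Nat.shiftRight
        (getD' (getD' (getD' L [] (Nat.div j (Nat.mul R1 R2))) [] (Nat.mod (Nat.div j R1) R2)) 0
          (Nat.mod j R1))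
        (Nat.mul w (Nat.mod i B))) mask))
    (Nat.succ (Nat.div i B))

/-- kernel-friendly list indexing -/
noncomputable def nthE {β : Type} (CW : List β) : Nat → Option β :=
  List.rec (motive := fun _ => Nat → Option β) (fun _ => none)
    (fun e _ ih r => Nat.rec (motive := fun _ => Option β) (some e) (fun r' _ => ih r') r) CW

theorem nthE_mem {β : Type} (CW : List β) : ∀ (r : Nat) (e : β), nthE CW r = some e → e ∈ CW := by
  induction CW with
  | nil => intro r e h; exact absurd h (by simp [nthE])
  | cons a rest ih =>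
    intro r e h
    cases r with
    | zero =>
      have : a = e := Option.some.inj h
      rw [← this]; exact List.mem_cons_self ..
    | succ r' => exact List.mem_cons_of_mem _ (ih r' e h)

/-- selection by a small number -/
noncomputable def kindSel (k : Nat) (a0 a1 a2 a3 a4 : Bool) : Bool :=
  Nat.rec (motive := fun _ => Bool) a0
    (fun k1 _ => Nat.rec (motive := fun _ => Bool) a1
      (fun k2 _ => Nat.rec (motive := fun _ => Bool) a2
        (fun k3 _ => Nat.rec (motive := fun _ => Bool) a3
          (fun k4 _ => Nat.rec (motive := fun _ => Bool) a4 (fun _ _ => false) k4) k3) k2) k1) k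

theorem kindSel_true {k : Nat} {a0 a1 a2 a3 a4 : Bool} (h : kindSel k a0 a1 a2 a3 a4 = true) :
    (k = 0 ∧ a0 = true) ∨ (k = 1 ∧ a1 = true) ∨ (k = 2 ∧ a2 = true) ∨ (k = 3 ∧ a3 = true) ∨
      (k = 4 ∧ a4 = true) := by
  match k, h with
  | 0, h => exact Or.inl ⟨rfl, h⟩
  | 1, h => exact Or.inr (Or.inl ⟨rfl, h⟩)
  | 2, h => exact Or.inr (Or.inr (Or.inl ⟨rfl, h⟩))
  | 3, h => exact Or.inr (Or.inr (Or.inr (Or.inl ⟨rfl, h⟩)))
  | 4, h => exact Or.inr (Or.inr (Or.inr (Or.inr ⟨rfl, h⟩)))
  | (k + 5), h => exact absurd h (by simp [kindSel])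

/-- All the tables of a coset-enumeration certificate (lookups are succ-encoded: `0` = undefined,
`v + 1` = the value `v`).  Points of the final coset table are `0 .. n-1`; the enumeration trace has
nodes `0 .. NN-1` and facts `0 .. NF-1`. -/
structure Data (α : Type) where
  n : Nat
  fwd1 : α → Nat → Nat
  bwd1 : α → Nat → Nat
  code : α → Nat
  dec : Nat → α
  mtag : Nat
  w : Nat
  mw : Nat
  v : Nat
  mv : Nat
  NN : Nat
  NF : Nat
  np1 : Nat → Nat
  key1 : Nat → Nat
  cert1 : Nat → Nat
  st1 : Nat → Nat
  fin1 : α → Nat → Nat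
  rn1 : Nat → Nat

namespace Data
variable {α : Type} (D : Data α)

/-- the three fields of a packed node/key entry -/
def lo (x : Nat) : Nat := Nat.land x D.mw
def mid (x : Nat) : Nat := Nat.land (Nat.shiftRight x D.w) D.mw
def hi (x : Nat) : Nat := Nat.shiftRight (Nat.shiftRight x D.w) D.w

/-- the four fields of a packed certificate entry -/
def f0 (x : Nat) : Nat := Nat.land x D.mv
def f1 (x : Nat) : Nat := Nat.land (Nat.shiftRight x D.v) D.mv
def f2 (x : Nat) : Nat := Nat.land (Nat.shiftRight (Nat.shiftRight x D.v) D.v) D.mv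
def f3 (x : Nat) : Nat := Nat.shiftRight (Nat.shiftRight (Nat.shiftRight x D.v) D.v) D.v

def fwd (x : α) (i : Nat) : Nat := D.fwd1 x i - 1
def bwd (x : α) (i : Nat) : Nat := D.bwd1 x i - 1
def key (id : Nat) : Nat := D.key1 id - 1
def tag (id : Nat) : Nat := D.hi (D.key id)
def src (id : Nat) : Nat := D.mid (D.key id)
def tgt (id : Nat) : Nat := D.lo (D.key id)
def np (c : Nat) : Nat := D.np1 c - 1
def pi (c : Nat) : Nat := D.lo (D.np c)
def par (c : Nat) : Nat := D.mid (D.np c)
def pc (c : Nat) : Nat := D.hi (D.np c)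
def letOf (p : Nat) : α × Bool := (D.dec (Nat.div p 2), Nat.beq (Nat.mod p 2) 1)
def plet (c : Nat) : α × Bool := D.letOf (D.pc c)
def rn (i : Nat) : Nat := D.rn1 i - 1
def fin (x : α) (i : Nat) : Nat := D.fin1 x i - 1

/-- succ-encoded action of a letter -/
noncomputable def step1 (l : α × Bool) (c : Nat) : Nat :=
  Prod.rec (motive := fun _ => Nat)
    (fun x b => Bool.rec (motive := fun _ => Nat) (D.bwd1 x c) (D.fwd1 x c) b) l

noncomputable def step (l : α × Bool) (c : Nat) : Nat := D.step1 l c - 1

theorem step_true (x : α) (c : Nat) : D.step (x, true) c = D.fwd x c := rfl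
theorem step_false (x : α) (c : Nat) : D.step (x, false) c = D.bwd x c := rfl

/-- semantic action of a word (the last letter acts first) -/
noncomputable def walk : Word α → Nat → Nat
  | [], c => c
  | l :: rest, c => D.step l (walk rest c)

/-- kernel-friendly CPS walk -/
noncomputable def walkK (L : Word α) : Nat → (Nat → Bool) → Bool :=
  List.rec (motive := fun _ => Nat → (Nat → Bool) → Bool) (fun c k => k c)
    (fun l _ ih c k => ih c (fun c' =>
      Nat.rec (motive := fun _ => Bool) false (fun m _ => k m) (D.step1 l c'))) L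

theorem walkK_cons (l : α × Bool) (rest : Word α) (c : Nat) (k : Nat → Bool) :
    D.walkK (l :: rest) c k = D.walkK rest c (fun c' =>
      Nat.rec (motive := fun _ => Bool) false (fun m _ => k m) (D.step1 l c')) := rfl

theorem walkK_spec (L : Word α) :
    ∀ (c : Nat) (k : Nat → Bool), D.walkK L c k = true → k (D.walk L c) = true := by
  induction L with
  | nil => intro c k h; exact h
  | cons l rest ih =>
    intro c k h
    rw [walkK_cons] at h
    have h1 := ih c _ h
    exact (rec_true h1).2

/-- relator check at a point -/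
noncomputable def relK (L : Word α) (i : Nat) : Bool := D.walkK L i (fun c => Nat.beq c i)

theorem relK_spec {L : Word α} {i : Nat} (h : D.relK L i = true) : D.walk L i = i :=
  Nat.eq_of_beq_eq_true (D.walkK_spec L i _ h)

/-- all words of a list act trivially on the points of a range -/
noncomputable def relsK (Ls : List (Word α)) (lo hi : Nat) : Bool :=
  List.rec (motive := fun _ => Bool) true
    (fun L _ ih => Bool.rec (motive := fun _ => Bool) false ih (allRange lo hi (D.relK L))) Ls

theorem relsK_spec {Ls : List (Word α)} {lo hi : Nat} (h : D.relsK Ls lo hi = true) :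
    ∀ L ∈ Ls, ∀ i, lo ≤ i → i < hi → D.walk L i = i := by
  induction Ls with
  | nil => intro L hL; exact absurd hL (by simp)
  | cons W rest ih =>
    intro L hL i hlo hhi
    have e : D.relsK (W :: rest) lo hi = Bool.rec (motive := fun _ => Bool) false
        (D.relsK rest lo hi) (allRange lo hi (D.relK W)) := rfl
    rw [e] at h
    cases hW : allRange lo hi (D.relK W) with
    | false => rw [hW] at h; exact absurd h (by simp)
    | true =>
      rw [hW] at h
      rcases List.mem_cons.mp hL with rfl | hL'
      · exact D.relK_spec (allRange_spec hW i hlo hhi)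
      · exact ih h L hL' i hlo hhi

theorem rels_join {Ls : List (Word α)} {lo mid hi : Nat}
    (h1 : ∀ L ∈ Ls, ∀ i, lo ≤ i → i < mid → D.walk L i = i)
    (h2 : ∀ L ∈ Ls, ∀ i, mid ≤ i → i < hi → D.walk L i = i) :
    ∀ L ∈ Ls, ∀ i, lo ≤ i → i < hi → D.walk L i = i := by
  intro L hL i hlo hhi
  by_cases h : i < mid
  · exact h1 L hL i hlo h
  · exact h2 L hL i (Nat.le_of_not_lt h) hhi

/-- all words of a list fix the point `0` -/
noncomputable def subK (Ls : List (Word α)) : Bool :=
  List.rec (motive := fun _ => Bool) true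
    (fun L _ ih => Bool.rec (motive := fun _ => Bool) false ih (D.relK L 0)) Ls

theorem subK_spec {Ls : List (Word α)} (h : D.subK Ls = true) : ∀ L ∈ Ls, D.walk L 0 = 0 := by
  induction Ls with
  | nil => intro L hL; exact absurd hL (by simp)
  | cons W rest ih =>
    intro L hL
    have e : D.subK (W :: rest) = Bool.rec (motive := fun _ => Bool) false
        (D.subK rest) (D.relK W 0) := rfl
    rw [e] at h
    cases hW : D.relK W 0 with
    | false => rw [hW] at h; exact absurd h (by simp)
    | true =>
      rw [hW] at h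
      rcases List.mem_cons.mp hL with rfl | hL'
      · exact D.relK_spec hW
      · exact ih h L hL'

/-- permutation check for a generator at a point -/
noncomputable def permK (x : α) (i : Nat) : Bool :=
  bnd (D.fwd1 x i) (fun a => bnd (D.bwd1 x i) (fun b =>
    Nat.blt a D.n && Nat.blt b D.n && bnd (D.bwd1 x a) (fun c => Nat.beq c i) &&
      bnd (D.fwd1 x b) (fun d => Nat.beq d i)))

theorem permK_spec {x : α} {i : Nat} (h : D.permK x i = true) :
    D.fwd x i < D.n ∧ D.bwd x i < D.n ∧ D.bwd x (D.fwd x i) = i ∧ D.fwd x (D.bwd x i) = i := by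
  unfold permK at h
  have h1 := (bnd_true h).2
  have h2 := (bnd_true h1).2
  simp only [Bool.and_eq_true] at h2
  obtain ⟨⟨⟨ha, hb⟩, hc⟩, hd⟩ := h2
  refine ⟨Nat.blt_eq.mp ha, Nat.blt_eq.mp hb, ?_, ?_⟩
  · exact Nat.eq_of_beq_eq_true (bnd_true hc).2
  · exact Nat.eq_of_beq_eq_true (bnd_true hd).2

/-- tree check at a node `c ≥ 1`: the parent is an earlier node and the letter of `c` moves the
point of the parent to the point of `c` -/
noncomputable def treeK (c : Nat) : Bool :=
  bnd (D.np1 c) (fun npv => bnd (Nat.succ (D.mid npv)) (fun p =>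
    Nat.blt p c && bnd (D.np1 p) (fun npp =>
      bnd (D.step1 (D.letOf (D.hi npv)) (D.lo npp)) (fun r => Nat.beq r (D.lo npv)))))

theorem treeK_spec {c : Nat} (h : D.treeK c = true) :
    D.par c < c ∧ D.step (D.plet c) (D.pi (D.par c)) = D.pi c := by
  unfold treeK at h
  have h1 := (bnd_true h).2
  rw [bnd_succ] at h1
  simp only [Bool.and_eq_true] at h1
  obtain ⟨h2, h3⟩ := h1
  have h4 := (bnd_true h3).2
  have h5 := (bnd_true h4).2
  exact ⟨Nat.blt_eq.mp h2, Nat.eq_of_beq_eq_true h5⟩

/-- check for the node representing the point `i` -/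
noncomputable def rnK (i : Nat) : Bool :=
  bnd (D.rn1 i) (fun c => Nat.blt c D.NN && bnd (D.np1 c) (fun npv => Nat.beq (D.lo npv) i))

theorem rnK_spec {i : Nat} (h : D.rnK i = true) : D.rn i < D.NN ∧ D.pi (D.rn i) = i := by
  unfold rnK at h
  have h1 := (bnd_true h).2
  simp only [Bool.and_eq_true] at h1
  exact ⟨Nat.blt_eq.mp h1.1, Nat.eq_of_beq_eq_true (bnd_true h1.2).2⟩

/-- check of the final fact for the generator `x` at the point `i` -/
noncomputable def finK (x : α) (i : Nat) : Bool :=
  bnd (D.fin1 x i) (fun f => Nat.blt f D.NF && bnd (D.key1 f) (fun k =>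
    Nat.beq (D.hi k) (D.code x) &&
    bnd (D.rn1 i) (fun a => Nat.beq (D.mid k) a) &&
    bnd (D.fwd1 x i) (fun j => bnd (D.rn1 j) (fun b => Nat.beq (D.lo k) b))))

theorem finK_spec {x : α} {i : Nat} (h : D.finK x i = true) :
    D.fin x i < D.NF ∧ D.tag (D.fin x i) = D.code x ∧ D.src (D.fin x i) = D.rn i ∧
      D.tgt (D.fin x i) = D.rn (D.fwd x i) := by
  unfold finK at h
  have h1 := (bnd_true h).2
  simp only [Bool.and_eq_true] at h1
  obtain ⟨h2, h3⟩ := h1
  have h4 := (bnd_true h3).2
  simp only [Bool.and_eq_true] at h4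
  obtain ⟨⟨h5, h6⟩, h7⟩ := h4
  refine ⟨Nat.blt_eq.mp h2, Nat.eq_of_beq_eq_true h5, Nat.eq_of_beq_eq_true (bnd_true h6).2, ?_⟩
  exact Nat.eq_of_beq_eq_true (bnd_true (bnd_true h7).2).2

/-- one step of a fact walk: at the node `c`, with step offset `o`, for the letter `l` -/
noncomputable def stepF (id : Nat) (l : α × Bool) (c o : Nat) (k : Nat → Nat → Bool) : Bool :=
  bnd (D.st1 o) (fun s => Nat.blt s id && bnd (D.key1 s) (fun ks =>
    Nat.beq (D.hi ks) (D.code l.1) &&
    Bool.rec (motive := fun _ => Bool)
      (Nat.beq (D.lo ks) c &&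
        bnd (Nat.succ (D.mid ks)) (fun c' => bnd (Nat.succ (Nat.succ o)) (fun o' => k c' o')))
      (Nat.beq (D.mid ks) c &&
        bnd (Nat.succ (D.lo ks)) (fun c' => bnd (Nat.succ (Nat.succ o)) (fun o' => k c' o')))
      l.2))

/-- a walk along facts: the letters of `W` are applied from the last to the first -/
noncomputable def walkF (id : Nat) (W : Word α) : Nat → Nat → (Nat → Nat → Bool) → Bool :=
  List.rec (motive := fun _ => Nat → Nat → (Nat → Nat → Bool) → Bool) (fun c o k => k c o)
    (fun l _ ih c o k => ih c o (fun c' o' => D.stepF id l c' o' k)) W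

theorem walkF_cons (id : Nat) (l : α × Bool) (rest : Word α) (c o : Nat)
    (k : Nat → Nat → Bool) :
    D.walkF id (l :: rest) c o k = D.walkF id rest c o (fun c' o' => D.stepF id l c' o' k) := rfl

/-- the word `c2` of the entry `c1` of a word table -/
noncomputable def wordAt (WT : List (Bool × List (Word α))) (c1 c2 : Nat) :
    Option (Bool × Word α) :=
  Option.rec (motive := fun _ => Option (Bool × Word α)) none
    (fun e => Option.rec (motive := fun _ => Option (Bool × Word α)) none
      (fun W => some (e.1, W)) (nthE e.2 c2))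
    (nthE WT c1)

theorem wordAt_mem {WT : List (Bool × List (Word α))} {c1 c2 : Nat} {b : Bool} {W : Word α}
    (h : wordAt WT c1 c2 = some (b, W)) : ∃ e ∈ WT, e.1 = b ∧ W ∈ e.2 := by
  unfold wordAt at h
  cases h1 : nthE WT c1 with
  | none => rw [h1] at h; exact absurd h (by simp)
  | some e =>
    rw [h1] at h
    have h' : Option.rec (motive := fun _ => Option (Bool × Word α)) none
      (fun W => some (e.1, W)) (nthE e.2 c2) = some (b, W) := h
    cases h2 : nthE e.2 c2 with
    | none => rw [h2] at h'; exact absurd h' (by simp)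
    | some W' =>
      rw [h2] at h'
      have h3 : (e.1, W') = (b, W) := Option.some.inj h'
      have h4 : e.1 = b := congrArg Prod.fst h3
      have h5 : W' = W := congrArg Prod.snd h3
      exact ⟨e, nthE_mem WT c1 e h1, h4, h5 ▸ nthE_mem e.2 c2 W' h2⟩

/-- a node defined from its parent -/
noncomputable def defK (tag src tgt d : Nat) : Bool :=
  bnd (D.np1 d) (fun npv =>
    Nat.blt (D.mid npv) d && Nat.beq (Nat.div (D.hi npv) 2) tag && !(Nat.beq tag D.mtag) &&
    Bool.rec (motive := fun _ => Bool)
      (Nat.beq src d && Nat.beq tgt (D.mid npv))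
      (Nat.beq src (D.mid npv) && Nat.beq tgt d)
      (Nat.beq (Nat.mod (D.hi npv) 2) 1))

/-- an edge deduced from a word fixing the start node -/
noncomputable def scanK (WT : List (Bool × List (Word α))) (id tag src tgt c1 c2 off : Nat) :
    Bool :=
  Option.rec (motive := fun _ => Bool) false
    (fun e => List.rec (motive := fun _ => Bool) false
      (fun l B _ =>
        Nat.beq tag (D.code l.1) &&
        Bool.rec (motive := fun _ => Bool)
          ((!e.1 || Nat.beq src 0) && D.walkF id B src off (fun e' _ => Nat.beq e' tgt))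
          ((!e.1 || Nat.beq tgt 0) && D.walkF id B tgt off (fun e' _ => Nat.beq e' src))
          l.2) e.2)
    (wordAt WT c1 c2)

/-- a coincidence deduced from a word fixing the start node -/
noncomputable def mscanK (WT : List (Bool × List (Word α))) (id tag src tgt c1 c2 off : Nat) :
    Bool :=
  Option.rec (motive := fun _ => Bool) false
    (fun e => Nat.beq tag D.mtag && (!e.1 || Nat.beq src 0) &&
      D.walkF id e.2 src off (fun e' _ => Nat.beq e' tgt))
    (wordAt WT c1 c2)

/-- an edge whose source is replaced along a coincidence -/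
noncomputable def asrcK (id tag src tgt c1 c2 : Nat) : Bool :=
  Nat.blt c1 id && Nat.blt c2 id && bnd (D.key1 c1) (fun kb => bnd (D.key1 c2) (fun km =>
    Nat.beq (D.hi kb) tag && Nat.beq (D.lo kb) tgt && Nat.beq (D.hi km) D.mtag &&
    ((Nat.beq (D.mid km) (D.mid kb) && Nat.beq (D.lo km) src) ||
     (Nat.beq (D.mid km) src && Nat.beq (D.lo km) (D.mid kb)))))

/-- an edge whose target is replaced along a coincidence -/
noncomputable def atgtK (id tag src tgt c1 c2 : Nat) : Bool :=
  Nat.blt c1 id && Nat.blt c2 id && bnd (D.key1 c1) (fun kb => bnd (D.key1 c2) (fun km =>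
    Nat.beq (D.hi kb) tag && Nat.beq (D.mid kb) src && Nat.beq (D.hi km) D.mtag &&
    ((Nat.beq (D.mid km) (D.lo kb) && Nat.beq (D.lo km) tgt) ||
     (Nat.beq (D.mid km) tgt && Nat.beq (D.lo km) (D.lo kb)))))

/-- the check of the fact `id` -/
noncomputable def factK (WT : List (Bool × List (Word α))) (id : Nat) : Bool :=
  bnd (D.key1 id) (fun key => bnd (D.cert1 id) (fun cert =>
    bnd (Nat.succ (D.hi key)) (fun tag => bnd (Nat.succ (D.mid key)) (fun src =>
    bnd (Nat.succ (D.lo key)) (fun tgt =>
    bnd (Nat.succ (D.f2 cert)) (fun c1 => bnd (Nat.succ (D.f1 cert)) (fun c2 =>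
      kindSel (D.f3 cert) (D.defK tag src tgt c1)
        (D.scanK WT id tag src tgt c1 c2 (D.f0 cert))
        (D.mscanK WT id tag src tgt c1 c2 (D.f0 cert))
        (D.asrcK id tag src tgt c1 c2)
        (D.atgtK id tag src tgt c1 c2))))))))

theorem factK_spec {WT : List (Bool × List (Word α))} {id : Nat} (h : D.factK WT id = true) :
    ∃ c1 c2 off : Nat,
      D.defK (D.tag id) (D.src id) (D.tgt id) c1 = true ∨
      D.scanK WT id (D.tag id) (D.src id) (D.tgt id) c1 c2 off = true ∨
      D.mscanK WT id (D.tag id) (D.src id) (D.tgt id) c1 c2 off = true ∨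
      D.asrcK id (D.tag id) (D.src id) (D.tgt id) c1 c2 = true ∨
      D.atgtK id (D.tag id) (D.src id) (D.tgt id) c1 c2 = true := by
  unfold factK at h
  have h1 := (bnd_true h).2
  have h2 := (bnd_true h1).2
  rw [bnd_succ, bnd_succ, bnd_succ, bnd_succ, bnd_succ] at h2
  refine ⟨D.f2 (D.cert1 id - 1), D.f1 (D.cert1 id - 1), D.f0 (D.cert1 id - 1), ?_⟩
  rcases kindSel_true h2 with h3 | h3 | h3 | h3 | h3
  · exact Or.inl h3.2
  · exact Or.inr (Or.inl h3.2)
  · exact Or.inr (Or.inr (Or.inl h3.2))
  · exact Or.inr (Or.inr (Or.inr (Or.inl h3.2)))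
  · exact Or.inr (Or.inr (Or.inr (Or.inr h3.2)))

end Data

/-! ## Layer 2b: soundness -/

namespace Data
variable {α : Type} (D : Data α)

theorem step_lt (hperm : ∀ x : α, ∀ i, i < D.n → D.permK x i = true) (l : α × Bool) (c : Nat)
    (hc : c < D.n) : D.step l c < D.n := by
  obtain ⟨x, b⟩ := l
  cases b with
  | false => rw [step_false]; exact (D.permK_spec (hperm x c hc)).2.1
  | true => rw [step_true]; exact (D.permK_spec (hperm x c hc)).1

theorem walk_lt (hperm : ∀ x : α, ∀ i, i < D.n → D.permK x i = true) (L : Word α) (c : Nat)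
    (hc : c < D.n) : D.walk L c < D.n := by
  induction L with
  | nil => exact hc
  | cons l rest ih => exact D.step_lt hperm l _ ih

/-- the permutation of `Fin n` attached to a generator -/
noncomputable def perm (hperm : ∀ x : α, ∀ i, i < D.n → D.permK x i = true) (x : α) :
    Equiv.Perm (Fin D.n) where
  toFun i := ⟨D.fwd x i, (D.permK_spec (hperm x i i.2)).1⟩
  invFun i := ⟨D.bwd x i, (D.permK_spec (hperm x i i.2)).2.1⟩
  left_inv i := Fin.ext (D.permK_spec (hperm x i i.2)).2.2.1
  right_inv i := Fin.ext (D.permK_spec (hperm x i i.2)).2.2.2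

theorem letter_apply (hperm : ∀ x : α, ∀ i, i < D.n → D.permK x i = true) (l : α × Bool)
    (i : Fin D.n) :
    ((cond l.2 (D.perm hperm l.1) (D.perm hperm l.1)⁻¹) i).val = D.step l i.val := by
  obtain ⟨x, b⟩ := l
  cases b with
  | false => rfl
  | true => rfl

theorem lift_mk_apply (hperm : ∀ x : α, ∀ i, i < D.n → D.permK x i = true) (L : Word α)
    (i : Fin D.n) :
    ((FreeGroup.lift (D.perm hperm) (FreeGroup.mk L)) i).val = D.walk L i.val := by
  rw [FreeGroup.lift_mk]
  induction L with
  | nil => rfl
  | cons l rest ih =>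
    rw [List.map_cons, List.prod_cons, Equiv.Perm.mul_apply, letter_apply, ih]
    rfl

theorem lift_mk_eq_one (hperm : ∀ x : α, ∀ i, i < D.n → D.permK x i = true) (L : Word α)
    (h : ∀ i, i < D.n → D.walk L i = i) :
    FreeGroup.lift (D.perm hperm) (FreeGroup.mk L) = 1 := by
  ext i
  rw [lift_mk_apply, h i i.2]
  rfl

end Data

section Sound

variable {α : Type} (D : Data α) (rels : Set (FreeGroup α))

/-- the image of a word in the presented group -/
noncomputable def wordG (L : Word α) : PresentedGroup rels :=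
  PresentedGroup.mk rels (FreeGroup.mk L)

theorem wordG_nil : wordG rels ([] : Word α) = 1 := by
  unfold wordG
  have : (FreeGroup.mk ([] : Word α)) = 1 := rfl
  rw [this, map_one]

theorem wordG_append (A B : Word α) : wordG rels (A ++ B) = wordG rels A * wordG rels B := by
  unfold wordG
  rw [← map_mul, FreeGroup.mul_mk]

theorem wordG_cons (l : α × Bool) (L : Word α) :
    wordG rels (l :: L) = wordG rels [l] * wordG rels L := by
  rw [← wordG_append]; rfl

theorem wordG_true (x : α) : wordG rels [(x, true)] = PresentedGroup.of x := rfl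

theorem wordG_false (x : α) : wordG rels [(x, false)] = (PresentedGroup.of x)⁻¹ := by
  show PresentedGroup.mk rels (FreeGroup.mk [(x, false)]) = (PresentedGroup.mk rels (FreeGroup.of x))⁻¹
  rw [← map_inv]
  rfl

/-- coset representatives along the definition tree of the nodes -/
noncomputable def rep : Nat → PresentedGroup rels
  | j => if _h : D.par j < j then wordG rels [D.plet j] * rep (D.par j) else 1
termination_by j => j

theorem rep_of_lt {j : Nat} (h : D.par j < j) :
    rep D rels j = wordG rels [D.plet j] * rep D rels (D.par j) := by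
  rw [rep, dif_pos h]

theorem rep_zero : rep D rels 0 = 1 := by
  rw [rep, dif_neg (Nat.not_lt_zero _)]

end Sound

/-- the subgroup generated by the images of `S` -/
abbrev subH {α : Type} (rels : Set (FreeGroup α)) (S : Set (FreeGroup α)) :
    Subgroup (PresentedGroup rels) :=
  (Subgroup.closure S).map (PresentedGroup.mk rels)

/-! ## Layer 2c: the certificate and the main theorem -/

/-- All the facts a coset-enumeration certificate has to provide. -/
structure Cert {α : Type} (D : Data α) (rels : Set (FreeGroup α))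
    (S : Set (FreeGroup α)) (SW : List (Word α)) (WT : List (Bool × List (Word α))) : Prop where
  hn : 0 < D.n
  hperm : ∀ x : α, ∀ i, i < D.n → D.permK x i = true
  hlift : ∀ r ∈ rels, FreeGroup.lift (D.perm hperm) r = 1
  hS1 : ∀ s ∈ S, ∃ L ∈ SW, s = FreeGroup.mk L
  hsub : ∀ L ∈ SW, D.walk L 0 = 0
  hdec : ∀ x : α, D.dec (D.code x) = x
  hm : ∀ x : α, D.code x ≠ D.mtag
  hWT : ∀ e ∈ WT, ∀ W ∈ e.2,
    (e.1 = false → wordG rels W = 1) ∧ (e.1 = true → wordG rels W ∈ subH rels S)
  hpi0 : D.pi 0 = 0
  htree : ∀ c, 0 < c → c < D.NN → D.treeK c = true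
  hrn0 : D.rn 0 = 0
  hrn : ∀ i, i < D.n → D.rnK i = true
  hfact : ∀ id, id < D.NF → D.factK WT id = true
  hfin : ∀ x : α, ∀ i, i < D.n → D.finK x i = true

section Main

variable {α : Type} {D : Data α} {rels : Set (FreeGroup α)}
  {S : Set (FreeGroup α)} {SW : List (Word α)} {WT : List (Bool × List (Word α))}

/-- the permutation representation on the points -/
noncomputable def Cert.rho (C : Cert D rels S SW WT) :
    PresentedGroup rels →* Equiv.Perm (Fin D.n) :=
  PresentedGroup.toGroup C.hlift

theorem Cert.rho_of (C : Cert D rels S SW WT) (x : α) :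
    C.rho (PresentedGroup.of x) = D.perm C.hperm x :=
  PresentedGroup.toGroup.of C.hlift

theorem Cert.rho_word (C : Cert D rels S SW WT) (L : Word α) (i : Fin D.n) :
    (C.rho (wordG rels L) i).val = D.walk L i.val :=
  D.lift_mk_apply C.hperm L i

/-- the coset of the representative of a node -/
noncomputable def phi (D : Data α) (rels : Set (FreeGroup α)) (S : Set (FreeGroup α)) (p : Nat) :
    PresentedGroup rels ⧸ subH rels S :=
  QuotientGroup.mk (rep D rels p)

/-- the meaning of a fact with the given tag, source and target -/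
def Holds (D : Data α) (rels : Set (FreeGroup α)) (S : Set (FreeGroup α)) (tag s t : Nat) : Prop :=
  (tag = D.mtag → phi D rels S s = phi D rels S t) ∧
  (tag ≠ D.mtag →
    (PresentedGroup.of (D.dec tag) : PresentedGroup rels) • phi D rels S s = phi D rels S t)

/-- the meaning of the fact `id` -/
def FactOK (D : Data α) (rels : Set (FreeGroup α)) (S : Set (FreeGroup α)) (id : Nat) : Prop :=
  Holds D rels S (D.tag id) (D.src id) (D.tgt id)

theorem Holds.congr {tag s t s' t' : Nat} (h : Holds D rels S tag s t)
    (hs : phi D rels S s = phi D rels S s') (ht : phi D rels S t = phi D rels S t') :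
    Holds D rels S tag s' t' := by
  refine ⟨fun hm => ?_, fun hm => ?_⟩
  · rw [← hs, ← ht]; exact h.1 hm
  · rw [← hs, ← ht]; exact h.2 hm

theorem Cert.rho_H (C : Cert D rels S SW WT) :
    ∀ h ∈ subH rels S, C.rho h ⟨0, C.hn⟩ = ⟨0, C.hn⟩ := by
  intro h hh
  obtain ⟨w, hw, rfl⟩ := Subgroup.mem_map.mp hh
  have hle : Subgroup.closure S ≤
      (MulAction.stabilizer (Equiv.Perm (Fin D.n)) (⟨0, C.hn⟩ : Fin D.n)).comap
        (C.rho.comp (PresentedGroup.mk rels)) := by
    rw [Subgroup.closure_le]
    intro s hs
    obtain ⟨L, hL, rfl⟩ := C.hS1 s hs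
    show C.rho (wordG rels L) • (⟨0, C.hn⟩ : Fin D.n) = ⟨0, C.hn⟩
    apply Fin.ext
    show (C.rho (wordG rels L) ⟨0, C.hn⟩).val = 0
    rw [C.rho_word]
    exact C.hsub L hL
  exact hle hw

theorem Cert.walkF_sound (C : Cert D rels S SW WT) (id : Nat)
    (IH : ∀ s, s < id → FactOK D rels S s) :
    ∀ (W : Word α) (c o : Nat) (k : Nat → Nat → Bool), D.walkF id W c o k = true →
      ∃ e o', k e o' = true ∧ wordG rels W • phi D rels S c = phi D rels S e := by
  intro W
  induction W with
  | nil =>
    intro c o k h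
    exact ⟨c, o, h, by rw [wordG_nil, one_smul]⟩
  | cons l rest ih =>
    intro c o k h
    rw [Data.walkF_cons] at h
    obtain ⟨c', o', h1, h2⟩ := ih c o _ h
    unfold Data.stepF at h1
    have h3 := (bnd_true h1).2
    simp only [Bool.and_eq_true] at h3
    obtain ⟨hlt, h4⟩ := h3
    have h5 := (bnd_true h4).2
    simp only [Bool.and_eq_true] at h5
    obtain ⟨htag, h6⟩ := h5
    have hs := IH _ (Nat.blt_eq.mp hlt)
    have htag' : D.tag (D.st1 o' - 1) = D.code l.1 := Nat.eq_of_beq_eq_true htag
    have hE := hs.2 (by rw [htag']; exact C.hm l.1)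
    rw [htag', C.hdec] at hE
    rw [wordG_cons, mul_smul, h2]
    obtain ⟨x, b⟩ := l
    cases b with
    | true =>
      have h7 : (Nat.beq (D.mid (D.key1 (D.st1 o' - 1) - 1)) c' &&
          bnd (Nat.succ (D.lo (D.key1 (D.st1 o' - 1) - 1)))
            (fun c'' => bnd (Nat.succ (Nat.succ o')) (fun o'' => k c'' o''))) = true := h6
      simp only [bnd_succ, Bool.and_eq_true] at h7
      obtain ⟨h8, h9⟩ := h7
      have h10 : D.src (D.st1 o' - 1) = c' := Nat.eq_of_beq_eq_true h8
      refine ⟨_, _, h9, ?_⟩
      rw [wordG_true, ← h10]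
      exact hE
    | false =>
      have h7 : (Nat.beq (D.lo (D.key1 (D.st1 o' - 1) - 1)) c' &&
          bnd (Nat.succ (D.mid (D.key1 (D.st1 o' - 1) - 1)))
            (fun c'' => bnd (Nat.succ (Nat.succ o')) (fun o'' => k c'' o''))) = true := h6
      simp only [bnd_succ, Bool.and_eq_true] at h7
      obtain ⟨h8, h9⟩ := h7
      have h10 : D.tgt (D.st1 o' - 1) = c' := Nat.eq_of_beq_eq_true h8
      refine ⟨_, _, h9, ?_⟩
      rw [wordG_false, ← h10, inv_smul_eq_iff]
      exact hE.symm

theorem Cert.fix_start (C : Cert D rels S SW WT) {b : Bool} {W : Word α} {s : Nat}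
    (hW : (b = false → wordG rels W = 1) ∧ (b = true → wordG rels W ∈ subH rels S))
    (hs : (!b || Nat.beq s 0) = true) :
    wordG rels W • phi D rels S s = phi D rels S s := by
  cases b with
  | false => rw [hW.1 rfl, one_smul]
  | true =>
    have hs0 : s = 0 := Nat.eq_of_beq_eq_true (by simpa using hs)
    subst hs0
    show wordG rels W • (QuotientGroup.mk (rep D rels 0) : PresentedGroup rels ⧸ subH rels S) =
      QuotientGroup.mk (rep D rels 0)
    rw [MulAction.Quotient.smul_mk, smul_eq_mul, rep_zero, mul_one]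
    exact QuotientGroup.eq.mpr (by simpa using hW.2 rfl)

theorem Cert.def_sound (_C : Cert D rels S SW WT) {tag src tgt d : Nat}
    (h : D.defK tag src tgt d = true) : Holds D rels S tag src tgt := by
  unfold Data.defK at h
  have h1 := (bnd_true h).2
  simp only [Bool.and_eq_true] at h1
  obtain ⟨⟨⟨hlt, htag⟩, hne⟩, hcase⟩ := h1
  have hlt' : D.par d < d := Nat.blt_eq.mp hlt
  have htag' : Nat.div (D.pc d) 2 = tag := Nat.eq_of_beq_eq_true htag
  have hne' : tag ≠ D.mtag := by
    intro e
    rw [e] at hne
    simp at hne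
  have hrep := rep_of_lt D rels hlt'
  refine ⟨fun e => absurd e hne', fun _ => ?_⟩
  cases hb : Nat.beq (Nat.mod (D.pc d) 2) 1 with
  | true =>
    have hc : (Nat.beq src (D.par d) && Nat.beq tgt d) = true := by
      have := hcase
      rw [show Nat.beq (Nat.mod (D.hi (D.np1 d - 1)) 2) 1 = true from hb] at this
      exact this
    simp only [Bool.and_eq_true] at hc
    have e1 : src = D.par d := Nat.eq_of_beq_eq_true hc.1
    have e2 : tgt = d := Nat.eq_of_beq_eq_true hc.2
    have hpl : D.plet d = (D.dec tag, true) := by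
      show (D.dec (Nat.div (D.pc d) 2), Nat.beq (Nat.mod (D.pc d) 2) 1) = _
      rw [hb, htag']
    rw [hpl, wordG_true] at hrep
    rw [e1, e2]
    show (PresentedGroup.of (D.dec tag) : PresentedGroup rels) •
      (QuotientGroup.mk (rep D rels (D.par d)) : PresentedGroup rels ⧸ subH rels S) =
      QuotientGroup.mk (rep D rels d)
    rw [MulAction.Quotient.smul_mk, smul_eq_mul, hrep]
  | false =>
    have hc : (Nat.beq src d && Nat.beq tgt (D.par d)) = true := by
      have := hcase
      rw [show Nat.beq (Nat.mod (D.hi (D.np1 d - 1)) 2) 1 = false from hb] at this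
      exact this
    simp only [Bool.and_eq_true] at hc
    have e1 : src = d := Nat.eq_of_beq_eq_true hc.1
    have e2 : tgt = D.par d := Nat.eq_of_beq_eq_true hc.2
    have hpl : D.plet d = (D.dec tag, false) := by
      show (D.dec (Nat.div (D.pc d) 2), Nat.beq (Nat.mod (D.pc d) 2) 1) = _
      rw [hb, htag']
    rw [hpl, wordG_false] at hrep
    rw [e1, e2]
    show (PresentedGroup.of (D.dec tag) : PresentedGroup rels) •
      (QuotientGroup.mk (rep D rels d) : PresentedGroup rels ⧸ subH rels S) =
      QuotientGroup.mk (rep D rels (D.par d))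
    rw [MulAction.Quotient.smul_mk, smul_eq_mul, hrep, mul_inv_cancel_left]

theorem Cert.scan_sound (C : Cert D rels S SW WT) (id : Nat)
    (IH : ∀ s, s < id → FactOK D rels S s) {tag src tgt c1 c2 off : Nat}
    (h : D.scanK WT id tag src tgt c1 c2 off = true) : Holds D rels S tag src tgt := by
  unfold Data.scanK at h
  cases hw : Data.wordAt WT c1 c2 with
  | none => rw [hw] at h; exact absurd h (by simp)
  | some e =>
    rw [hw] at h
    obtain ⟨isSub, W⟩ := e
    cases W with
    | nil => exact absurd h (by simp)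
    | cons l B =>
      obtain ⟨e, he, hb, hW⟩ := Data.wordAt_mem hw
      have hspec := C.hWT e he _ hW
      rw [hb] at hspec
      have h' : (Nat.beq tag (D.code l.1) &&
        Bool.rec (motive := fun _ => Bool)
          ((!isSub || Nat.beq src 0) && D.walkF id B src off (fun e' _ => Nat.beq e' tgt))
          ((!isSub || Nat.beq tgt 0) && D.walkF id B tgt off (fun e' _ => Nat.beq e' src))
          l.2) = true := h
      simp only [Bool.and_eq_true] at h'
      obtain ⟨htag, hcase⟩ := h'
      have htag' : tag = D.code l.1 := Nat.eq_of_beq_eq_true htag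
      have hne : tag ≠ D.mtag := by rw [htag']; exact C.hm l.1
      refine ⟨fun e => absurd e hne, fun _ => ?_⟩
      rw [htag', C.hdec]
      obtain ⟨x, b⟩ := l
      cases b with
      | true =>
        have hc : ((!isSub || Nat.beq tgt 0) &&
            D.walkF id B tgt off (fun e' _ => Nat.beq e' src)) = true := hcase
        simp only [Bool.and_eq_true] at hc
        obtain ⟨hfix, hwalk⟩ := hc
        obtain ⟨e', o', he', hpath⟩ := C.walkF_sound id IH B tgt off _ hwalk
        have he'' : e' = src := Nat.eq_of_beq_eq_true he'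
        subst he''
        have hf := C.fix_start hspec hfix
        rw [wordG_cons, mul_smul, hpath, wordG_true] at hf
        exact hf
      | false =>
        have hc : ((!isSub || Nat.beq src 0) &&
            D.walkF id B src off (fun e' _ => Nat.beq e' tgt)) = true := hcase
        simp only [Bool.and_eq_true] at hc
        obtain ⟨hfix, hwalk⟩ := hc
        obtain ⟨e', o', he', hpath⟩ := C.walkF_sound id IH B src off _ hwalk
        have he'' : e' = tgt := Nat.eq_of_beq_eq_true he'
        subst he''
        have hf := C.fix_start hspec hfix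
        rw [wordG_cons, mul_smul, hpath, wordG_false, inv_smul_eq_iff] at hf
        exact hf.symm

theorem Cert.mscan_sound (C : Cert D rels S SW WT) (id : Nat)
    (IH : ∀ s, s < id → FactOK D rels S s) {tag src tgt c1 c2 off : Nat}
    (h : D.mscanK WT id tag src tgt c1 c2 off = true) : Holds D rels S tag src tgt := by
  unfold Data.mscanK at h
  cases hw : Data.wordAt WT c1 c2 with
  | none => rw [hw] at h; exact absurd h (by simp)
  | some e =>
    rw [hw] at h
    obtain ⟨isSub, W⟩ := e
    obtain ⟨e, he, hb, hW⟩ := Data.wordAt_mem hw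
    have hspec := C.hWT e he _ hW
    rw [hb] at hspec
    have h' : (Nat.beq tag D.mtag && (!isSub || Nat.beq src 0) &&
      D.walkF id W src off (fun e' _ => Nat.beq e' tgt)) = true := h
    simp only [Bool.and_eq_true] at h'
    obtain ⟨⟨htag, hfix⟩, hwalk⟩ := h'
    have htag' : tag = D.mtag := Nat.eq_of_beq_eq_true htag
    obtain ⟨e', o', he', hpath⟩ := C.walkF_sound id IH W src off _ hwalk
    have he'' : e' = tgt := Nat.eq_of_beq_eq_true he'
    subst he''
    have hf := C.fix_start hspec hfix
    rw [hpath] at hf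
    exact ⟨fun _ => hf.symm, fun hne => absurd htag' hne⟩

theorem Cert.asrc_sound (_C : Cert D rels S SW WT) (id : Nat)
    (IH : ∀ s, s < id → FactOK D rels S s) {tag src tgt c1 c2 : Nat}
    (h : D.asrcK id tag src tgt c1 c2 = true) : Holds D rels S tag src tgt := by
  unfold Data.asrcK at h
  simp only [Bool.and_eq_true] at h
  obtain ⟨⟨h1, h2⟩, h3⟩ := h
  have h4 := (bnd_true (bnd_true h3).2).2
  simp only [Bool.and_eq_true, Bool.or_eq_true] at h4
  obtain ⟨⟨⟨ht, hg⟩, hm⟩, hor⟩ := h4
  have hb := IH c1 (Nat.blt_eq.mp h1)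
  have hmf := IH c2 (Nat.blt_eq.mp h2)
  have ht' : D.tag c1 = tag := Nat.eq_of_beq_eq_true ht
  have hg' : D.tgt c1 = tgt := Nat.eq_of_beq_eq_true hg
  have hm' : D.tag c2 = D.mtag := Nat.eq_of_beq_eq_true hm
  have hM := hmf.1 hm'
  have hb' : Holds D rels S tag (D.src c1) tgt := by
    have := hb
    unfold FactOK at this
    rw [ht', hg'] at this
    exact this
  have hs : phi D rels S (D.src c1) = phi D rels S src := by
    rcases hor with ⟨ha, hb2⟩ | ⟨ha, hb2⟩
    · have e1 : D.src c2 = D.src c1 := Nat.eq_of_beq_eq_true ha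
      have e2 : D.tgt c2 = src := Nat.eq_of_beq_eq_true hb2
      rw [← e1, ← e2]; exact hM
    · have e1 : D.src c2 = src := Nat.eq_of_beq_eq_true ha
      have e2 : D.tgt c2 = D.src c1 := Nat.eq_of_beq_eq_true hb2
      rw [← e1, ← e2]; exact hM.symm
  exact hb'.congr hs rfl

theorem Cert.atgt_sound (_C : Cert D rels S SW WT) (id : Nat)
    (IH : ∀ s, s < id → FactOK D rels S s) {tag src tgt c1 c2 : Nat}
    (h : D.atgtK id tag src tgt c1 c2 = true) : Holds D rels S tag src tgt := by
  unfold Data.atgtK at h
  simp only [Bool.and_eq_true] at h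
  obtain ⟨⟨h1, h2⟩, h3⟩ := h
  have h4 := (bnd_true (bnd_true h3).2).2
  simp only [Bool.and_eq_true, Bool.or_eq_true] at h4
  obtain ⟨⟨⟨ht, hg⟩, hm⟩, hor⟩ := h4
  have hb := IH c1 (Nat.blt_eq.mp h1)
  have hmf := IH c2 (Nat.blt_eq.mp h2)
  have ht' : D.tag c1 = tag := Nat.eq_of_beq_eq_true ht
  have hg' : D.src c1 = src := Nat.eq_of_beq_eq_true hg
  have hm' : D.tag c2 = D.mtag := Nat.eq_of_beq_eq_true hm
  have hM := hmf.1 hm'
  have hb' : Holds D rels S tag src (D.tgt c1) := by
    have := hb
    unfold FactOK at this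
    rw [ht', hg'] at this
    exact this
  have hs : phi D rels S (D.tgt c1) = phi D rels S tgt := by
    rcases hor with ⟨ha, hb2⟩ | ⟨ha, hb2⟩
    · have e1 : D.src c2 = D.tgt c1 := Nat.eq_of_beq_eq_true ha
      have e2 : D.tgt c2 = tgt := Nat.eq_of_beq_eq_true hb2
      rw [← e1, ← e2]; exact hM
    · have e1 : D.src c2 = tgt := Nat.eq_of_beq_eq_true ha
      have e2 : D.tgt c2 = D.tgt c1 := Nat.eq_of_beq_eq_true hb2
      rw [← e1, ← e2]; exact hM.symm
  exact hb'.congr rfl hs

theorem Cert.fact_sound (C : Cert D rels S SW WT) : ∀ id, id < D.NF → FactOK D rels S id := by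
  intro id
  induction id using Nat.strong_induction_on with
  | _ id IH =>
    intro hid
    have IH' : ∀ s, s < id → FactOK D rels S s := fun s hs => IH s hs (lt_trans hs hid)
    obtain ⟨c1, c2, off, hk⟩ := D.factK_spec (C.hfact id hid)
    rcases hk with hk | hk | hk | hk | hk
    · exact C.def_sound hk
    · exact C.scan_sound id IH' hk
    · exact C.mscan_sound id IH' hk
    · exact C.asrc_sound id IH' hk
    · exact C.atgt_sound id IH' hk

theorem Cert.rho_rep (C : Cert D rels S SW WT) :
    ∀ (c : Nat), c < D.NN → (C.rho (rep D rels c) ⟨0, C.hn⟩).val = D.pi c := by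
  intro c
  induction c using Nat.strong_induction_on with
  | _ c IH =>
    intro hc
    rcases Nat.eq_zero_or_pos c with rfl | hpos
    · rw [rep_zero, map_one, C.hpi0]; rfl
    · obtain ⟨hlt, hstep⟩ := D.treeK_spec (C.htree c hpos hc)
      rw [rep_of_lt D rels hlt, map_mul, Equiv.Perm.mul_apply, C.rho_word,
        IH (D.par c) hlt (lt_trans hlt hc)]
      exact hstep

theorem Cert.gen_fact (C : Cert D rels S SW WT) :
    ∀ g ∈ Set.range (PresentedGroup.of : α → PresentedGroup rels), ∀ i : Fin D.n,
      (rep D rels (D.rn (C.rho g i).val))⁻¹ * (g * rep D rels (D.rn i.val)) ∈ subH rels S := by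
  rintro _ ⟨x, rfl⟩ i
  obtain ⟨hlt, htag, hsrc, htgt⟩ := D.finK_spec (C.hfin x i.val i.2)
  have hf := C.fact_sound _ hlt
  have hE := hf.2 (by rw [htag]; exact C.hm x)
  rw [htag, C.hdec, hsrc, htgt] at hE
  have h1 : (C.rho (PresentedGroup.of x) i).val = D.fwd x i.val := by rw [C.rho_of]; rfl
  rw [h1]
  have h2 : (QuotientGroup.mk (PresentedGroup.of x * rep D rels (D.rn i.val)) :
      PresentedGroup rels ⧸ subH rels S) = QuotientGroup.mk (rep D rels (D.rn (D.fwd x i.val))) := by
    rw [← smul_eq_mul, ← MulAction.Quotient.smul_mk]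
    exact hE
  have h3 := QuotientGroup.eq.mp h2
  have h4 := (subH rels S).inv_mem h3
  have e : ((PresentedGroup.of x * rep D rels (D.rn i.val))⁻¹ *
      rep D rels (D.rn (D.fwd x i.val)))⁻¹ =
      (rep D rels (D.rn (D.fwd x i.val)))⁻¹ * (PresentedGroup.of x * rep D rels (D.rn i.val)) := by
    group
  rw [← e]
  exact h4

/-- Main theorem: an equivariant bijection between the points and the cosets. -/
theorem Cert.main (C : Cert D rels S SW WT) :
    ∃ (ρ : PresentedGroup rels →* Equiv.Perm (Fin D.n))
      (e : Fin D.n ≃ PresentedGroup rels ⧸ subH rels S),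
      (∀ g i, g • e i = e (ρ g i)) ∧
      (∀ (L : Word α) (i : Fin D.n), (ρ (wordG rels L) i).val = D.walk L i.val) ∧
      e ⟨0, C.hn⟩ = QuotientGroup.mk (1 : PresentedGroup rels) := by
  let t : Fin D.n → PresentedGroup rels := fun i => rep D rels (D.rn i.val)
  have hall := schreier_fact (subH rels S) C.rho t (Set.range PresentedGroup.of)
    (PresentedGroup.closure_range_of rels) C.gen_fact
  have ht0 : t ⟨0, C.hn⟩ = 1 := by
    show rep D rels (D.rn 0) = 1
    rw [C.hrn0, rep_zero]
  have htr : ∀ j : Fin D.n, C.rho (t j) ⟨0, C.hn⟩ = j := by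
    intro j
    obtain ⟨h1, h2⟩ := D.rnK_spec (C.hrn j.val j.2)
    apply Fin.ext
    rw [C.rho_rep _ h1, h2]
  refine ⟨C.rho, Equiv.ofBijective (cosetMap (subH rels S) t)
    (cosetMap_bijective (subH rels S) C.rho t ⟨0, C.hn⟩ ht0 htr C.rho_H hall), ?_, C.rho_word, ?_⟩
  · intro g i
    exact cosetMap_smul (subH rels S) C.rho t hall g i
  · show cosetMap (subH rels S) t ⟨0, C.hn⟩ = _
    unfold cosetMap
    rw [ht0]

theorem Cert.index (C : Cert D rels S SW WT) : (subH rels S).index = D.n := by
  obtain ⟨_, e, _⟩ := C.main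
  rw [Subgroup.index_eq_card, ← Nat.card_congr e, Nat.card_eq_fintype_card, Fintype.card_fin]

end Main
/-! ## Layer 3: Coxeter-style presentations (`Cfsg.Spor.coxRelators`) and certificate words -/

section Cox

open Cfsg.Spor

variable {α : Type} [DecidableEq α]

/-- the word `x x` -/
def sqW (x : α) : Word α := [(x, true), (x, true)]

/-- the word `(x y)^m` -/
def pairW (x y : α) (m : Nat) : Word α := (List.replicate m [(x, true), (y, true)]).flatten

/-- all pairs `(l[i], l[j])` with `i < j` -/
def pairsOf : List α → List (α × α)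
  | [] => []
  | x :: xs => xs.map (fun y => (x, y)) ++ pairsOf xs

/-- the Coxeter relator words for a list of nodes: squares, then `(x y)^m` for unordered pairs -/
def coxRW (edges : List (α × ℕ × α)) (nl : List α) : List (Word α) :=
  nl.map sqW ++ (pairsOf nl).map (fun p => pairW p.1 p.2 (coxLabel edges p.1 p.2))

theorem mk_sqW (x : α) : FreeGroup.mk (sqW x) = FreeGroup.of x * FreeGroup.of x := rfl

theorem mk_pairW (x y : α) (m : Nat) :
    FreeGroup.mk (pairW x y m) = (FreeGroup.of x * FreeGroup.of y) ^ m := by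
  induction m with
  | zero => rfl
  | succ m ih =>
    have e : pairW x y (m + 1) = [(x, true), (y, true)] ++ pairW x y m := by
      unfold pairW
      rw [List.replicate_succ, List.flatten_cons]
    rw [e, ← FreeGroup.mul_mk, ih, pow_succ']
    rfl

theorem pairsOf_mem (l : List α) : ∀ x ∈ l, ∀ y ∈ l, x ≠ y →
    (x, y) ∈ pairsOf l ∨ (y, x) ∈ pairsOf l := by
  induction l with
  | nil => intro x hx; exact absurd hx (by simp)
  | cons a rest ih =>
    intro x hx y hy hne
    unfold pairsOf
    rcases List.mem_cons.mp hx with rfl | hx'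
    · rcases List.mem_cons.mp hy with rfl | hy'
      · exact absurd rfl hne
      · left
        exact List.mem_append_left _ (List.mem_map.mpr ⟨y, hy', rfl⟩)
    · rcases List.mem_cons.mp hy with rfl | hy'
      · right
        exact List.mem_append_left _ (List.mem_map.mpr ⟨x, hx', rfl⟩)
      · rcases ih x hx' y hy' hne with h | h
        · left; exact List.mem_append_right _ h
        · right; exact List.mem_append_right _ h

theorem pairsOf_sub (l : List α) : ∀ p ∈ pairsOf l, p.1 ∈ l ∧ p.2 ∈ l := by
  induction l with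
  | nil => intro p hp; exact absurd hp (by simp [pairsOf])
  | cons a rest ih =>
    intro p hp
    unfold pairsOf at hp
    rcases List.mem_append.mp hp with h | h
    · obtain ⟨y, hy, rfl⟩ := List.mem_map.mp h
      exact ⟨List.mem_cons_self .., List.mem_cons_of_mem _ hy⟩
    · obtain ⟨h1, h2⟩ := ih p h
      exact ⟨List.mem_cons_of_mem _ h1, List.mem_cons_of_mem _ h2⟩

theorem coxLabel_comm' (edges : List (α × ℕ × α)) (x y : α) :
    coxLabel edges x y = coxLabel edges y x := by
  unfold coxLabel
  by_cases h : x = y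
  · subst h; rfl
  · have h' : ¬ y = x := fun e => h e.symm
    rw [if_neg h, if_neg h']
    have : (fun e : α × ℕ × α => decide ((e.1 = x ∧ e.2.2 = y) ∨ (e.1 = y ∧ e.2.2 = x))) =
        (fun e : α × ℕ × α => decide ((e.1 = y ∧ e.2.2 = x) ∨ (e.1 = x ∧ e.2.2 = y))) := by
      funext e
      congr 1
      exact propext or_comm
    rw [this]

theorem pow_mul_comm_one {M : Type*} [Group M] (a b : M) (m : Nat) (h : (a * b) ^ m = 1) :
    (b * a) ^ m = 1 := by
  have e : ∀ k : Nat, (b * a) ^ k = a⁻¹ * (a * b) ^ k * a := by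
    intro k
    induction k with
    | zero => simp
    | succ k ih => rw [pow_succ, ih, pow_succ]; group
  rw [e m, h]; group

/-- A map into a group kills all the Coxeter relators and the extra relators as soon as it
kills the words of `coxRW edges nl ++ EW`. -/
theorem cox_lift {M : Type*} [Group M] (edges : List (α × ℕ × α)) (extra : List (FreeGroup α))
    (nl : List α) (EW : List (Word α)) (hnl : ∀ x ∈ coxNodes edges, x ∈ nl)
    (hE : extra = EW.map FreeGroup.mk) (σ : α → M)
    (h : ∀ L ∈ coxRW edges nl ++ EW, FreeGroup.lift σ (FreeGroup.mk L) = 1) :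
    ∀ r ∈ coxRelators edges ∪ {r | r ∈ extra}, FreeGroup.lift σ r = 1 := by
  intro r hr
  rcases hr with ⟨x, hx, y, hy, rfl⟩ | hr
  · have hx' := hnl x hx
    have hy' := hnl y hy
    by_cases hxy : x = y
    · subst hxy
      have h1 : coxLabel edges x x = 1 := by simp [coxLabel]
      have h2 := h (sqW x) (List.mem_append_left _ (List.mem_append_left _
        (List.mem_map.mpr ⟨x, hx', rfl⟩)))
      rw [mk_sqW] at h2
      rw [h1, pow_one]
      exact h2
    · rcases pairsOf_mem nl x hx' y hy' hxy with hp | hp
      · have h2 := h (pairW x y (coxLabel edges x y)) (List.mem_append_left _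
          (List.mem_append_right _ (List.mem_map.mpr ⟨(x, y), hp, rfl⟩)))
        rw [mk_pairW] at h2
        exact h2
      · have h2 := h (pairW y x (coxLabel edges y x)) (List.mem_append_left _
          (List.mem_append_right _ (List.mem_map.mpr ⟨(y, x), hp, rfl⟩)))
        rw [mk_pairW, map_pow, map_mul] at h2
        rw [map_pow, map_mul, coxLabel_comm' edges x y]
        exact pow_mul_comm_one _ _ _ h2
  · have hr' : r ∈ extra := hr
    rw [hE] at hr'
    obtain ⟨L, hL, rfl⟩ := List.mem_map.mp hr'
    exact h L (List.mem_append_right _ hL)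

/-- The words of `coxRW edges nl ++ EW` are trivial in the presented group. -/
theorem cox_word_one (edges : List (α × ℕ × α)) (extra : List (FreeGroup α))
    (nl : List α) (EW : List (Word α)) (hnl : ∀ x ∈ nl, x ∈ coxNodes edges)
    (hE : extra = EW.map FreeGroup.mk) :
    ∀ L ∈ coxRW edges nl ++ EW, wordG (coxRelators edges ∪ {r | r ∈ extra}) L = 1 := by
  intro L hL
  unfold wordG
  apply PresentedGroup.one_of_mem
  rcases List.mem_append.mp hL with hL | hL
  · left
    rcases List.mem_append.mp hL with hL | hL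
    · obtain ⟨x, hx, rfl⟩ := List.mem_map.mp hL
      refine ⟨x, hnl x hx, x, hnl x hx, ?_⟩
      have h1 : coxLabel edges x x = 1 := by simp [coxLabel]
      rw [h1, pow_one, mk_sqW]
    · obtain ⟨p, hp, rfl⟩ := List.mem_map.mp hL
      obtain ⟨h1, h2⟩ := pairsOf_sub nl p hp
      exact ⟨p.1, hnl _ h1, p.2, hnl _ h2, mk_pairW _ _ _⟩
  · right
    show FreeGroup.mk L ∈ extra
    rw [hE]
    exact List.mem_map.mpr ⟨L, hL, rfl⟩

end Cox

section CWords

variable {α : Type}

/-- replace the inverse letters of involutory generators by the generators -/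
def canonW (inv : α → Bool) (W : Word α) : Word α := W.map (fun l => (l.1, l.2 || inv l.1))

theorem wordG_canonW (rels : Set (FreeGroup α)) (inv : α → Bool)
    (hinv : ∀ x, inv x = true → wordG rels [(x, true)] * wordG rels [(x, true)] = 1)
    (W : Word α) : wordG rels (canonW inv W) = wordG rels W := by
  induction W with
  | nil => rfl
  | cons l rest ih =>
    have e : canonW inv (l :: rest) = (l.1, l.2 || inv l.1) :: canonW inv rest := rfl
    rw [e, wordG_cons, ih, wordG_cons rels l rest]
    congr 1
    obtain ⟨x, b⟩ := l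
    cases b with
    | true => rfl
    | false =>
      show wordG rels [(x, false || inv x)] = wordG rels [(x, false)]
      cases hx : inv x with
      | false => rfl
      | true =>
        have h1 := hinv x hx
        show wordG rels [(x, true)] = wordG rels [(x, false)]
        rw [wordG_false, wordG_true] at *
        exact eq_inv_of_mul_eq_one_left h1

theorem wordG_rotate (rels : Set (FreeGroup α)) (W : Word α) (k : Nat)
    (h : wordG rels W = 1) : wordG rels (W.rotate k) = 1 := by
  rw [List.rotate_eq_drop_append_take_mod, wordG_append]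
  have h2 : wordG rels (W.take (k % W.length)) * wordG rels (W.drop (k % W.length)) = 1 := by
    rw [← wordG_append, List.take_append_drop]; exact h
  exact mul_eq_one_comm.mp h2

/-- the word table of a certificate: the rotations of the relators, the trivial words of the
generators of `TW`, and the subgroup words -/
def mkWT (inv : α → Bool) (RWP : List (Word α × Nat)) (TW : List α) (SW : List (Word α)) :
    List (Bool × List (Word α)) :=
  RWP.map (fun wp => (false, (List.range wp.2).map (fun k => (canonW inv wp.1).rotate k))) ++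
  (TW.map (fun x => (false, [[(x, false), (x, true)], [(x, true), (x, false)]])) ++
  SW.map (fun W => (true, [canonW inv W])))

theorem mkWT_spec (rels : Set (FreeGroup α)) (S : Set (FreeGroup α)) (inv : α → Bool)
    (RWP : List (Word α × Nat)) (TW : List α) (SW : List (Word α))
    (hinv : ∀ x, inv x = true → wordG rels [(x, true)] * wordG rels [(x, true)] = 1)
    (hR : ∀ wp ∈ RWP, wordG rels wp.1 = 1) (hS2 : ∀ L ∈ SW, FreeGroup.mk L ∈ S) :
    ∀ e ∈ mkWT inv RWP TW SW, ∀ W ∈ e.2,
      (e.1 = false → wordG rels W = 1) ∧ (e.1 = true → wordG rels W ∈ subH rels S) := by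
  intro e he W hW
  unfold mkWT at he
  rcases List.mem_append.mp he with he | he
  · obtain ⟨wp, hwp, rfl⟩ := List.mem_map.mp he
    obtain ⟨k, _, rfl⟩ := List.mem_map.mp hW
    refine ⟨fun _ => ?_, fun h => absurd h (by simp)⟩
    apply wordG_rotate
    rw [wordG_canonW rels inv hinv]
    exact hR wp hwp
  · rcases List.mem_append.mp he with he | he
    · obtain ⟨x, _, rfl⟩ := List.mem_map.mp he
      refine ⟨fun _ => ?_, fun h => absurd h (by simp)⟩
      have hW' : W = [(x, false), (x, true)] ∨ W = [(x, true), (x, false)] := by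
        simpa using hW
      rcases hW' with rfl | rfl
      · rw [wordG_cons, wordG_false, wordG_true, inv_mul_cancel]
      · rw [wordG_cons, wordG_false, wordG_true, mul_inv_cancel]
    · obtain ⟨W0, hW0, rfl⟩ := List.mem_map.mp he
      have hW' : W = canonW inv W0 := by simpa using hW
      subst hW'
      refine ⟨fun h => absurd h (by simp), fun _ => ?_⟩
      rw [wordG_canonW rels inv hinv]
      exact Subgroup.mem_map_of_mem _ (Subgroup.subset_closure (hS2 W0 hW0))

end CWords

end Cfsg.Agent.Lib.helper9.CE
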