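import Cfsg.Agent.Lib.helper9.CosetEnum

set_option autoImplicit false

namespace Cfsg.Agent.Lib.helper9.CE

/-! ## Layer 4: orbits of the subgroup on the cosets -/

/-- Tables of an orbit certificate (succ-encoded lookups): the label of a point, a packed tree
entry `(word index, rank, parent)` of a point, the root of a label and prefix counts of labels. -/
structure OData where
  lab1 : Nat → Nat
  ot1 : Nat → Nat
  root1 : Nat → Nat
  pc1 : Nat → Nat → Nat
  ow : Nat
  omw : Nat

namespace OData
variable (O : OData)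

def lab (i : Nat) : Nat := O.lab1 i - 1
def lo (x : Nat) : Nat := Nat.land x O.omw
def mid (x : Nat) : Nat := Nat.land (Nat.shiftRight x O.ow) O.omw
def hi (x : Nat) : Nat := Nat.shiftRight (Nat.shiftRight x O.ow) O.ow
def ot (i : Nat) : Nat := O.ot1 i - 1
def opar (i : Nat) : Nat := O.lo (O.ot i)
def ork (i : Nat) : Nat := O.mid (O.ot i)
def ogen (i : Nat) : Nat := O.hi (O.ot i)
def root (c : Nat) : Nat := O.root1 c - 1
def pc (c k : Nat) : Nat := O.pc1 c k - 1

variable {α : Type} (D : Data α)

/-- the label is invariant under the word `L` at the point `i` -/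
noncomputable def invK (L : Word α) (i : Nat) : Bool :=
  bnd (O.lab1 i) (fun a => D.walkK L i (fun e => bnd (O.lab1 e) (fun b => Nat.beq b a)))

theorem invK_spec {L : Word α} {i : Nat} (h : O.invK D L i = true) :
    O.lab (D.walk L i) = O.lab i := by
  unfold invK at h
  have h1 := (bnd_true h).2
  have h2 := D.walkK_spec L i _ h1
  exact Nat.eq_of_beq_eq_true (bnd_true h2).2

/-- the labels are invariant under all the words of a list on a range of points -/
noncomputable def invsK (Ls : List (Word α)) (lo hi : Nat) : Bool :=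
  List.rec (motive := fun _ => Bool) true
    (fun L _ ih => Bool.rec (motive := fun _ => Bool) false ih (allRange lo hi (O.invK D L))) Ls

theorem invsK_spec {Ls : List (Word α)} {lo hi : Nat} (h : O.invsK D Ls lo hi = true) :
    ∀ L ∈ Ls, ∀ i, lo ≤ i → i < hi → O.lab (D.walk L i) = O.lab i := by
  induction Ls with
  | nil => intro L hL; exact absurd hL (by simp)
  | cons W rest ih =>
    intro L hL i hlo hhi
    have e : O.invsK D (W :: rest) lo hi = Bool.rec (motive := fun _ => Bool) false
        (O.invsK D rest lo hi) (allRange lo hi (O.invK D W)) := rfl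
    rw [e] at h
    cases hW : allRange lo hi (O.invK D W) with
    | false => rw [hW] at h; exact absurd h (by simp)
    | true =>
      rw [hW] at h
      rcases List.mem_cons.mp hL with rfl | hL'
      · exact O.invK_spec D (allRange_spec hW i hlo hhi)
      · exact ih h L hL' i hlo hhi

theorem inv_join {Ls : List (Word α)} {lo mid hi : Nat}
    (h1 : ∀ L ∈ Ls, ∀ i, lo ≤ i → i < mid → O.lab (D.walk L i) = O.lab i)
    (h2 : ∀ L ∈ Ls, ∀ i, mid ≤ i → i < hi → O.lab (D.walk L i) = O.lab i) :
    ∀ L ∈ Ls, ∀ i, lo ≤ i → i < hi → O.lab (D.walk L i) = O.lab i := by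
  intro L hL i hlo hhi
  by_cases h : i < mid
  · exact h1 L hL i hlo h
  · exact h2 L hL i (Nat.le_of_not_lt h) hhi

/-- orbit tree check at a point: the point is the root of its label, or it is the image of a
point of smaller rank under one of the words -/
noncomputable def orbK (SW : List (Word α)) (j : Nat) : Bool :=
  bnd (O.lab1 j) (fun c => bnd (O.root1 c) (fun r =>
    Bool.rec (motive := fun _ => Bool)
      (bnd (O.ot1 j) (fun t => bnd (Nat.succ (O.lo t)) (fun p => bnd (O.ot1 p) (fun tp =>
        Nat.blt p D.n && Nat.blt (O.mid tp) (O.mid t) &&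
        Option.rec (motive := fun _ => Bool) false
          (fun L => D.walkK L p (fun e => Nat.beq e j)) (nthE SW (O.hi t))))))
      true (Nat.beq r j)))

theorem orbK_spec {SW : List (Word α)} {j : Nat} (h : O.orbK D SW j = true) :
    O.root (O.lab j) = j ∨
      ∃ L ∈ SW, O.opar j < D.n ∧ O.ork (O.opar j) < O.ork j ∧ D.walk L (O.opar j) = j := by
  unfold orbK at h
  have h1 := (bnd_true h).2
  have h2 := (bnd_true h1).2
  cases hb : Nat.beq (O.root1 (O.lab1 j - 1) - 1) j with
  | true => exact Or.inl (Nat.eq_of_beq_eq_true hb)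
  | false =>
    rw [hb] at h2
    have h3 : bnd (O.ot1 j) (fun t => bnd (Nat.succ (O.lo t)) (fun p => bnd (O.ot1 p) (fun tp =>
        Nat.blt p D.n && Nat.blt (O.mid tp) (O.mid t) &&
        Option.rec (motive := fun _ => Bool) false
          (fun L => D.walkK L p (fun e => Nat.beq e j)) (nthE SW (O.hi t))))) = true := h2
    have h4 := (bnd_true h3).2
    rw [bnd_succ] at h4
    have h5 := (bnd_true h4).2
    simp only [Bool.and_eq_true] at h5
    obtain ⟨⟨h6, h7⟩, h8⟩ := h5
    right
    cases hn : nthE SW (O.hi (O.ot1 j - 1)) with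
    | none => rw [hn] at h8; exact absurd h8 (by simp)
    | some L =>
      rw [hn] at h8
      have h9 : D.walkK L (O.lo (O.ot1 j - 1)) (fun e => Nat.beq e j) = true := h8
      exact ⟨L, nthE_mem SW _ L hn, Nat.blt_eq.mp h6, Nat.blt_eq.mp h7,
        Nat.eq_of_beq_eq_true (D.walkK_spec L _ _ h9)⟩

/-- prefix count check at a point -/
noncomputable def pcK (c k : Nat) : Bool :=
  bnd (O.pc1 c k) (fun a => bnd (O.pc1 c (Nat.succ k)) (fun b => bnd (O.lab1 k) (fun l =>
    Nat.beq b (Nat.add a (Bool.rec (motive := fun _ => Nat) 0 1 (Nat.beq l c))))))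

theorem pcK_spec {c k : Nat} (h : O.pcK c k = true) :
    O.pc c (k + 1) = O.pc c k + (if O.lab k = c then 1 else 0) := by
  unfold pcK at h
  have h1 := (bnd_true (bnd_true (bnd_true h).2).2).2
  have h2 := Nat.eq_of_beq_eq_true h1
  cases hb : Nat.beq (O.lab1 k - 1) c with
  | true =>
    rw [hb] at h2
    have e : O.lab k = c := Nat.eq_of_beq_eq_true hb
    rw [if_pos e]
    exact h2
  | false =>
    rw [hb] at h2
    have e : O.lab k ≠ c := Nat.ne_of_beq_eq_false hb
    rw [if_neg e]
    exact h2

end OData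

/-- number of `k < n` with `lab k = c` -/
def cntS (lab : Nat → Nat) (c : Nat) : Nat → Nat
  | 0 => 0
  | k + 1 => cntS lab c k + (if lab k = c then 1 else 0)

theorem cntS_eq (lab : Nat → Nat) (c : Nat) (n : Nat) :
    cntS lab c n = ((Finset.range n).filter (fun k => lab k = c)).card := by
  induction n with
  | zero => rfl
  | succ k ih =>
    rw [cntS, ih, Finset.range_add_one, Finset.filter_insert]
    by_cases h : lab k = c
    · rw [if_pos h, if_pos h, Finset.card_insert_of_notMem (by simp)]
    · rw [if_neg h, if_neg h, Nat.add_zero]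

theorem ncard_fin_eq (n : Nat) (P : Nat → Prop) [DecidablePred P] :
    Set.ncard {j : Fin n | P j.val} = ((Finset.range n).filter P).card := by
  have h1 : {j : Fin n | P j.val} =
      ↑((Finset.univ : Finset (Fin n)).filter (fun j => P j.val)) := by
    ext j; simp
  rw [h1, Set.ncard_coe_finset, Finset.card_filter, Finset.card_filter, Finset.sum_range]

theorem OData.pc_eq (O : OData) (c n : Nat) (h0 : O.pc c 0 = 0)
    (h : ∀ k, k < n → O.pcK c k = true) : O.pc c n = cntS O.lab c n := by
  induction n with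
  | zero => exact h0
  | succ k ih =>
    rw [O.pcK_spec (h k (Nat.lt_succ_self k)), ih (fun j hj => h j (Nat.lt_succ_of_lt hj))]
    rfl

section Orbit

variable {α : Type} {D : Data α} {rels : Set (FreeGroup α)} {S : Set (FreeGroup α)}
  {SW : List (Word α)} (O : OData)
  (ρ : PresentedGroup rels →* Equiv.Perm (Fin D.n))
  (e : Fin D.n ≃ PresentedGroup rels ⧸ subH rels S)

include O in
theorem lab_inv_of_mem
    (hρ : ∀ (L : Word α) (i : Fin D.n), (ρ (wordG rels L) i).val = D.walk L i.val)
    (hS1 : ∀ s ∈ S, ∃ L ∈ SW, s = FreeGroup.mk L)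
    (hinv : ∀ L ∈ SW, ∀ i, i < D.n → O.lab (D.walk L i) = O.lab i) :
    ∀ g ∈ subH rels S, ∀ i : Fin D.n, O.lab (ρ g i).val = O.lab i.val := by
  let K : Subgroup (PresentedGroup rels) :=
    { carrier := {g | ∀ i : Fin D.n, O.lab (ρ g i).val = O.lab i.val}
      one_mem' := by
        intro i
        simp
      mul_mem' := by
        intro a b ha hb i
        rw [map_mul, Equiv.Perm.mul_apply, ha, hb]
      inv_mem' := by
        intro a ha i
        have h1 := ha (ρ a⁻¹ i)
        have e0 : ρ a (ρ a⁻¹ i) = i := by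
          rw [← Equiv.Perm.mul_apply, ← map_mul, mul_inv_cancel, map_one]; rfl
        rw [e0] at h1
        exact h1.symm }
  have hle : subH rels S ≤ K := by
    rw [Subgroup.map_le_iff_le_comap, Subgroup.closure_le]
    intro s hs
    obtain ⟨L, hL, rfl⟩ := hS1 s hs
    show ∀ i : Fin D.n, O.lab (ρ (wordG rels L) i).val = O.lab i.val
    intro i
    rw [hρ]
    exact hinv L hL i.val i.2
  intro g hg
  exact hle hg

include O in
/-- the orbit of the subgroup through the coset of a root point is the image of its label class -/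
theorem orbit_eq
    (he : ∀ g i, g • e i = e (ρ g i))
    (hρ : ∀ (L : Word α) (i : Fin D.n), (ρ (wordG rels L) i).val = D.walk L i.val)
    (hS1 : ∀ s ∈ S, ∃ L ∈ SW, s = FreeGroup.mk L) (hS2 : ∀ L ∈ SW, FreeGroup.mk L ∈ S)
    (hinv : ∀ L ∈ SW, ∀ i, i < D.n → O.lab (D.walk L i) = O.lab i)
    (horb : ∀ j, j < D.n → O.orbK D SW j = true)
    (r : Fin D.n) (hr : O.root (O.lab r.val) = r.val) :
    MulAction.orbit (subH rels S) (e r) = e '' {j : Fin D.n | O.lab j.val = O.lab r.val} := by
  ext x
  constructor
  · intro hx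
    obtain ⟨g, rfl⟩ := MulAction.mem_orbit_iff.mp hx
    refine ⟨ρ g.val r, ?_, ?_⟩
    · exact lab_inv_of_mem O ρ hρ hS1 hinv g.val g.2 r
    · exact (he g.val r).symm
  · rintro ⟨j, hj, rfl⟩
    have key : ∀ (m : Nat) (j : Fin D.n), O.ork j.val = m → O.lab j.val = O.lab r.val →
        e j ∈ MulAction.orbit (subH rels S) (e r) := by
      intro m
      induction m using Nat.strong_induction_on with
      | _ m IH =>
        intro j hm hj
        rcases O.orbK_spec D (horb j.val j.2) with h | ⟨L, hL, hp, hrk, hw⟩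
        · have : j = r := by
            apply Fin.ext
            rw [← h, hj, hr]
          rw [this]
          exact MulAction.mem_orbit_self _
        · have hlab : O.lab (O.opar j.val) = O.lab r.val := by
            rw [← hj, ← hinv L hL _ hp, hw]
          have h1 := IH (O.ork (O.opar j.val)) (hm ▸ hrk) ⟨O.opar j.val, hp⟩ rfl hlab
          have hmem : wordG rels L ∈ subH rels S :=
            Subgroup.mem_map_of_mem _ (Subgroup.subset_closure (hS2 L hL))
          have h2 : e j = (⟨wordG rels L, hmem⟩ : subH rels S) • e ⟨O.opar j.val, hp⟩ := by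
            show e j = wordG rels L • e ⟨O.opar j.val, hp⟩
            rw [he]
            congr 1
            apply Fin.ext
            rw [hρ]
            exact hw.symm
          rw [h2]
          exact MulAction.mem_orbit_of_mem_orbit _ h1
    exact key _ j rfl hj

include O in
/-- the size of the orbit of the subgroup through the coset of a root point -/
theorem orbit_ncard
    (he : ∀ g i, g • e i = e (ρ g i))
    (hρ : ∀ (L : Word α) (i : Fin D.n), (ρ (wordG rels L) i).val = D.walk L i.val)
    (hS1 : ∀ s ∈ S, ∃ L ∈ SW, s = FreeGroup.mk L) (hS2 : ∀ L ∈ SW, FreeGroup.mk L ∈ S)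
    (hinv : ∀ L ∈ SW, ∀ i, i < D.n → O.lab (D.walk L i) = O.lab i)
    (horb : ∀ j, j < D.n → O.orbK D SW j = true)
    (r : Fin D.n) (c m : Nat) (hc : O.lab r.val = c) (hr : O.root c = r.val)
    (h0 : O.pc c 0 = 0) (hpc : ∀ k, k < D.n → O.pcK c k = true) (hm : O.pc c D.n = m) :
    (MulAction.orbit (subH rels S) (e r)).ncard = m := by
  subst hc
  rw [orbit_eq O ρ e he hρ hS1 hS2 hinv horb r hr, Set.ncard_image_of_injective _ e.injective,
    ncard_fin_eq D.n (fun k => O.lab k = O.lab r.val), ← cntS_eq, ← O.pc_eq _ _ h0 hpc]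
  exact hm

include O in
/-- orbits through root points of different labels are different -/
theorem orbit_ne
    (he : ∀ g i, g • e i = e (ρ g i))
    (hρ : ∀ (L : Word α) (i : Fin D.n), (ρ (wordG rels L) i).val = D.walk L i.val)
    (hS1 : ∀ s ∈ S, ∃ L ∈ SW, s = FreeGroup.mk L) (hS2 : ∀ L ∈ SW, FreeGroup.mk L ∈ S)
    (hinv : ∀ L ∈ SW, ∀ i, i < D.n → O.lab (D.walk L i) = O.lab i)
    (horb : ∀ j, j < D.n → O.orbK D SW j = true)
    (r1 r2 : Fin D.n) (hr2 : O.root (O.lab r2.val) = r2.val)
    (hne : O.lab r1.val ≠ O.lab r2.val) :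
    MulAction.orbit (subH rels S) (e r1) ≠ MulAction.orbit (subH rels S) (e r2) := by
  intro h
  have h1 : e r1 ∈ MulAction.orbit (subH rels S) (e r2) := by
    rw [← h]; exact MulAction.mem_orbit_self _
  rw [orbit_eq O ρ e he hρ hS1 hS2 hinv horb r2 hr2] at h1
  obtain ⟨j, hj, hje⟩ := h1
  have : j = r1 := e.injective hje
  rw [this] at hj
  exact hne hj

end Orbit

end Cfsg.Agent.Lib.helper9.CE
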