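import Cfsg.Agent.Lib.helper9.CosetOrbit

set_option autoImplicit false

namespace Cfsg.Agent.Lib.helper9.CE

/-! ## Layer 5: orders of presented groups along chains of sub-presentations -/

section Chain

variable {α : Type}

/-- the set of relators given by a list of words -/
def relSet (RL : List (Word α)) : Set (FreeGroup α) := {r | ∃ L ∈ RL, r = FreeGroup.mk L}

/-- the set of the generators of a list -/
def genSet (TL : List α) : Set (FreeGroup α) := {s | ∃ x ∈ TL, s = FreeGroup.of x}

/-- the generators of a list as words -/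
def genW (TL : List α) : List (Word α) := TL.map (fun x => [(x, true)])

theorem wordG_relSet (RL : List (Word α)) : ∀ L ∈ RL, wordG (relSet RL) L = 1 := by
  intro L hL
  unfold wordG
  exact PresentedGroup.one_of_mem ⟨L, hL, rfl⟩

variable [DecidableEq α]

/-- the map sending the generators of `TL` to themselves and the others to `1` -/
noncomputable def restrictGen (R : Set (FreeGroup α)) (TL : List α) (x : α) : PresentedGroup R :=
  if x ∈ TL then PresentedGroup.of x else 1

theorem lift_restrictGen (R : Set (FreeGroup α)) (TL : List α) (L : Word α)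
    (hL : ∀ l ∈ L, l.1 ∈ TL) :
    FreeGroup.lift (restrictGen R TL) (FreeGroup.mk L) = wordG R L := by
  induction L with
  | nil => rw [wordG_nil]; rfl
  | cons l rest ih =>
    have e1 : FreeGroup.mk (l :: rest) = FreeGroup.mk [l] * FreeGroup.mk rest := by
      rw [FreeGroup.mul_mk]; rfl
    rw [e1, map_mul, ih (fun l' hl' => hL l' (List.mem_cons_of_mem _ hl')), wordG_cons]
    congr 1
    obtain ⟨x, b⟩ := l
    have hx : x ∈ TL := hL (x, b) (List.mem_cons_self ..)
    cases b with
    | true =>
      show FreeGroup.lift (restrictGen R TL) (FreeGroup.of x) = _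
      rw [FreeGroup.lift_apply_of, wordG_true]
      unfold restrictGen
      rw [if_pos hx]
    | false =>
      have e2 : FreeGroup.mk [(x, false)] = (FreeGroup.of x)⁻¹ := rfl
      rw [e2, map_inv, FreeGroup.lift_apply_of, wordG_false]
      unfold restrictGen
      rw [if_pos hx]

theorem lift_restrictGen_killed (R : Set (FreeGroup α)) (TL : List α) (L : Word α)
    (hL : ∀ l ∈ L, l.1 ∉ TL) :
    FreeGroup.lift (restrictGen R TL) (FreeGroup.mk L) = 1 := by
  induction L with
  | nil => rfl
  | cons l rest ih =>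
    have e1 : FreeGroup.mk (l :: rest) = FreeGroup.mk [l] * FreeGroup.mk rest := by
      rw [FreeGroup.mul_mk]; rfl
    rw [e1, map_mul, ih (fun l' hl' => hL l' (List.mem_cons_of_mem _ hl')), mul_one]
    obtain ⟨x, b⟩ := l
    have hx : x ∉ TL := hL (x, b) (List.mem_cons_self ..)
    cases b with
    | true =>
      show FreeGroup.lift (restrictGen R TL) (FreeGroup.of x) = _
      rw [FreeGroup.lift_apply_of]
      unfold restrictGen
      rw [if_neg hx]
    | false =>
      have e2 : FreeGroup.mk [(x, false)] = (FreeGroup.of x)⁻¹ := rfl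
      rw [e2, map_inv, FreeGroup.lift_apply_of]
      unfold restrictGen
      rw [if_neg hx, inv_one]

/-- every word of `RL` is a word of `RLp` in the generators of `TL`, or a word in the other
generators -/
def subOK (RLp : List (Word α)) (TL : List α) (RL : List (Word α)) : Bool :=
  RL.all (fun L => (L.all (fun l => decide (l.1 ∈ TL)) && decide (L ∈ RLp)) ||
    L.all (fun l => decide (l.1 ∉ TL)))

theorem restrict_kills (R : Set (FreeGroup α)) (RLp : List (Word α))
    (hR : ∀ L ∈ RLp, wordG R L = 1) (TL : List α) (RL : List (Word α))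
    (h : subOK RLp TL RL = true) :
    ∀ r ∈ relSet RL, FreeGroup.lift (restrictGen R TL) r = 1 := by
  rintro r ⟨L, hL, rfl⟩
  unfold subOK at h
  have h1 := List.all_eq_true.mp h L hL
  rcases Bool.or_eq_true_iff.mp h1 with h2 | h2
  · obtain ⟨h3, h4⟩ := Bool.and_eq_true_iff.mp h2
    rw [lift_restrictGen R TL L (fun l hl => of_decide_eq_true (List.all_eq_true.mp h3 l hl))]
    exact hR L (of_decide_eq_true h4)
  · exact lift_restrictGen_killed R TL L
      (fun l hl => of_decide_eq_true (List.all_eq_true.mp h2 l hl))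

/-- the subgroup generated by the generators of `TL` is a quotient of any presented group whose
relators become trivial under `restrictGen` -/
theorem card_subH_le (R R' : Set (FreeGroup α)) (TL : List α) (S : Set (FreeGroup α))
    (hS : ∀ s ∈ S, ∃ x ∈ TL, s = FreeGroup.of x)
    (hR' : ∀ r ∈ R', FreeGroup.lift (restrictGen R TL) r = 1)
    [Finite (PresentedGroup R')] :
    Finite (subH R S) ∧ Nat.card (subH R S) ≤ Nat.card (PresentedGroup R') := by
  let ψ : PresentedGroup R' →* PresentedGroup R := PresentedGroup.toGroup hR'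
  have hle : subH R S ≤ ψ.range := by
    rw [Subgroup.map_le_iff_le_comap, Subgroup.closure_le]
    intro s hs
    obtain ⟨x, hx, rfl⟩ := hS s hs
    refine ⟨PresentedGroup.of x, ?_⟩
    show PresentedGroup.toGroup hR' (PresentedGroup.of x) = PresentedGroup.of x
    rw [PresentedGroup.toGroup.of]
    unfold restrictGen
    rw [if_pos hx]
  have : Finite ψ.range := Finite.of_surjective ψ.rangeRestrict ψ.rangeRestrict_surjective
  have hfin : Finite (subH R S) := Finite.of_injective (Subgroup.inclusion hle)
    (Subgroup.inclusion_injective hle)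
  refine ⟨hfin, ?_⟩
  calc Nat.card (subH R S) ≤ Nat.card ψ.range :=
        Nat.card_le_card_of_injective _ (Subgroup.inclusion_injective hle)
    _ ≤ Nat.card (PresentedGroup R') :=
        Nat.card_le_card_of_surjective _ ψ.rangeRestrict_surjective

theorem card_of_index_le {G : Type*} [Group G] (H : Subgroup G) (n M : Nat) (hn : 0 < n)
    (hidx : H.index = n) (hfin : Finite H) (hM : Nat.card H ≤ M) :
    Finite G ∧ Nat.card G ≤ n * M := by
  have : H.FiniteIndex := ⟨by rw [hidx]; omega⟩
  have : Finite (G ⧸ H) := Subgroup.finite_quotient_of_finiteIndex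
  have e := Subgroup.groupEquivQuotientProdSubgroup (s := H)
  have : Finite G := Finite.of_equiv _ e.symm
  refine ⟨inferInstance, ?_⟩
  rw [← Subgroup.index_mul_card H, hidx]
  exact Nat.mul_le_mul_left n hM

/-- one step of a chain of sub-presentations -/
theorem chain_step (R : Set (FreeGroup α)) (RLp : List (Word α))
    (hR : ∀ L ∈ RLp, wordG R L = 1) (TL : List α) (RL : List (Word α))
    (hsubOK : subOK RLp TL RL = true) (S : Set (FreeGroup α))
    (hS : ∀ s ∈ S, ∃ x ∈ TL, s = FreeGroup.of x)
    (n M : Nat) (hn : 0 < n) (hidx : (subH R S).index = n)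
    (h' : Finite (PresentedGroup (relSet RL)) ∧ Nat.card (PresentedGroup (relSet RL)) ≤ M) :
    Finite (PresentedGroup R) ∧ Nat.card (PresentedGroup R) ≤ n * M := by
  have := h'.1
  obtain ⟨hfin, hle⟩ := card_subH_le R (relSet RL) TL S hS (restrict_kills R RLp hR TL RL hsubOK)
  exact card_of_index_le (subH R S) n M hn hidx hfin (le_trans hle h'.2)

omit [DecidableEq α] in
theorem subH_genSet_nil (R : Set (FreeGroup α)) : subH R (genSet ([] : List α)) = ⊥ := by
  have h0 : genSet ([] : List α) = ∅ := by
    ext s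
    simp [genSet]
  unfold subH
  rw [h0, Subgroup.closure_empty, Subgroup.map_bot]

omit [DecidableEq α] in
/-- the bottom of a chain: the trivial subgroup -/
theorem chain_bot (R : Set (FreeGroup α)) (n : Nat) (hn : 0 < n)
    (hidx : (subH R (genSet ([] : List α))).index = n) :
    Finite (PresentedGroup R) ∧ Nat.card (PresentedGroup R) ≤ n := by
  rw [subH_genSet_nil, Subgroup.index_bot] at hidx
  refine ⟨Nat.finite_of_card_ne_zero (by omega), by omega⟩

omit [DecidableEq α] in
theorem genSet_of (TL : List α) : ∀ s ∈ genSet TL, ∃ x ∈ TL, s = FreeGroup.of x :=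
  fun _ hs => hs

omit [DecidableEq α] in
/-- a certificate for a presentation given by a list of words and the subgroup generated by
the generators of a list -/
theorem subCert (D : Data α) (RL : List (Word α))
    (RWP : List (Word α × Nat)) (inv : α → Bool) (TW : List α) (TL : List α)
    (WT : List (Bool × List (Word α)))
    (hn : 0 < D.n)
    (hperm : ∀ x : α, ∀ i, i < D.n → D.permK x i = true)
    (hrel : ∀ L ∈ RL, ∀ i, i < D.n → D.walk L i = i)
    (hsub : D.subK (genW TL) = true)
    (hdec : ∀ x : α, D.dec (D.code x) = x) (hm : ∀ x : α, D.code x ≠ D.mtag)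
    (hRWP : RWP.map Prod.fst = RL)
    (hWT : WT = mkWT inv RWP TW (genW TL))
    (hsq : ∀ x : α, inv x = true → sqW x ∈ RL)
    (hpi0 : D.pi 0 = 0) (htree : ∀ c, 0 < c → c < D.NN → D.treeK c = true)
    (hrn0 : D.rn 0 = 0) (hrn : ∀ i, i < D.n → D.rnK i = true)
    (hfact : ∀ id, id < D.NF → D.factK WT id = true)
    (hfin : ∀ x : α, ∀ i, i < D.n → D.finK x i = true) :
    Cert D (relSet RL) (genSet TL) (genW TL) WT where
  hn := hn
  hperm := hperm
  hlift := by
    rintro r ⟨L, hL, rfl⟩
    exact D.lift_mk_eq_one hperm L (fun i hi => hrel L hL i hi)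
  hS1 := by
    rintro s ⟨x, hx, rfl⟩
    exact ⟨[(x, true)], List.mem_map.mpr ⟨x, hx, rfl⟩, rfl⟩
  hsub := D.subK_spec hsub
  hdec := hdec
  hm := hm
  hWT := hWT ▸ mkWT_spec (relSet RL) (genSet TL) inv RWP TW (genW TL)
    (fun x hx => by
      have h1 := wordG_relSet RL (sqW x) (hsq x hx)
      rw [← wordG_cons]
      exact h1)
    (fun wp hwp => wordG_relSet RL wp.1 (hRWP ▸ List.mem_map_of_mem hwp))
    (by
      intro L hL
      obtain ⟨x, hx, rfl⟩ := List.mem_map.mp hL
      exact ⟨x, hx, rfl⟩)
  hpi0 := hpi0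
  htree := htree
  hrn0 := hrn0
  hrn := hrn
  hfact := hfact
  hfin := hfin

end Chain

/-! ## Layer 6: lower bounds for the order from a chain of point stabilizers -/

section Stab

/-- the pointwise stabilizer of a list of points -/
def pstab (G : Type*) [Group G] {X : Type*} [MulAction G X] : List X → Subgroup G
  | [] => ⊤
  | x :: l => pstab G l ⊓ MulAction.stabilizer G x

variable {G : Type*} [Group G] {X : Type*} [MulAction G X]

theorem mem_pstab {l : List X} {g : G} : g ∈ pstab G l ↔ ∀ x ∈ l, g • x = x := by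
  induction l with
  | nil => simp [pstab]
  | cons x l ih =>
    rw [pstab, Subgroup.mem_inf, ih, MulAction.mem_stabilizer_iff]
    constructor
    · rintro ⟨h1, h2⟩ y hy
      rcases List.mem_cons.mp hy with rfl | hy
      · exact h2
      · exact h1 y hy
    · intro h
      exact ⟨fun y hy => h y (List.mem_cons_of_mem _ hy), h x (List.mem_cons_self ..)⟩

theorem card_pstab_step [Finite G] (l : List X) (x : X) (m : ℕ) (O : Set X)
    (hO : O ⊆ MulAction.orbit (pstab G l) x) (hm : m ≤ O.ncard) :
    m * Nat.card (pstab G (x :: l)) ≤ Nat.card (pstab G l) := by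
  have h1 : (MulAction.orbit (pstab G l) x).ncard *
      Nat.card (MulAction.stabilizer (pstab G l) x) = Nat.card (pstab G l) := by
    rw [← MulAction.index_stabilizer, Subgroup.index_mul_card]
  have key : (MulAction.stabilizer G x).subgroupOf (pstab G l) =
      MulAction.stabilizer (pstab G l) x := by
    ext; rfl
  have h2 : Nat.card (MulAction.stabilizer (pstab G l) x) = Nat.card (pstab G (x :: l)) := by
    rw [← key, ← Subgroup.inf_subgroupOf_left]
    exact Nat.card_congr (Subgroup.subgroupOfEquivOfLe inf_le_left).toEquiv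
  have h3 : O.ncard ≤ (MulAction.orbit (pstab G l) x).ncard :=
    Set.ncard_le_ncard hO (Set.finite_range _)
  rw [← h1, h2]
  exact Nat.mul_le_mul_right _ (le_trans hm h3)

theorem chain_le {m M c c' c'' : ℕ} (h1 : m * c' ≤ c) (h2 : M * c'' ≤ c') : m * M * c'' ≤ c := by
  calc m * M * c'' = m * (M * c'') := Nat.mul_assoc ..
    _ ≤ m * c' := Nat.mul_le_mul_left m h2
    _ ≤ c := h1

end Stab

namespace OData
variable (O : OData) {α : Type} (D : Data α)

/-- orbit tree check for the label `1`: a point of label `1` is the root, or the image of a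
point of label `1` and smaller rank under one of the words -/
noncomputable def orb2K (SW : List (Word α)) (j : Nat) : Bool :=
  bnd (O.lab1 j) (fun c => Bool.rec (motive := fun _ => Bool) true
    (bnd (O.root1 1) (fun r => Bool.rec (motive := fun _ => Bool)
      (bnd (O.ot1 j) (fun t => bnd (Nat.succ (O.lo t)) (fun p => bnd (O.ot1 p) (fun tp =>
        bnd (O.lab1 p) (fun cp =>
          Nat.beq cp 1 && Nat.blt p D.n && Nat.blt (O.mid tp) (O.mid t) &&
          Option.rec (motive := fun _ => Bool) false
            (fun L => D.walkK L p (fun e => Nat.beq e j)) (nthE SW (O.hi t)))))))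
      true (Nat.beq r j)))
    (Nat.beq c 1))

theorem orb2K_spec {SW : List (Word α)} {j : Nat} (h : O.orb2K D SW j = true)
    (hc : O.lab j = 1) :
    O.root 1 = j ∨
      ∃ L ∈ SW, O.opar j < D.n ∧ O.lab (O.opar j) = 1 ∧ O.ork (O.opar j) < O.ork j ∧
        D.walk L (O.opar j) = j := by
  unfold orb2K at h
  have h1 := (bnd_true h).2
  have hc' : Nat.beq (O.lab1 j - 1) 1 = true := by
    have : O.lab1 j - 1 = 1 := hc
    rw [this]; rfl
  rw [hc'] at h1
  have h2 : bnd (O.root1 1) (fun r => Bool.rec (motive := fun _ => Bool)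
      (bnd (O.ot1 j) (fun t => bnd (Nat.succ (O.lo t)) (fun p => bnd (O.ot1 p) (fun tp =>
        bnd (O.lab1 p) (fun cp =>
          Nat.beq cp 1 && Nat.blt p D.n && Nat.blt (O.mid tp) (O.mid t) &&
          Option.rec (motive := fun _ => Bool) false
            (fun L => D.walkK L p (fun e => Nat.beq e j)) (nthE SW (O.hi t)))))))
      true (Nat.beq r j)) = true := h1
  have h3 := (bnd_true h2).2
  cases hb : Nat.beq (O.root1 1 - 1) j with
  | true => exact Or.inl (Nat.eq_of_beq_eq_true hb)
  | false =>
    rw [hb] at h3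
    have h4 : bnd (O.ot1 j) (fun t => bnd (Nat.succ (O.lo t)) (fun p => bnd (O.ot1 p) (fun tp =>
        bnd (O.lab1 p) (fun cp =>
          Nat.beq cp 1 && Nat.blt p D.n && Nat.blt (O.mid tp) (O.mid t) &&
          Option.rec (motive := fun _ => Bool) false
            (fun L => D.walkK L p (fun e => Nat.beq e j)) (nthE SW (O.hi t)))))) = true := h3
    have h5 := (bnd_true h4).2
    rw [bnd_succ] at h5
    have h6 := (bnd_true (bnd_true h5).2).2
    simp only [Bool.and_eq_true] at h6
    obtain ⟨⟨⟨h7, h8⟩, h9⟩, h10⟩ := h6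
    right
    cases hn : nthE SW (O.hi (O.ot1 j - 1)) with
    | none => rw [hn] at h10; exact absurd h10 (by simp)
    | some L =>
      rw [hn] at h10
      have h11 : D.walkK L (O.lo (O.ot1 j - 1)) (fun e => Nat.beq e j) = true := h10
      exact ⟨L, nthE_mem SW _ L hn, Nat.blt_eq.mp h8, Nat.eq_of_beq_eq_true h7, Nat.blt_eq.mp h9,
        Nat.eq_of_beq_eq_true (D.walkK_spec L _ _ h11)⟩

end OData

/-- the label of a point is below `k` -/
noncomputable def OData.labK (O : OData) (k j : Nat) : Bool :=
  bnd (O.lab1 j) (fun c => Nat.blt c k)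

theorem OData.labK_spec (O : OData) {k j : Nat} (h : O.labK k j = true) : O.lab j < k := by
  unfold OData.labK at h
  exact Nat.blt_eq.mp (bnd_true h).2

/-- the words of a list fix the points of a list -/
noncomputable def fixK {α : Type} (D : Data α) (Ls : List (Word α)) (bs : List Nat) : Bool :=
  List.rec (motive := fun _ => Bool) true
    (fun b _ ih => Bool.rec (motive := fun _ => Bool) false ih (D.relsK Ls b (Nat.succ b))) bs

theorem fixK_spec {α : Type} (D : Data α) {Ls : List (Word α)} {bs : List Nat}
    (h : fixK D Ls bs = true) : ∀ L ∈ Ls, ∀ b ∈ bs, D.walk L b = b := by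
  induction bs with
  | nil => intro L _ b hb; exact absurd hb (by simp)
  | cons c rest ih =>
    intro L hL b hb
    have e : fixK D Ls (c :: rest) = Bool.rec (motive := fun _ => Bool) false
        (fixK D Ls rest) (D.relsK Ls c (Nat.succ c)) := rfl
    rw [e] at h
    cases hW : D.relsK Ls c (Nat.succ c) with
    | false => rw [hW] at h; exact absurd h (by simp)
    | true =>
      rw [hW] at h
      rcases List.mem_cons.mp hb with rfl | hb'
      · exact D.relsK_spec hW L hL b (Nat.le_refl _) (Nat.lt_succ_self _)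
      · exact ih h L hL b hb'

section Levels

variable {α : Type} {D : Data α} {rels : Set (FreeGroup α)} {S : Set (FreeGroup α)}
  (ρ : PresentedGroup rels →* Equiv.Perm (Fin D.n))
  (e : Fin D.n ≃ PresentedGroup rels ⧸ subH rels S)

theorem wordG_mem_pstab
    (he : ∀ g i, g • e i = e (ρ g i))
    (hρ : ∀ (L : Word α) (i : Fin D.n), (ρ (wordG rels L) i).val = D.walk L i.val)
    (Ws : List (Word α)) (bl : List (Fin D.n))
    (hfix : ∀ L ∈ Ws, ∀ p ∈ bl, D.walk L p.val = p.val) :
    ∀ L ∈ Ws, wordG rels L ∈ pstab (PresentedGroup rels) (bl.map e) := by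
  intro L hL
  rw [mem_pstab]
  intro x hx
  obtain ⟨p, hp, rfl⟩ := List.mem_map.mp hx
  rw [he]
  congr 1
  apply Fin.ext
  rw [hρ]
  exact hfix L hL p hp

/-- one level of the stabilizer chain -/
theorem level_step [Finite (PresentedGroup rels)]
    (he : ∀ g i, g • e i = e (ρ g i))
    (hρ : ∀ (L : Word α) (i : Fin D.n), (ρ (wordG rels L) i).val = D.walk L i.val)
    (O : OData) (Ws : List (Word α)) (bl : List (Fin D.n)) (b : Fin D.n) (m : ℕ)
    (hfix : ∀ L ∈ Ws, ∀ p ∈ bl, D.walk L p.val = p.val)
    (horb : ∀ j, j < D.n → O.orb2K D Ws j = true)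
    (hroot : O.root 1 = b.val)
    (h0 : O.pc 1 0 = 0) (hpc : ∀ k, k < D.n → O.pcK 1 k = true) (hm : O.pc 1 D.n = m) :
    m * Nat.card (pstab (PresentedGroup rels) ((b :: bl).map e)) ≤
      Nat.card (pstab (PresentedGroup rels) (bl.map e)) := by
  apply card_pstab_step (bl.map e) (e b) m (e '' {j : Fin D.n | O.lab j.val = 1})
  · rintro _ ⟨j, hj, rfl⟩
    have key : ∀ (r : Nat) (j : Fin D.n), O.ork j.val = r → O.lab j.val = 1 →
        e j ∈ MulAction.orbit (pstab (PresentedGroup rels) (bl.map e)) (e b) := by
      intro r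
      induction r using Nat.strong_induction_on with
      | _ r IH =>
        intro j hr hj
        rcases O.orb2K_spec D (horb j.val j.2) hj with h | ⟨L, hL, hp, hlab, hrk, hw⟩
        · have : j = b := Fin.ext (by rw [← h, hroot])
          rw [this]
          exact MulAction.mem_orbit_self _
        · have h1 := IH (O.ork (O.opar j.val)) (hr ▸ hrk) ⟨O.opar j.val, hp⟩ rfl hlab
          have hmem := wordG_mem_pstab ρ e he hρ Ws bl hfix L hL
          have h2 : e j = (⟨wordG rels L, hmem⟩ : pstab (PresentedGroup rels) (bl.map e)) •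
              e ⟨O.opar j.val, hp⟩ := by
            show e j = wordG rels L • e ⟨O.opar j.val, hp⟩
            rw [he]
            congr 1
            apply Fin.ext
            rw [hρ]
            exact hw.symm
          rw [h2]
          exact MulAction.mem_orbit_of_mem_orbit _ h1
    exact key _ j rfl hj
  · rw [Set.ncard_image_of_injective _ e.injective, ncard_fin_eq D.n (fun k => O.lab k = 1),
      ← cntS_eq, ← O.pc_eq _ _ h0 hpc, hm]

theorem ker_le_pstab (he : ∀ g i, g • e i = e (ρ g i)) (g : PresentedGroup rels) (hg : ρ g = 1)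
    (bl : List (Fin D.n)) : g ∈ pstab (PresentedGroup rels) (bl.map e) := by
  rw [mem_pstab]
  intro x hx
  obtain ⟨p, _, rfl⟩ := List.mem_map.mp hx
  rw [he, hg]
  rfl

/-- the lower and the upper bound together: the order and the faithfulness of the action -/
theorem rho_injective_of_chain [Finite (PresentedGroup rels)]
    (he : ∀ g i, g • e i = e (ρ g i)) (bl : List (Fin D.n)) (N : ℕ) (hN : 0 < N)
    (hle : N * Nat.card (pstab (PresentedGroup rels) (bl.map e)) ≤
      Nat.card (pstab (PresentedGroup rels) (([] : List (Fin D.n)).map e)))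
    (hub : Nat.card (PresentedGroup rels) ≤ N) :
    Function.Injective ρ ∧ Nat.card (PresentedGroup rels) = N := by
  have htop : Nat.card (pstab (PresentedGroup rels) (([] : List (Fin D.n)).map e)) =
      Nat.card (PresentedGroup rels) := by
    show Nat.card (⊤ : Subgroup (PresentedGroup rels)) = _
    exact Subgroup.card_top
  rw [htop] at hle
  have hpos : 0 < Nat.card (pstab (PresentedGroup rels) (bl.map e)) := Nat.card_pos
  have hc1 : Nat.card (pstab (PresentedGroup rels) (bl.map e)) = 1 := by
    by_contra hne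
    have : 2 ≤ Nat.card (pstab (PresentedGroup rels) (bl.map e)) := by omega
    have h2 : N * 2 ≤ N * Nat.card (pstab (PresentedGroup rels) (bl.map e)) :=
      Nat.mul_le_mul_left N this
    omega
  rw [hc1, Nat.mul_one] at hle
  refine ⟨?_, le_antisymm hub hle⟩
  rw [injective_iff_map_eq_one]
  intro g hg
  have h1 := ker_le_pstab ρ e he g hg bl
  have h2 : pstab (PresentedGroup rels) (bl.map e) = ⊥ := (Subgroup.card_eq_one).mp hc1
  rw [h2] at h1
  exact Subgroup.mem_bot.mp h1

end Levels

/-! ## Layer 7: normal subgroups of a group acting primitively -/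

theorem card_filter_lab (lab : Nat → Nat) (n : Nat) (P : Nat → Prop) [DecidablePred P]
    (cs : List Nat) (hcs : cs.Nodup) :
    ((Finset.range n).filter (fun j => lab j ∈ cs ∧ P (lab j))).card =
      ((cs.filter (fun c => decide (P c))).map (fun c => cntS lab c n)).sum := by
  induction cs with
  | nil => simp
  | cons c cs ih =>
    have hc : c ∉ cs := (List.nodup_cons.mp hcs).1
    have ih' := ih (List.nodup_cons.mp hcs).2
    have hsplit : (Finset.range n).filter (fun j => lab j ∈ c :: cs ∧ P (lab j)) =
        (Finset.range n).filter (fun j => lab j = c ∧ P c) ∪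
        (Finset.range n).filter (fun j => lab j ∈ cs ∧ P (lab j)) := by
      ext j
      simp only [Finset.mem_filter, Finset.mem_union, List.mem_cons]
      constructor
      · rintro ⟨hj, h1 | h1, h2⟩
        · left; exact ⟨hj, h1, h1 ▸ h2⟩
        · right; exact ⟨hj, h1, h2⟩
      · rintro (⟨hj, h1, h2⟩ | ⟨hj, h1, h2⟩)
        · exact ⟨hj, Or.inl h1, h1 ▸ h2⟩
        · exact ⟨hj, Or.inr h1, h2⟩
    have hdisj : Disjoint ((Finset.range n).filter (fun j => lab j = c ∧ P c))
        ((Finset.range n).filter (fun j => lab j ∈ cs ∧ P (lab j))) := by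
      rw [Finset.disjoint_filter]
      rintro j _ ⟨h1, _⟩ ⟨h2, _⟩
      exact hc (h1 ▸ h2)
    rw [hsplit, Finset.card_union_of_disjoint hdisj, ih']
    by_cases hP : P c
    · have e1 : (Finset.range n).filter (fun j => lab j = c ∧ P c) =
          (Finset.range n).filter (fun j => lab j = c) := by
        apply Finset.filter_congr
        intro j _
        simp [hP]
      rw [e1, List.filter_cons_of_pos (by simpa using hP), List.map_cons, List.sum_cons, cntS_eq]
    · have e1 : (Finset.range n).filter (fun j => lab j = c ∧ P c) = ∅ := by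
        apply Finset.filter_false_of_mem
        intro j _
        simp [hP]
      rw [e1, List.filter_cons_of_neg (by simpa using hP)]
      simp

section Prim

variable {α : Type} {D : Data α} {rels : Set (FreeGroup α)} {S : Set (FreeGroup α)}
  {SW : List (Word α)} (O : OData)
  (ρ : PresentedGroup rels →* Equiv.Perm (Fin D.n))
  (e : Fin D.n ≃ PresentedGroup rels ⧸ subH rels S)

include O in
/-- every point lies in the orbit of the subgroup through the root of its label -/
theorem mem_orbit_root
    (he : ∀ g i, g • e i = e (ρ g i))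
    (hρ : ∀ (L : Word α) (i : Fin D.n), (ρ (wordG rels L) i).val = D.walk L i.val)
    (hS2 : ∀ L ∈ SW, FreeGroup.mk L ∈ S)
    (hinv : ∀ L ∈ SW, ∀ i, i < D.n → O.lab (D.walk L i) = O.lab i)
    (horb : ∀ j, j < D.n → O.orbK D SW j = true) (j : Fin D.n) :
    ∃ r : Fin D.n, r.val = O.root (O.lab j.val) ∧
      e j ∈ MulAction.orbit (subH rels S) (e r) := by
  have key : ∀ (m : Nat) (j : Fin D.n), O.ork j.val = m →
      ∃ r : Fin D.n, r.val = O.root (O.lab j.val) ∧
        e j ∈ MulAction.orbit (subH rels S) (e r) := by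
    intro m
    induction m using Nat.strong_induction_on with
    | _ m IH =>
      intro j hm
      rcases O.orbK_spec D (horb j.val j.2) with h | ⟨L, hL, hp, hrk, hw⟩
      · exact ⟨j, h.symm, MulAction.mem_orbit_self _⟩
      · obtain ⟨r, hr, hmem⟩ := IH (O.ork (O.opar j.val)) (hm ▸ hrk) ⟨O.opar j.val, hp⟩ rfl
        have hlab : O.lab (O.opar j.val) = O.lab j.val := by
          rw [← hinv L hL _ hp, hw]
        refine ⟨r, by rw [hr]; show O.root (O.lab (O.opar j.val)) = _; rw [hlab], ?_⟩
        have hmemW : wordG rels L ∈ subH rels S :=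
          Subgroup.mem_map_of_mem _ (Subgroup.subset_closure (hS2 L hL))
        have h2 : e j = (⟨wordG rels L, hmemW⟩ : subH rels S) • e ⟨O.opar j.val, hp⟩ := by
          show e j = wordG rels L • e ⟨O.opar j.val, hp⟩
          rw [he]
          congr 1
          apply Fin.ext
          rw [hρ]
          exact hw.symm
        rw [h2]
        exact MulAction.mem_orbit_of_mem_orbit _ hmem
  exact key _ j rfl

include O in
/-- a normal subgroup acts trivially or transitively, when no union of orbits of the point
stabilizer can be a nontrivial block -/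
theorem normal_dichotomy (hn : 0 < D.n)
    (he : ∀ g i, g • e i = e (ρ g i))
    (hρ : ∀ (L : Word α) (i : Fin D.n), (ρ (wordG rels L) i).val = D.walk L i.val)
    (he0 : e ⟨0, hn⟩ = QuotientGroup.mk (1 : PresentedGroup rels))
    (hS2 : ∀ L ∈ SW, FreeGroup.mk L ∈ S)
    (hinv : ∀ L ∈ SW, ∀ i, i < D.n → O.lab (D.walk L i) = O.lab i)
    (horb : ∀ j, j < D.n → O.orbK D SW j = true)
    (k c0 : Nat) (szL : List Nat)
    (hlabk : ∀ j, j < D.n → O.lab j < k) (hc0 : O.lab 0 = c0) (hroot0 : O.root c0 = 0)
    (hsz : ∀ c, c < k → cntS O.lab c D.n = szL.getD c 0)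
    (hnum : ∀ s ∈ (List.range k).sublists, c0 ∈ s →
      (s.map (fun c => szL.getD c 0)).sum ∣ D.n → s = [c0] ∨ s = List.range k)
    (K : Subgroup (PresentedGroup rels)) [hK : K.Normal] :
    (∀ g ∈ K, ρ g = 1) ∨ D.n ∣ Nat.card K := by
  classical
  let q0 : PresentedGroup rels ⧸ subH rels S := e ⟨0, hn⟩
  obtain ⟨B, hBdef⟩ : ∃ B : Set (PresentedGroup rels ⧸ subH rels S), B = MulAction.orbit K q0 :=
    ⟨_, rfl⟩
  have hblock : MulAction.IsBlock (PresentedGroup rels) B := by
    rw [hBdef]; exact MulAction.IsBlock.orbit_of_normal q0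
  have hq : q0 ∈ B := by rw [hBdef]; exact MulAction.mem_orbit_self _
  have hKB : ∀ g ∈ K, g • q0 ∈ B := by
    intro g hg
    rw [hBdef]
    exact ⟨⟨g, hg⟩, rfl⟩
  have hHq : ∀ h ∈ subH rels S, h • q0 = q0 := by
    intro h hh
    show h • e ⟨0, hn⟩ = e ⟨0, hn⟩
    rw [he0]
    show (QuotientGroup.mk (h * 1) : PresentedGroup rels ⧸ subH rels S) = QuotientGroup.mk 1
    rw [QuotientGroup.eq]
    simpa using hh
  have hBH : ∀ h ∈ subH rels S, ∀ x ∈ B, h • x ∈ B := by
    intro h hh x hx
    rw [hBdef] at hx
    obtain ⟨⟨k', hk'⟩, rfl⟩ := hx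
    have h1 : h • (⟨k', hk'⟩ : K) • q0 = (h * k' * h⁻¹) • q0 := by
      show h • k' • q0 = (h * k' * h⁻¹) • q0
      rw [mul_smul, mul_smul, hHq h⁻¹ (inv_mem hh)]
    rw [h1]
    exact hKB _ (hK.conj_mem k' hk' h)
  obtain ⟨P, hPdef⟩ : ∃ P : Nat → Prop, ∀ c, P c ↔ ∃ r : Fin D.n, r.val = O.root c ∧ e r ∈ B :=
    ⟨_, fun c => Iff.rfl⟩
  have hmemB : ∀ j : Fin D.n, e j ∈ B ↔ P (O.lab j.val) := by
    intro j
    obtain ⟨r, hr, hmem⟩ := mem_orbit_root O ρ e he hρ hS2 hinv horb j
    obtain ⟨⟨h, hh⟩, hh2⟩ := hmem
    have hh2' : h • e r = e j := hh2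
    rw [hPdef]
    constructor
    · intro hj
      refine ⟨r, hr, ?_⟩
      have : e r = h⁻¹ • e j := by rw [← hh2', inv_smul_smul]
      rw [this]
      exact hBH h⁻¹ (inv_mem hh) _ hj
    · rintro ⟨r', hr', hB'⟩
      have : r' = r := Fin.ext (by rw [hr', hr])
      rw [this] at hB'
      rw [← hh2']
      exact hBH h hh _ hB'
  have hBeq : B = e '' {j : Fin D.n | P (O.lab j.val)} := by
    ext x
    constructor
    · intro hx
      refine ⟨e.symm x, ?_, by simp⟩
      exact (hmemB _).mp (by simpa using hx)
    · rintro ⟨j, hj, rfl⟩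
      exact (hmemB j).mpr hj
  have hXcard : Nat.card (PresentedGroup rels ⧸ subH rels S) = D.n := by
    rw [← Nat.card_congr e, Nat.card_eq_fintype_card, Fintype.card_fin]
  have hcard : B.ncard =
      (((List.range k).filter (fun c => decide (P c))).map (fun c => szL.getD c 0)).sum := by
    rw [congrArg Set.ncard hBeq, Set.ncard_image_of_injective _ e.injective,
      ncard_fin_eq D.n (fun j => P (O.lab j))]
    have e1 : (Finset.range D.n).filter (fun j => P (O.lab j)) =
        (Finset.range D.n).filter (fun j => O.lab j ∈ List.range k ∧ P (O.lab j)) := by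
      apply Finset.filter_congr
      intro j hj
      simp [hlabk j (Finset.mem_range.mp hj)]
    rw [e1, card_filter_lab O.lab D.n P (List.range k) List.nodup_range]
    congr 1
    apply List.map_congr_left
    intro c hc
    exact hsz c (List.mem_range.mp (List.mem_filter.mp hc).1)
  have hdvd : B.ncard ∣ D.n := by
    have := hblock.ncard_dvd_card ⟨q0, hq⟩
    rwa [hXcard] at this
  have hc0k : c0 < k := hc0 ▸ hlabk 0 hn
  have hP0 : P c0 := (hPdef c0).mpr ⟨⟨0, hn⟩, hroot0.symm, hq⟩
  rcases hnum ((List.range k).filter (fun c => decide (P c)))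
    (List.mem_sublists.mpr List.filter_sublist)
    (List.mem_filter.mpr ⟨List.mem_range.mpr hc0k, by simpa using hP0⟩)
    (hcard ▸ hdvd) with h1 | h2
  · left
    have hB1 : ∀ x ∈ B, x = q0 := by
      intro x hx
      obtain ⟨j, rfl⟩ := e.surjective x
      have hPj := (hmemB j).mp hx
      have hjk := hlabk j.val j.2
      have hmem1 : O.lab j.val ∈ (List.range k).filter (fun c => decide (P c)) :=
        List.mem_filter.mpr ⟨List.mem_range.mpr hjk, by simpa using hPj⟩
      rw [h1] at hmem1
      have hlab : O.lab j.val = c0 := by simpa using hmem1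
      obtain ⟨r, hr, hmem⟩ := mem_orbit_root O ρ e he hρ hS2 hinv horb j
      have hr0 : r = ⟨0, hn⟩ := Fin.ext (by rw [hr, hlab, hroot0])
      rw [hr0] at hmem
      obtain ⟨⟨h, hh⟩, hh2⟩ := hmem
      have hh2' : h • q0 = e j := hh2
      rw [← hh2', hHq h hh]
    intro g hg
    have hgq : g • q0 = q0 := hB1 _ (hKB g hg)
    ext i
    have hi : g • e i = e i := by
      obtain ⟨t, ht⟩ := MulAction.exists_smul_eq (PresentedGroup rels) q0 (e i)
      have h3 : (t⁻¹ * g * t) • q0 = q0 := hB1 _ (hKB _ (hK.conj_mem' g hg t))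
      rw [← ht]
      calc g • t • q0 = t • (t⁻¹ * g * t) • q0 := by
            rw [← mul_smul, ← mul_smul]; congr 1; group
        _ = t • q0 := by rw [h3]
    rw [he] at hi
    have := e.injective hi
    rw [this]
    rfl
  · right
    have hall : ∀ x, x ∈ B := by
      intro x
      obtain ⟨j, rfl⟩ := e.surjective x
      have hjk := hlabk j.val j.2
      have hmem1 : O.lab j.val ∈ (List.range k).filter (fun c => decide (P c)) := by
        rw [h2]; exact List.mem_range.mpr hjk
      exact (hmemB j).mpr (by simpa using (List.mem_filter.mp hmem1).2)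
    have h1 : (MulAction.orbit K q0).ncard * Nat.card (MulAction.stabilizer K q0) =
        Nat.card K := by
      rw [← MulAction.index_stabilizer, Subgroup.index_mul_card]
    have h3 : (MulAction.orbit K q0) = Set.univ := hBdef ▸ Set.eq_univ_of_forall hall
    rw [h3, Set.ncard_univ, hXcard] at h1
    exact Dvd.intro _ h1

end Prim

/-! ## Layer 8: simplicity -/

theorem mem_of_pow_coprime {G : Type*} [Group G] (K : Subgroup G) [K.Normal] (y : G) (p : ℕ)
    (hy : y ^ p = 1) (hcop : Nat.Coprime p K.index) : y ∈ K := by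
  have h1 : (QuotientGroup.mk y : G ⧸ K) ^ p = 1 := by
    rw [← QuotientGroup.mk_pow, hy]; rfl
  have h2 : (QuotientGroup.mk y : G ⧸ K) ^ K.index = 1 := by
    rw [Subgroup.index_eq_card]; exact pow_card_eq_one'
  have h3 : orderOf (QuotientGroup.mk y : G ⧸ K) ∣ Nat.gcd p K.index :=
    Nat.dvd_gcd (orderOf_dvd_of_pow_eq_one h1) (orderOf_dvd_of_pow_eq_one h2)
  rw [hcop.gcd_eq_one, Nat.dvd_one, orderOf_eq_one_iff] at h3
  exact (QuotientGroup.eq_one_iff y).mp h3

theorem normal_eq_top_of_collapse {α : Type} (rels rels' : Set (FreeGroup α)) (Y : FreeGroup α)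
    (hsub : ∀ r ∈ rels', PresentedGroup.mk rels r = 1 ∨ r = Y)
    (htriv : Subsingleton (PresentedGroup rels'))
    (K : Subgroup (PresentedGroup rels)) [K.Normal] (hy : PresentedGroup.mk rels Y ∈ K) :
    K = ⊤ := by
  let f : FreeGroup α →* PresentedGroup rels ⧸ K :=
    (QuotientGroup.mk' K).comp (PresentedGroup.mk rels)
  have hlift : FreeGroup.lift (fun x => f (FreeGroup.of x)) = f := by
    ext x; simp
  have hf : ∀ r ∈ rels', FreeGroup.lift (fun x => f (FreeGroup.of x)) r = 1 := by
    intro r hr
    rw [hlift]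
    rcases hsub r hr with h | rfl
    · show QuotientGroup.mk' K (PresentedGroup.mk rels r) = 1
      rw [h, map_one]
    · show (QuotientGroup.mk (PresentedGroup.mk rels r) : PresentedGroup rels ⧸ K) = 1
      exact (QuotientGroup.eq_one_iff _).mpr hy
  rw [eq_top_iff]
  intro x _
  obtain ⟨w, rfl⟩ := QuotientGroup.mk_surjective x
  have h1 : f w = PresentedGroup.toGroup hf (PresentedGroup.mk rels' w) := by
    conv_lhs => rw [← hlift]
    rfl
  have h2 : PresentedGroup.mk rels' w = 1 := Subsingleton.elim _ _
  rw [h2, map_one] at h1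
  exact (QuotientGroup.eq_one_iff _).mp h1

theorem subsingleton_of_index_one {α : Type} (rels : Set (FreeGroup α))
    (h : (subH rels (genSet ([] : List α))).index = 1) : Subsingleton (PresentedGroup rels) := by
  rw [subH_genSet_nil, Subgroup.index_bot] at h
  exact (Nat.card_eq_one_iff_unique.mp h).1

/-- the relators of a collapse presentation: trivial in the group, or the new relator -/
theorem collapse_sub {α : Type} (rels : Set (FreeGroup α)) (RW : List (Word α)) (Y : Word α)
    (hRW : ∀ L ∈ RW, wordG rels L = 1) :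
    ∀ r ∈ relSet (RW ++ [Y]), PresentedGroup.mk rels r = 1 ∨ r = FreeGroup.mk Y := by
  rintro r ⟨L, hL, rfl⟩
  rcases List.mem_append.mp hL with h | h
  · exact Or.inl (hRW L h)
  · right
    rw [List.mem_singleton.mp h]

theorem wordG_flatten_replicate {α : Type} (rels : Set (FreeGroup α)) (Y : Word α) (p : ℕ) :
    wordG rels (List.replicate p Y).flatten = wordG rels Y ^ p := by
  induction p with
  | zero => rw [List.replicate_zero, List.flatten_nil, wordG_nil, pow_zero]
  | succ k ih => rw [List.replicate_succ, List.flatten_cons, wordG_append, ih, pow_succ']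

theorem wordG_eq_one_of_walk {α : Type} {D : Data α} {rels : Set (FreeGroup α)}
    (ρ : PresentedGroup rels →* Equiv.Perm (Fin D.n)) (hinj : Function.Injective ρ)
    (hρ : ∀ (L : Word α) (i : Fin D.n), (ρ (wordG rels L) i).val = D.walk L i.val)
    (L : Word α) (h : ∀ i, i < D.n → D.walk L i = i) : wordG rels L = 1 := by
  apply hinj
  rw [map_one]
  ext i
  rw [hρ]
  exact h i.val i.2

theorem simple_of_data {α : Type} {D : Data α} {rels : Set (FreeGroup α)}
    (ρ : PresentedGroup rels →* Equiv.Perm (Fin D.n))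
    (N p : ℕ) (y : PresentedGroup rels)
    (hfin : Finite (PresentedGroup rels)) (hcard : Nat.card (PresentedGroup rels) = N)
    (hN : 1 < N) (hinj : Function.Injective ρ)
    (hdich : ∀ K : Subgroup (PresentedGroup rels), K.Normal →
      (∀ g ∈ K, ρ g = 1) ∨ D.n ∣ Nat.card K)
    (hn : 0 < D.n) (hcop : Nat.Coprime p (N / D.n)) (hy : y ^ p = 1)
    (htop : ∀ K : Subgroup (PresentedGroup rels), K.Normal → y ∈ K → K = ⊤) :
    IsSimpleGroup (PresentedGroup rels) ∧ Nat.card (PresentedGroup rels) = N := by
  refine ⟨?_, hcard⟩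
  haveI : Nontrivial (PresentedGroup rels) :=
    Finite.one_lt_card_iff_nontrivial.mp (hcard ▸ hN)
  refine ⟨fun K hK => ?_⟩
  rcases hdich K hK with h1 | h2
  · left
    rw [eq_bot_iff]
    intro g hg
    have : ρ g = ρ 1 := by rw [h1 g hg, map_one]
    exact Subgroup.mem_bot.mpr (hinj this)
  · right
    obtain ⟨t, ht⟩ := h2
    have h3 : K.index * Nat.card K = N := by rw [Subgroup.index_mul_card, hcard]
    have h4 : N / D.n = K.index * t := by
      apply Nat.div_eq_of_eq_mul_right hn
      rw [← h3, ht]
      ring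
    have h5 : Nat.Coprime p K.index :=
      Nat.Coprime.coprime_dvd_right (Dvd.intro t h4.symm) hcop
    exact htop K hK (mem_of_pow_coprime K y p hy h5)

end Cfsg.Agent.Lib.helper9.CE
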