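import Cfsg.Agent.Lib.helper9.CosetBase
import Cfsg.Prelude.Def_SporadicB

/-!
# Classes of 3-transpositions read off a coset table

Abstract part: a subgroup `H` commuting with an involution `d0`, together with double coset
representatives that do not commute with `d0`, is the centralizer of `d0`; the products of two
conjugates of `d0` have order at most 3 as soon as this holds for the representatives.
Concrete part: the double coset decomposition comes from the orbits of `H` on the points.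
-/

set_option autoImplicit false

namespace Cfsg.Agent.Lib.helper9.TT

open scoped Pointwise

section Abstract

variable {G : Type*} [Group G]

theorem mem_centralizer_single {d g : G} :
    g ∈ Subgroup.centralizer ({d} : Set G) ↔ d * g = g * d := by
  rw [Subgroup.mem_centralizer_iff]
  constructor
  · intro h
    exact h d rfl
  · intro h x hx
    rw [Set.mem_singleton_iff.mp hx]
    exact h

/-- the size of a conjugacy class is the index of the centralizer -/
theorem card_conjugatesOf (d : G) :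
    Nat.card (conjugatesOf d) = (Subgroup.centralizer ({d} : Set G)).index := by
  rw [Subgroup.index_eq_card]
  symm
  let f : G ⧸ Subgroup.centralizer ({d} : Set G) → conjugatesOf d :=
    fun q => Quotient.liftOn' q
      (fun g => (⟨g * d * g⁻¹, isConj_iff.mpr ⟨g, rfl⟩⟩ : conjugatesOf d))
      (by
        intro x y hxy
        have h := mem_centralizer_single.mp (QuotientGroup.leftRel_apply.mp hxy)
        apply Subtype.ext
        show x * d * x⁻¹ = y * d * y⁻¹
        calc x * d * x⁻¹ = x * (d * (x⁻¹ * y)) * y⁻¹ := by group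
          _ = x * (x⁻¹ * y * d) * y⁻¹ := by rw [h]
          _ = y * d * y⁻¹ := by group)
  apply Nat.card_congr
  refine Equiv.ofBijective f ⟨?_, ?_⟩
  · intro q1 q2
    induction q1 using QuotientGroup.induction_on with
    | H x =>
      induction q2 using QuotientGroup.induction_on with
      | H y =>
        intro hxy
        have hval : x * d * x⁻¹ = y * d * y⁻¹ := congrArg Subtype.val hxy
        apply QuotientGroup.eq.mpr
        apply mem_centralizer_single.mpr
        calc d * (x⁻¹ * y) = x⁻¹ * (x * d * x⁻¹) * y := by group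
          _ = x⁻¹ * (y * d * y⁻¹) * y := by rw [hval]
          _ = x⁻¹ * y * d := by group
  · rintro ⟨b, hb⟩
    obtain ⟨c, hc⟩ := isConj_iff.mp hb
    exact ⟨QuotientGroup.mk c, Subtype.ext hc⟩

/-- the centralizers of conjugate elements are isomorphic -/
theorem centralizer_conj_equiv (x d : G) :
    Nonempty (Subgroup.centralizer ({x * d * x⁻¹} : Set G) ≃*
      Subgroup.centralizer ({d} : Set G)) := by
  refine ⟨{ toFun := fun g => ⟨x⁻¹ * g.1 * x, ?_⟩
            invFun := fun c => ⟨x * c.1 * x⁻¹, ?_⟩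
            left_inv := ?_
            right_inv := ?_
            map_mul' := ?_ }⟩
  · have h := mem_centralizer_single.mp g.2
    apply mem_centralizer_single.mpr
    calc d * (x⁻¹ * g.1 * x) = x⁻¹ * (x * d * x⁻¹ * g.1) * x := by group
      _ = x⁻¹ * (g.1 * (x * d * x⁻¹)) * x := by rw [h]
      _ = x⁻¹ * g.1 * x * d := by group
  · have h := mem_centralizer_single.mp c.2
    apply mem_centralizer_single.mpr
    calc x * d * x⁻¹ * (x * c.1 * x⁻¹) = x * (d * c.1) * x⁻¹ := by group
      _ = x * (c.1 * d) * x⁻¹ := by rw [h]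
      _ = x * c.1 * x⁻¹ * (x * d * x⁻¹) := by group
  · intro g
    apply Subtype.ext
    show x * (x⁻¹ * g.1 * x) * x⁻¹ = g.1
    group
  · intro c
    apply Subtype.ext
    show x⁻¹ * (x * c.1 * x⁻¹) * x = c.1
    group
  · intro a b
    apply Subtype.ext
    show x⁻¹ * (a.1 * b.1) * x = (x⁻¹ * a.1 * x) * (x⁻¹ * b.1 * x)
    group

/-- being a non-split double cover is invariant under isomorphism -/
theorem nsdc_of_mulEquiv {H H' K : Type*} [Group H] [Group H'] [Group K] (φ : H ≃* H')
    (h : Cfsg.IsNonsplitDoubleCover H K) : Cfsg.IsNonsplitDoubleCover H' K := by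
  obtain ⟨h1, ⟨ψ⟩, h3⟩ := h
  have hmap : (Subgroup.center H).map (φ : H →* H') = Subgroup.center H' := by
    ext z
    constructor
    · rintro ⟨w, hw, rfl⟩
      rw [Subgroup.mem_center_iff]
      intro g
      obtain ⟨g0, rfl⟩ := φ.surjective g
      have h0 := Subgroup.mem_center_iff.mp hw g0
      show φ g0 * φ w = φ w * φ g0
      rw [← map_mul, ← map_mul, h0]
    · intro hz
      refine ⟨φ.symm z, ?_, φ.apply_symm_apply z⟩
      show φ.symm z ∈ Subgroup.center H
      rw [Subgroup.mem_center_iff]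
      intro g
      apply φ.injective
      rw [map_mul, map_mul, φ.apply_symm_apply]
      exact Subgroup.mem_center_iff.mp hz (φ g)
  refine ⟨?_, ⟨?_⟩, ?_⟩
  · rw [← h1]
    exact Nat.card_congr (Subgroup.centerCongr φ).symm.toEquiv
  · exact (QuotientGroup.congr (Subgroup.center H) (Subgroup.center H') φ hmap).symm.trans ψ
  · intro L' hL'
    apply h3 (L'.comap (φ : H →* H'))
    apply Subgroup.isComplement'_of_disjoint_and_mul_eq_univ
    · rw [Subgroup.disjoint_def]
      intro x hx hxL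
      have hx' : φ x ∈ Subgroup.center H' := by
        rw [← hmap]
        exact Subgroup.mem_map_of_mem _ hx
      have h0 := Subgroup.disjoint_def.mp hL'.disjoint hx' hxL
      apply φ.injective
      rw [h0, map_one]
    · rw [Set.eq_univ_iff_forall]
      intro x
      have hmul : ((Subgroup.center H' : Set H') * (L' : Set H')) = Set.univ := hL'.mul_eq
      have hx : φ x ∈ ((Subgroup.center H' : Set H') * (L' : Set H')) := by
        rw [hmul]
        exact Set.mem_univ _
      obtain ⟨z', hz', l', hl', hzl⟩ := Set.mem_mul.mp hx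
      refine Set.mem_mul.mpr ⟨φ.symm z', ?_, φ.symm l', ?_, ?_⟩
      · rw [← hmap] at hz'
        obtain ⟨w, hw, rfl⟩ := hz'
        show φ.symm (φ w) ∈ Subgroup.center H
        rw [φ.symm_apply_apply]
        exact hw
      · show φ (φ.symm l') ∈ L'
        rw [φ.apply_symm_apply]
        exact hl'
      · apply φ.injective
        rw [map_mul, φ.apply_symm_apply, φ.apply_symm_apply]
        exact hzl

/-- a subgroup commuting with `d0` whose nontrivial double coset representatives do not commute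
with `d0` is the centralizer of `d0` -/
theorem centralizer_eq_of_dc (H : Subgroup G) (d0 : G) (T : Set G)
    (hH : ∀ h ∈ H, h * d0 = d0 * h)
    (hdc : ∀ g : G, g ∈ H ∨ ∃ t ∈ T, ∃ h ∈ H, ∃ h' ∈ H, g = h * t * h')
    (hT : ∀ t ∈ T, t * d0 ≠ d0 * t) :
    Subgroup.centralizer ({d0} : Set G) = H := by
  apply le_antisymm
  · intro g hg
    rw [mem_centralizer_single] at hg
    rcases hdc g with h | ⟨t, ht, h, hh, h', hh', rfl⟩
    · exact h
    · exfalso
      apply hT t ht
      have e1 := hH h⁻¹ (inv_mem hh)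
      have e2 := hH h'⁻¹ (inv_mem hh')
      calc t * d0 = h⁻¹ * (h * t * h') * (h'⁻¹ * d0) := by group
        _ = h⁻¹ * (h * t * h') * (d0 * h'⁻¹) := by rw [e2]
        _ = h⁻¹ * (h * t * h' * d0) * h'⁻¹ := by group
        _ = h⁻¹ * (d0 * (h * t * h')) * h'⁻¹ := by rw [hg]
        _ = (h⁻¹ * d0) * h * t := by group
        _ = (d0 * h⁻¹) * h * t := by rw [e1]
        _ = d0 * t := by group
  · intro g hg
    rw [mem_centralizer_single]
    exact (hH g hg).symm

/-- products of two conjugates of `d0` have order at most 3 when this holds for the double coset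
representatives -/
theorem three_transp_of_dc (H : Subgroup G) (d0 : G) (T : Set G)
    (hH : ∀ h ∈ H, h * d0 = d0 * h) (hd2 : d0 * d0 = 1)
    (hdc : ∀ g : G, g ∈ H ∨ ∃ t ∈ T, ∃ h ∈ H, ∃ h' ∈ H, g = h * t * h')
    (hT : ∀ t ∈ T, (d0 * (t * d0 * t⁻¹)) ^ 2 = 1 ∨ (d0 * (t * d0 * t⁻¹)) ^ 3 = 1)
    (x y : G) :
    ((x * d0 * x⁻¹) * (y * d0 * y⁻¹)) ^ 2 = 1 ∨ ((x * d0 * x⁻¹) * (y * d0 * y⁻¹)) ^ 3 = 1 := by
  have key : ∀ g : G, (d0 * (g * d0 * g⁻¹)) ^ 2 = 1 ∨ (d0 * (g * d0 * g⁻¹)) ^ 3 = 1 := by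
    intro g
    rcases hdc g with h | ⟨t, ht, h, hh, h', hh', rfl⟩
    · left
      have e0 : g * d0 * g⁻¹ = d0 := by
        rw [hH g h]
        group
      rw [e0, hd2, one_pow]
    · have e1 := hH h hh
      have e2 := hH h' hh'
      have e : d0 * (h * t * h' * d0 * (h * t * h')⁻¹) = h * (d0 * (t * d0 * t⁻¹)) * h⁻¹ := by
        calc d0 * (h * t * h' * d0 * (h * t * h')⁻¹)
            = d0 * h * t * (h' * d0) * h'⁻¹ * t⁻¹ * h⁻¹ := by group
          _ = d0 * h * t * (d0 * h') * h'⁻¹ * t⁻¹ * h⁻¹ := by rw [e2]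
          _ = (d0 * h) * (t * d0 * t⁻¹) * h⁻¹ := by group
          _ = (h * d0) * (t * d0 * t⁻¹) * h⁻¹ := by rw [e1]
          _ = h * (d0 * (t * d0 * t⁻¹)) * h⁻¹ := by group
      rw [e, conj_pow, conj_pow]
      rcases hT t ht with h2 | h3
      · left
        rw [h2]
        group
      · right
        rw [h3]
        group
  have e : x * d0 * x⁻¹ * (y * d0 * y⁻¹) =
      x * (d0 * ((x⁻¹ * y) * d0 * (x⁻¹ * y)⁻¹)) * x⁻¹ := by group
  rw [e, conj_pow, conj_pow]
  rcases key (x⁻¹ * y) with h2 | h3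
  · left
    rw [h2]
    group
  · right
    rw [h3]
    group

/-- the class of `d0` is a class of 3-transpositions with centralizers isomorphic to `H` -/
theorem three_transposition_class_of_dc (H : Subgroup G) (d0 : G) (T : Set G) (X : Set G)
    (hH : ∀ h ∈ H, h * d0 = d0 * h) (hd2 : d0 * d0 = 1) (hd1 : d0 ≠ 1)
    (hdc : ∀ g : G, g ∈ H ∨ ∃ t ∈ T, ∃ h ∈ H, ∃ h' ∈ H, g = h * t * h')
    (hT1 : ∀ t ∈ T, t * d0 ≠ d0 * t)
    (hT2 : ∀ t ∈ T, (d0 * (t * d0 * t⁻¹)) ^ 2 = 1 ∨ (d0 * (t * d0 * t⁻¹)) ^ 3 = 1)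
    (hX : Subgroup.closure X = ⊤) (hXc : ∀ x ∈ X, ∃ g : G, x = g * d0 * g⁻¹) :
    Cfsg.IsThreeTranspositionClass (conjugatesOf d0) ∧ Nat.card (conjugatesOf d0) = H.index ∧
      ∀ d ∈ conjugatesOf d0, Nonempty (Subgroup.centralizer ({d} : Set G) ≃* H) := by
  have hC := centralizer_eq_of_dc H d0 T hH hdc hT1
  unfold Cfsg.IsThreeTranspositionClass Cfsg.IsThreeTranspositionSet
  refine ⟨⟨⟨?_, ?_⟩, ⟨d0, mem_conjugatesOf_self, rfl⟩, ?_⟩, ?_, ?_⟩
  · intro d hd
    obtain ⟨c, rfl⟩ := isConj_iff.mp hd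
    have h2 : (c * d0 * c⁻¹) ^ 2 = 1 := by
      rw [conj_pow, pow_two, hd2]
      group
    have h1 : c * d0 * c⁻¹ ≠ 1 := by
      intro h
      apply hd1
      have e : d0 = c⁻¹ * (c * d0 * c⁻¹) * c := by group
      rw [e, h]
      group
    exact orderOf_eq_prime h2 h1
  · intro d hd e he
    obtain ⟨x, rfl⟩ := isConj_iff.mp hd
    obtain ⟨y, rfl⟩ := isConj_iff.mp he
    exact three_transp_of_dc H d0 T hH hd2 hdc hT2 x y
  · rw [eq_top_iff, ← hX]
    apply Subgroup.closure_mono
    intro x hx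
    obtain ⟨g, rfl⟩ := hXc x hx
    exact isConj_iff.mpr ⟨g, rfl⟩
  · rw [card_conjugatesOf, hC]
  · intro d hd
    obtain ⟨x, rfl⟩ := isConj_iff.mp hd
    obtain ⟨φ⟩ := centralizer_conj_equiv x d0
    exact ⟨φ.trans (MulEquiv.subgroupCongr hC)⟩

end Abstract

open Cfsg.Agent.Lib.helper9.CE

section Data

variable {α : Type} {D : Data α} {rels : Set (FreeGroup α)} {S : Set (FreeGroup α)}
  {SW : List (Word α)} (O : OData)
  (ρ : PresentedGroup rels →* Equiv.Perm (Fin D.n))
  (e : Fin D.n ≃ PresentedGroup rels ⧸ subH rels S)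

theorem wordG_invRev (rels : Set (FreeGroup α)) (L : Word α) :
    wordG rels (FreeGroup.invRev L) = (wordG rels L)⁻¹ := by
  unfold wordG
  rw [← map_inv, FreeGroup.inv_mk]

/-- two words acting differently on a point are different in the group -/
noncomputable def neK (D : Data α) (A B : Word α) (p : Nat) : Bool :=
  D.walkK A p (fun x => D.walkK B p (fun y => !(Nat.beq x y)))

theorem neK_spec {A B : Word α} {p : Nat} (h : neK D A B p = true) :
    D.walk A p ≠ D.walk B p := by
  unfold neK at h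
  have h1 := D.walkK_spec A p _ h
  have h2 := D.walkK_spec B p _ h1
  intro heq
  rw [heq] at h2
  simp at h2

/-- a word maps a point to a given point -/
noncomputable def toK (D : Data α) (A : Word α) (p q : Nat) : Bool :=
  D.walkK A p (fun x => Nat.beq x q)

theorem toK_spec {A : Word α} {p q : Nat} (h : toK D A p q = true) : D.walk A p = q := by
  unfold toK at h
  exact Nat.eq_of_beq_eq_true (D.walkK_spec A p _ h)

include O in
/-- the double coset decomposition given by the orbits of the subgroup on the points -/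
theorem dc_of_data (hn : 0 < D.n)
    (he : ∀ g i, g • e i = e (ρ g i))
    (hρ : ∀ (L : Word α) (i : Fin D.n), (ρ (wordG rels L) i).val = D.walk L i.val)
    (he0 : e ⟨0, hn⟩ = QuotientGroup.mk (1 : PresentedGroup rels))
    (hS2 : ∀ L ∈ SW, FreeGroup.mk L ∈ S)
    (hinv : ∀ L ∈ SW, ∀ i, i < D.n → O.lab (D.walk L i) = O.lab i)
    (horb : ∀ j, j < D.n → O.orbK D SW j = true)
    (k c0 : Nat) (hlabk : ∀ j, j < D.n → O.lab j < k) (hroot0 : O.root c0 = 0)
    (TW : List (Word α))
    (hTW : ∀ c, c < k → c ≠ c0 → ∃ L ∈ TW, D.walk L 0 = O.root c)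
    (g : PresentedGroup rels) :
    g ∈ subH rels S ∨ ∃ t ∈ {t : PresentedGroup rels | ∃ L ∈ TW, t = wordG rels L},
      ∃ h ∈ subH rels S, ∃ h' ∈ subH rels S, g = h * t * h' := by
  obtain ⟨r, hr, hmem⟩ := mem_orbit_root O ρ e he hρ hS2 hinv horb (ρ g ⟨0, hn⟩)
  obtain ⟨h, hh⟩ := MulAction.mem_orbit_iff.mp hmem
  have hh' : h.val • e r = e (ρ g ⟨0, hn⟩) := hh
  have hstab : ∀ x : PresentedGroup rels, x • e ⟨0, hn⟩ = e ⟨0, hn⟩ → x ∈ subH rels S := by
    intro x hx
    rw [he0] at hx
    have h0 : (QuotientGroup.mk (x * 1) : PresentedGroup rels ⧸ subH rels S) =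
        QuotientGroup.mk 1 := hx
    rw [QuotientGroup.eq] at h0
    simpa using h0
  have hfix : ∀ x ∈ subH rels S, x • e ⟨0, hn⟩ = e ⟨0, hn⟩ := by
    intro x hx
    rw [he0]
    show (QuotientGroup.mk (x * 1) : PresentedGroup rels ⧸ subH rels S) = QuotientGroup.mk 1
    rw [QuotientGroup.eq]
    simpa using hx
  by_cases hc : O.lab (ρ g ⟨0, hn⟩).val = c0
  · left
    have hr0 : r = ⟨0, hn⟩ := Fin.ext (by rw [hr, hc, hroot0])
    apply hstab
    rw [he, ← hh', hr0]
    exact hfix h.val h.2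
  · right
    obtain ⟨L, hL, hw⟩ := hTW _ (hlabk _ (ρ g ⟨0, hn⟩).2) hc
    have h1 : wordG rels L • e ⟨0, hn⟩ = e r := by
      rw [he]
      congr 1
      apply Fin.ext
      rw [hρ, hr]
      exact hw
    refine ⟨wordG rels L, ⟨L, hL, rfl⟩, h.val, h.2, (h.val * wordG rels L)⁻¹ * g, ?_, by group⟩
    apply hstab
    rw [mul_smul, he g, ← hh', ← h1, ← mul_smul h.val (wordG rels L), inv_smul_smul]

include O in
/-- a class of 3-transpositions from word data checked on the points -/
theorem three_transposition_of_data (hn : 0 < D.n)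
    (he : ∀ g i, g • e i = e (ρ g i))
    (hρ : ∀ (L : Word α) (i : Fin D.n), (ρ (wordG rels L) i).val = D.walk L i.val)
    (he0 : e ⟨0, hn⟩ = QuotientGroup.mk (1 : PresentedGroup rels))
    (hS1 : ∀ s ∈ S, ∃ L ∈ SW, s = FreeGroup.mk L)
    (hS2 : ∀ L ∈ SW, FreeGroup.mk L ∈ S)
    (hinv : ∀ L ∈ SW, ∀ i, i < D.n → O.lab (D.walk L i) = O.lab i)
    (horb : ∀ j, j < D.n → O.orbK D SW j = true)
    (k c0 : Nat) (hlabk : ∀ j, j < D.n → O.lab j < k) (hroot0 : O.root c0 = 0)
    (bl : List (Fin D.n)) (hbot : pstab (PresentedGroup rels) (bl.map e) = ⊥)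
    (Wd : Word α) (TW : List (Word α)) (gw : α → Word α)
    (hTW : ∀ c, c < k → c ≠ c0 → ∃ L ∈ TW, D.walk L 0 = O.root c)
    (hd2 : ∀ p ∈ bl, D.walk (Wd ++ Wd) p.val = p.val)
    (hcomm : ∀ L ∈ SW, ∀ p ∈ bl,
      D.walk (L ++ Wd ++ FreeGroup.invRev L ++ FreeGroup.invRev Wd) p.val = p.val)
    (hd1 : ∃ p, p < D.n ∧ D.walk Wd p ≠ p)
    (hT1 : ∀ L ∈ TW, ∃ p, p < D.n ∧ D.walk (L ++ Wd) p ≠ D.walk (Wd ++ L) p)
    (hT2 : ∀ L ∈ TW,
      (∀ p ∈ bl, D.walk (List.replicate 2 (Wd ++ L ++ Wd ++ FreeGroup.invRev L)).flatten p.val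
        = p.val) ∨
      (∀ p ∈ bl, D.walk (List.replicate 3 (Wd ++ L ++ Wd ++ FreeGroup.invRev L)).flatten p.val
        = p.val))
    (hgw : ∀ x : α, ∀ p ∈ bl,
      D.walk ((x, false) :: (gw x ++ Wd ++ FreeGroup.invRev (gw x))) p.val = p.val) :
    Cfsg.IsThreeTranspositionClass (conjugatesOf (wordG rels Wd)) ∧
      Nat.card (conjugatesOf (wordG rels Wd)) = (subH rels S).index ∧
      ∀ d ∈ conjugatesOf (wordG rels Wd),
        Nonempty (Subgroup.centralizer ({d} : Set (PresentedGroup rels)) ≃* subH rels S) := by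
  have W1 : ∀ L : Word α, (∀ p ∈ bl, D.walk L p.val = p.val) → wordG rels L = 1 :=
    fun L h => wordG_eq_one_of_base ρ e he hρ bl hbot L h
  have hd2' : wordG rels Wd * wordG rels Wd = 1 := by
    rw [← wordG_append]
    exact W1 _ hd2
  have hle : subH rels S ≤ Subgroup.centralizer ({wordG rels Wd} : Set (PresentedGroup rels)) := by
    rw [Subgroup.map_le_iff_le_comap, Subgroup.closure_le]
    intro s hs
    obtain ⟨L, hL, rfl⟩ := hS1 s hs
    show wordG rels L ∈ Subgroup.centralizer ({wordG rels Wd} : Set (PresentedGroup rels))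
    rw [mem_centralizer_single]
    have h0 := W1 _ (hcomm L hL)
    rw [wordG_append, wordG_append, wordG_append, wordG_invRev, wordG_invRev] at h0
    exact (mul_inv_eq_iff_eq_mul.mp (mul_inv_eq_one.mp h0)).symm
  have hH : ∀ h ∈ subH rels S, h * wordG rels Wd = wordG rels Wd * h :=
    fun h hh => (mem_centralizer_single.mp (hle hh)).symm
  have hd1' : wordG rels Wd ≠ 1 := by
    intro h0
    obtain ⟨p, hp, hne⟩ := hd1
    apply hne
    rw [← hρ Wd ⟨p, hp⟩, h0, map_one]
    rfl
  have hT1' : ∀ t ∈ {t : PresentedGroup rels | ∃ L ∈ TW, t = wordG rels L},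
      t * wordG rels Wd ≠ wordG rels Wd * t := by
    rintro _ ⟨L, hL, rfl⟩ heq
    obtain ⟨p, hp, hne⟩ := hT1 L hL
    apply hne
    rw [← hρ (L ++ Wd) ⟨p, hp⟩, ← hρ (Wd ++ L) ⟨p, hp⟩, wordG_append, wordG_append, heq]
  have hT2' : ∀ t ∈ {t : PresentedGroup rels | ∃ L ∈ TW, t = wordG rels L},
      (wordG rels Wd * (t * wordG rels Wd * t⁻¹)) ^ 2 = 1 ∨
      (wordG rels Wd * (t * wordG rels Wd * t⁻¹)) ^ 3 = 1 := by
    rintro _ ⟨L, hL, rfl⟩
    have e0 : wordG rels Wd * (wordG rels L * wordG rels Wd * (wordG rels L)⁻¹) =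
        wordG rels (Wd ++ L ++ Wd ++ FreeGroup.invRev L) := by
      rw [wordG_append, wordG_append, wordG_append, wordG_invRev]
      group
    rw [e0]
    rcases hT2 L hL with h | h
    · left
      rw [← wordG_flatten_replicate]
      exact W1 _ h
    · right
      rw [← wordG_flatten_replicate]
      exact W1 _ h
  have hXc : ∀ x ∈ Set.range (PresentedGroup.of : α → PresentedGroup rels),
      ∃ g : PresentedGroup rels, x = g * wordG rels Wd * g⁻¹ := by
    rintro _ ⟨x, rfl⟩
    refine ⟨wordG rels (gw x), ?_⟩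
    have h0 := W1 _ (hgw x)
    rw [wordG_cons, wordG_false, wordG_append, wordG_append, wordG_invRev] at h0
    exact inv_mul_eq_one.mp h0
  exact three_transposition_class_of_dc (subH rels S) (wordG rels Wd) _ _ hH hd2' hd1'
    (dc_of_data O ρ e hn he hρ he0 hS2 hinv horb k c0 hlabk hroot0 TW hTW) hT1' hT2'
    (PresentedGroup.closure_range_of rels) hXc

end Data

end Cfsg.Agent.Lib.helper9.TT
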